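import Mathlib
import Cfsg.Agent.H1.Chief
import Cfsg.Agent.H1.Cores
import Cfsg.Agent.H23.RankOne
import Cfsg.Agent.H23.PSolvable
import Cfsg.Agent.H23.Coprime
import Cfsg.Agent.H24.Decomp
import Cfsg.Agent.H4.QuatEquiv
import Cfsg.Agent.H19.PCyclic

set_option autoImplicit false
set_option linter.all false

/-! # H23/AbConj: groups in which abelian subgroups of equal order are conjugate (helper23). -/

namespace Cfsg.Agent.H23.AbConj

open Subgroup Cfsg.Agent.H23
open scoped Pointwise

universe u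

def BP (G : Type*) [Group G] : Prop := ∀ A B : Subgroup G, IsMulCommutative ↥A → IsMulCommutative ↥B →
  Nat.card ↥A = Nat.card ↥B → ∃ g : G, B = A.map (MulAut.conj g).toMonoidHom

theorem BP.of_equiv {G H : Type*} [Group G] [Group H] (e : G ≃* H) (h : BP G) : BP H := by
  intro A B hA hB hAB
  have hcm : ∀ C : Subgroup H, IsMulCommutative C → IsMulCommutative (C.comap e.toMonoidHom) := by
    intro C hC
    refine ⟨⟨?_⟩⟩
    rintro ⟨a, ha⟩ ⟨b, hb⟩
    apply Subtype.ext
    apply e.injective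
    have := hC.1.1 ⟨e a, ha⟩ ⟨e b, hb⟩
    have h2 := congrArg (fun z : C => (z : H)) this
    change e (a * b) = e (b * a)
    rw [map_mul, map_mul]
    exact h2
  have hcard : ∀ C : Subgroup H, Nat.card (C.comap e.toMonoidHom) = Nat.card C := by
    intro C
    have h1 : (C.comap e.toMonoidHom).map e.toMonoidHom = C :=
      Subgroup.map_comap_eq_self_of_surjective e.surjective C
    conv_rhs => rw [← h1]
    exact (Subgroup.card_map_of_injective e.injective).symm
  obtain ⟨g, hg⟩ := h (A.comap e.toMonoidHom) (B.comap e.toMonoidHom) (hcm A hA) (hcm B hB)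
    (by rw [hcard, hcard, hAB])
  refine ⟨e g, ?_⟩
  have h1 : ∀ C : Subgroup H, (C.comap e.toMonoidHom).map e.toMonoidHom = C := fun C =>
    Subgroup.map_comap_eq_self_of_surjective e.surjective C
  rw [← h1 B, hg, Subgroup.map_map]
  conv_rhs => rw [← h1 A]
  rw [Subgroup.map_map]
  congr 1
  ext x
  simp

variable {G : Type*} [Group G]

theorem BP.conj_elem [Finite G] (h : BP G) {x y : G} (hxy : orderOf x = orderOf y) :
    ∃ g : G, g * x * g⁻¹ ∈ zpowers y ∧ y ∈ (zpowers x).map (MulAut.conj g).toMonoidHom := by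
  obtain ⟨g, hg⟩ := h (zpowers x) (zpowers y) inferInstance inferInstance
    (by rw [Nat.card_zpowers, Nat.card_zpowers, hxy])
  refine ⟨g, ?_, ?_⟩
  · rw [hg]; exact ⟨x, mem_zpowers x, rfl⟩
  · rw [← hg]; exact mem_zpowers y

theorem BP.mem_of_orderOf_eq [Finite G] (h : BP G) {M : Subgroup G} (hM : M.Normal) {m x : G} (hm : m ∈ M)
    (hmx : orderOf x = orderOf m) : x ∈ M := by
  obtain ⟨g, hg, -⟩ := h.conj_elem hmx
  have h1 : g * x * g⁻¹ ∈ M := (zpowers_le.mpr hm) hg
  have h2 := hM.conj_mem _ h1 g⁻¹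
  have e : g⁻¹ * (g * x * g⁻¹) * g⁻¹⁻¹ = x := by group
  rwa [e] at h2

/-- structure of an abelian-by-`M` group -/
theorem data {A : Type*} [Group A] [Finite A] {p : ℕ} [hp : Fact p.Prime] {M : Subgroup A} (hMn : M.Normal)
    (hM : Nat.card M = p) (hcomm : ∀ a b : A, a * b * a⁻¹ * b⁻¹ ∈ M)
    (huniq : ∀ x : A, orderOf x = p → x ∈ M) (hidx : p ∣ M.index) :
    ∃ (P : Sylow p A) (Q : Subgroup A), (P : Subgroup A).Normal ∧ IsComplement' (P : Subgroup A) Q ∧
      IsMulCommutative Q ∧ Q ≤ centralizer ((P : Subgroup A) : Set A) := by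
  obtain ⟨P⟩ := (inferInstance : Nonempty (Sylow p A))
  have hMp : IsPGroup p M := IsPGroup.of_card (n := 1) (by rw [hM, pow_one])
  have hMP : M ≤ (P : Subgroup A) := hMp.le_sylow_of_normal P
  have hPn : (P : Subgroup A).Normal := by
    refine ⟨fun n hn g => ?_⟩
    have h1 := hMP (hcomm g n)
    have e : g * n * g⁻¹ = (g * n * g⁻¹ * n⁻¹) * n := by group
    rw [e]; exact Subgroup.mul_mem _ h1 hn
  have hcop : Nat.Coprime (Nat.card (P : Subgroup A)) (P : Subgroup A).index := by
    obtain ⟨k, hk⟩ := IsPGroup.iff_card.mp P.isPGroup'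
    rw [hk]
    exact Nat.Coprime.pow_left _ ((Nat.Prime.coprime_iff_not_dvd hp.out).mpr P.not_dvd_index)
  obtain ⟨Q, hQ⟩ := Subgroup.exists_right_complement'_of_coprime hcop
  have hQcard : Nat.card Q = (P : Subgroup A).index := hQ.symm.index_eq_card.symm
  have hQp : (Nat.card Q).Coprime p := by
    rw [hQcard]; exact ((Nat.Prime.coprime_iff_not_dvd hp.out).mpr P.not_dvd_index).symm
  have hQcomm : IsMulCommutative Q := by
    refine ⟨⟨fun a b => ?_⟩⟩
    have h4 : (a : A) * b * (a : A)⁻¹ * (b : A)⁻¹ ∈ Q :=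
      Q.mul_mem (Q.mul_mem (Q.mul_mem a.2 b.2) (Q.inv_mem a.2)) (Q.inv_mem b.2)
    have h5 := (Subgroup.disjoint_def.mp hQ.disjoint) (hMP (hcomm a b)) h4
    apply Subtype.ext
    change (a : A) * b = b * a
    calc (a : A) * b = ((a : A) * b * (a : A)⁻¹ * (b : A)⁻¹) * (b * a) := by group
      _ = b * a := by rw [h5, one_mul]
  refine ⟨P, Q, hPn, hQ, hQcomm, ?_⟩
  -- an element of order p² in P
  obtain ⟨x, hxP, hx2⟩ : ∃ x ∈ (P : Subgroup A), orderOf x = p ^ 2 := by
    have hne : ¬ (P : Subgroup A) ≤ M := by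
      intro hle
      have h1 : (P : Subgroup A) = M := le_antisymm hle hMP
      apply P.not_dvd_index
      rw [h1]; exact hidx
    obtain ⟨x, hx, hxM⟩ := SetLike.not_le_iff_exists.mp hne
    obtain ⟨k, hk⟩ := (IsPGroup.iff_orderOf.mp P.isPGroup') ⟨x, hx⟩
    rw [Subgroup.orderOf_mk] at hk
    have hk2 : 2 ≤ k := by
      by_contra hlt
      have : k = 0 ∨ k = 1 := by omega
      rcases this with rfl | rfl
      · rw [pow_zero, orderOf_eq_one_iff] at hk
        exact hxM (hk ▸ M.one_mem)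
      · exact hxM (huniq x (by rw [hk, pow_one]))
    refine ⟨x ^ p ^ (k - 2), Subgroup.pow_mem _ hx _, ?_⟩
    rw [orderOf_pow_of_dvd (pow_ne_zero _ hp.out.ne_zero) (by rw [hk]; exact pow_dvd_pow p (Nat.sub_le k 2)), hk,
      Nat.pow_div (Nat.sub_le k 2) hp.out.pos, Nat.sub_sub_self hk2]
  have hxp : orderOf (x ^ p) = p := by
    rw [orderOf_pow_of_dvd hp.out.ne_zero (by rw [hx2]; exact dvd_pow_self p two_ne_zero), hx2, pow_two,
      Nat.mul_div_cancel _ hp.out.pos]
  have hxpM : x ^ p ∈ M := huniq _ hxp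
  have hMz : M = zpowers (x ^ p) := by
    symm
    apply Subgroup.eq_of_le_of_card_ge (zpowers_le.mpr hxpM)
    rw [Nat.card_zpowers, hxp, hM]
  have hxM : ∀ m ∈ M, x * m = m * x := by
    intro m hm
    rw [hMz] at hm
    obtain ⟨k, rfl⟩ := Subgroup.mem_zpowers_iff.mp hm
    exact (((Commute.refl x).pow_right p).zpow_right k).eq
  -- Q centralizes M
  have hMexp : ∀ m ∈ M, m ^ p = 1 := by
    intro m hm
    have := pow_card_eq_one' (x := (⟨m, hm⟩ : M))
    rw [hM] at this
    exact congrArg (fun z : M => (z : A)) this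
  have hQM : ∀ q ∈ Q, ∀ m ∈ M, q * m * q⁻¹ = m := by
    intro q hq m hm
    have h1 : x⁻¹ * (q * x * q⁻¹) ∈ M := by
      have h2 := hMn.conj_mem _ (hcomm q x) x⁻¹
      have e : x⁻¹ * (q * x * q⁻¹ * x⁻¹) * x⁻¹⁻¹ = x⁻¹ * (q * x * q⁻¹) := by group
      rwa [e] at h2
    set c := x⁻¹ * (q * x * q⁻¹) with hc
    have h2 : q * x * q⁻¹ = x * c := by rw [hc]; group
    have h3 : q * x ^ p * q⁻¹ = x ^ p := by
      have hcx : Commute x c := hxM c h1
      rw [← conj_pow, h2, hcx.mul_pow, hMexp c h1, mul_one]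
    rw [hMz] at hm
    obtain ⟨k, rfl⟩ := Subgroup.mem_zpowers_iff.mp hm
    rw [← conj_zpow, h3]
  intro q hq
  rw [Subgroup.mem_centralizer_iff]
  intro a ha
  have h1 : a⁻¹ * (q * a * q⁻¹) ∈ M := by
    have h2 := hMn.conj_mem _ (hcomm q a) a⁻¹
    have e : a⁻¹ * (q * a * q⁻¹ * a⁻¹) * a⁻¹⁻¹ = a⁻¹ * (q * a * q⁻¹) := by group
    rwa [e] at h2
  set c := a⁻¹ * (q * a * q⁻¹) with hc
  have h2 : q * a * q⁻¹ = a * c := by rw [hc]; group
  have h3 : ∀ n : ℕ, q ^ n * a * (q ^ n)⁻¹ = a * c ^ n := by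
    intro n
    induction n with
    | zero => simp
    | succ n ih =>
      have h4 : q * (c ^ n) * q⁻¹ = c ^ n := hQM q hq _ (M.pow_mem h1 n)
      calc q ^ (n + 1) * a * (q ^ (n + 1))⁻¹ = q * (q ^ n * a * (q ^ n)⁻¹) * q⁻¹ := by rw [pow_succ']; group
        _ = (q * a * q⁻¹) * (q * (c ^ n) * q⁻¹) := by rw [ih]; group
        _ = a * c ^ (n + 1) := by rw [h4, h2, pow_succ', mul_assoc]
  have h4 := h3 (orderOf q)
  rw [pow_orderOf_eq_one] at h4
  have h5 : c ^ orderOf q = 1 := by
    have : a * c ^ orderOf q = a * 1 := by rw [← h4]; group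
    exact mul_left_cancel this
  have h6 : orderOf c ∣ 1 := by
    have := Nat.dvd_gcd (orderOf_dvd_of_pow_eq_one h5) (orderOf_dvd_of_pow_eq_one (hMexp c h1))
    have h7 : Nat.Coprime (orderOf q) p := Nat.Coprime.coprime_dvd_left (Subgroup.orderOf_dvd_natCard Q hq) hQp
    rwa [h7] at this
  have h7 : c = 1 := orderOf_eq_one_iff.mp (Nat.dvd_one.mp h6)
  rw [h7, mul_one] at h2
  calc a * q = (q * a * q⁻¹) * q := by rw [h2]
    _ = q * a := by group

theorem comm_sup {P Q : Subgroup G} (hP : IsMulCommutative P) (hQ : IsMulCommutative Q)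
    (h : Q ≤ centralizer (P : Set G)) : IsMulCommutative (P ⊔ Q : Subgroup G) := by
  rw [← Subgroup.le_centralizer_iff_isMulCommutative] at hP hQ ⊢
  have h' : P ≤ centralizer (Q : Set G) := Subgroup.le_centralizer_iff.mp h
  apply sup_le
  · rw [Subgroup.le_centralizer_iff]
    exact sup_le hP h
  · rw [Subgroup.le_centralizer_iff]
    exact sup_le h' hQ

theorem sylow_card_eight {G : Type u} [Group G] [Finite G] (h : BP G) (hs : Group.IsSolvable G) {z : G}
    (huniq : ∀ x : G, orderOf x = 2 → x = z) (S : Sylow 2 G) (hnc : ¬ IsMulCommutative ↥(S : Subgroup G)) :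
    Nat.card (S : Subgroup G) = 8 := by
  haveI : Fact (Nat.Prime 2) := ⟨Nat.prime_two⟩
  rcases H4.cyclic_or_quaternion S.isPGroup' (fun x _ y _ hx hy => (huniq x hx).trans (huniq y hy).symm) with h1 | ⟨m, hm, ⟨e⟩⟩
  · exact absurd ⟨⟨fun a b => by
      obtain ⟨g, hg⟩ := h1.exists_generator
      obtain ⟨i, hi⟩ := Subgroup.mem_zpowers_iff.mp (hg a)
      obtain ⟨j, hj⟩ := Subgroup.mem_zpowers_iff.mp (hg b)
      rw [← hi, ← hj, ← zpow_add, ← zpow_add, add_comm]⟩⟩ hnc
  haveI : NeZero (2 ^ m) := ⟨pow_ne_zero _ two_ne_zero⟩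
  have hcard : Nat.card (S : Subgroup G) = 4 * 2 ^ m := by
    rw [Nat.card_congr e.toEquiv, Nat.card_eq_fintype_card, QuaternionGroup.card]
  by_contra hne
  have hm2 : 2 ≤ m := by
    by_contra hlt
    have : m = 1 := by omega
    rw [this] at hcard
    exact hne (by rw [hcard]; norm_num)
  set O := Cfsg.pPrimeCore 2 G with hO
  let f := QuotientGroup.mk' O
  have hf : Function.Surjective f := QuotientGroup.mk'_surjective O
  set T := Cfsg.pCore 2 (G ⧸ O) with hT
  haveI hTn : T.Normal := by rw [hT]; infer_instance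
  haveI hsq : Group.IsSolvable (G ⧸ O) := inferInstance
  have hC : centralizer (T : Set (G ⧸ O)) ≤ T :=
    centralizer_pCore_le (isPSolvable_of_isSolvable hsq) (pPrimeCore_quotient_eq_bot 2 G)
  have hTS : T ≤ (S : Subgroup G).map f := by
    have := H1.pCore_le_sylow (S.mapSurjective hf)
    rwa [Sylow.coe_mapSurjective] at this
  have hinj : ∀ a ∈ (S : Subgroup G), ∀ b ∈ (S : Subgroup G), f a = f b → a = b := by
    intro a ha b hb hab
    have h1 : a⁻¹ * b ∈ O := QuotientGroup.eq.mp hab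
    have h2 : a⁻¹ * b ∈ (S : Subgroup G) := Subgroup.mul_mem _ (Subgroup.inv_mem _ ha) hb
    obtain ⟨k, hk⟩ := (IsPGroup.iff_orderOf.mp S.isPGroup') ⟨_, h2⟩
    rw [Subgroup.orderOf_mk] at hk
    have h3 : orderOf (a⁻¹ * b) ∣ Nat.card O := Subgroup.orderOf_dvd_natCard O h1
    have h4 : Nat.Coprime (Nat.card O) 2 := H1.pPrimeCore_coprime 2 G
    have h5 : orderOf (a⁻¹ * b) ∣ 1 := by
      have := Nat.dvd_gcd h3 (hk ▸ dvd_rfl : orderOf (a⁻¹ * b) ∣ 2 ^ k)
      rwa [Nat.Coprime.pow_right k h4] at this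
    have h6 : a⁻¹ * b = 1 := orderOf_eq_one_iff.mp (Nat.dvd_one.mp h5)
    exact (inv_mul_eq_one.mp h6)
  have hord4 : ∀ i, orderOf ((e.symm (QuaternionGroup.xa i) : (S : Subgroup G)) : G) = 4 := by
    intro i
    rw [Subgroup.orderOf_coe, MulEquiv.orderOf_eq, QuaternionGroup.orderOf_xa]
  have hzc : ∀ g : G, orderOf z = 2 → g * z * g⁻¹ = z := by
    intro g hz2
    apply huniq
    have := orderOf_injective (MulAut.conj g).toMonoidHom (MulAut.conj g).injective z
    rw [← hz2]
    simpa using this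
  -- an element of order 4 whose image is in T
  obtain ⟨u, huS, hu4, huT⟩ : ∃ u ∈ (S : Subgroup G), orderOf u = 4 ∧ f u ∈ T := by
    by_contra hcon
    push Not at hcon
    have h1 : ∀ s ∈ (S : Subgroup G), f s ∈ T → s = 1 ∨ (s = z ∧ orderOf z = 2) := by
      intro s hs hsT
      obtain ⟨k, hk⟩ := (IsPGroup.iff_orderOf.mp S.isPGroup') ⟨s, hs⟩
      rw [Subgroup.orderOf_mk] at hk
      by_cases hk2 : 2 ≤ k
      · exfalso
        refine hcon (s ^ 2 ^ (k - 2)) (Subgroup.pow_mem _ hs _) ?_ ?_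
        · rw [orderOf_pow_of_dvd (pow_ne_zero _ two_ne_zero) (by rw [hk]; exact pow_dvd_pow 2 (Nat.sub_le k 2)), hk,
            Nat.pow_div (Nat.sub_le k 2) (by norm_num), Nat.sub_sub_self hk2]
        · rw [map_pow]; exact T.pow_mem hsT _
      · have : k = 0 ∨ k = 1 := by omega
        rcases this with rfl | rfl
        · left; rwa [pow_zero, orderOf_eq_one_iff] at hk
        · right
          rw [pow_one] at hk
          have := huniq s hk
          exact ⟨this, this ▸ hk⟩
    have h2 : f (e.symm (QuaternionGroup.xa 0) : (S : Subgroup G)) ∈ centralizer (T : Set (G ⧸ O)) := by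
      rw [Subgroup.mem_centralizer_iff]
      intro t ht
      obtain ⟨s, hs, rfl⟩ := hTS ht
      rcases h1 s hs ht with rfl | ⟨rfl, hz2⟩
      · simp
      · rw [← map_mul, ← map_mul]
        congr 1
        have h3 := hzc ((e.symm (QuaternionGroup.xa 0) : (S : Subgroup G)) : G) hz2
        rw [mul_inv_eq_iff_eq_mul] at h3
        exact h3.symm
    exact hcon _ (e.symm (QuaternionGroup.xa 0)).2 (hord4 0) (hC h2)
  have hall4 : ∀ y : G, orderOf y = 4 → f y ∈ T := by
    intro y hy
    obtain ⟨g, hg, -⟩ := h.conj_elem (hy.trans hu4.symm)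
    have h1 : f (g * y * g⁻¹) ∈ T := by
      obtain ⟨k, hk⟩ := Subgroup.mem_zpowers_iff.mp hg
      rw [← hk, map_zpow]
      exact T.zpow_mem huT k
    have h2 := hTn.conj_mem _ h1 (f g)⁻¹
    have e2 : (f g)⁻¹ * f (g * y * g⁻¹) * (f g)⁻¹⁻¹ = f y := by
      rw [map_mul, map_mul, map_inv]; group
    rwa [e2] at h2
  have hST : ∀ s ∈ (S : Subgroup G), f s ∈ T := by
    intro s hs
    obtain ⟨q, hq⟩ : ∃ q, e.symm q = ⟨s, hs⟩ := e.symm.surjective _
    have hs' : s = ((e.symm q : (S : Subgroup G)) : G) := by rw [hq]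
    rw [hs']
    cases q with
    | a i =>
      have e3 : QuaternionGroup.a i = QuaternionGroup.xa 0 * QuaternionGroup.xa (i - ((2 ^ m : ℕ) : ZMod (2 * 2 ^ m))) := by
        rw [QuaternionGroup.xa_mul_xa]
        congr 1
        ring
      rw [e3, map_mul, Subgroup.coe_mul, map_mul]
      exact T.mul_mem (hall4 _ (hord4 _)) (hall4 _ (hord4 _))
    | xa i => exact hall4 _ (hord4 i)
  -- final contradiction
  have hα : orderOf ((e.symm (QuaternionGroup.a 1) : (S : Subgroup G)) : G) = 2 * 2 ^ m := by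
    rw [Subgroup.orderOf_coe, MulEquiv.orderOf_eq, QuaternionGroup.orderOf_a_one]
  set α := ((e.symm (QuaternionGroup.a 1) : (S : Subgroup G)) : G) with hαdef
  have hαS : α ∈ (S : Subgroup G) := (e.symm (QuaternionGroup.a 1)).2
  have hu0 : orderOf ((α ^ 2 ^ (m - 2)) ^ 2) = 4 := by
    rw [← pow_mul, ← pow_succ]
    have h1 : 2 * 2 ^ m = 2 ^ (m - 2 + 1) * 4 := by
      rw [show (4 : ℕ) = 2 ^ 2 by norm_num, ← pow_add, ← pow_succ']
      congr 1; omega
    rw [orderOf_pow_of_dvd (pow_ne_zero _ two_ne_zero) (by rw [hα, h1]; exact dvd_mul_right _ _), hα, h1,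
      Nat.mul_div_cancel_left _ (pow_pos (by norm_num) _)]
  obtain ⟨g, -, hg⟩ := h.conj_elem (hu0.trans (hord4 0).symm)
  obtain ⟨c, hc, hcy⟩ := hg
  obtain ⟨k, rfl⟩ := Subgroup.mem_zpowers_iff.mp hc
  set v := (α ^ 2 ^ (m - 2)) ^ k with hv
  have h1 : ((e.symm (QuaternionGroup.xa 0) : (S : Subgroup G)) : G) = (g * v * g⁻¹) ^ 2 := by
    rw [← hcy]
    change g * ((α ^ 2 ^ (m - 2)) ^ 2) ^ k * g⁻¹ = _
    rw [conj_pow, hv, ← zpow_natCast, ← zpow_mul, ← zpow_natCast _ 2, ← zpow_mul, mul_comm _ k]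
  have h2 : f (g * v * g⁻¹) ∈ T := by
    rw [map_mul, map_mul, map_inv]
    apply hTn.conj_mem
    apply hST
    exact Subgroup.zpow_mem _ (Subgroup.pow_mem _ hαS _) k
  obtain ⟨s, hs, hsv⟩ := hTS h2
  have h3 : ((e.symm (QuaternionGroup.xa 0) : (S : Subgroup G)) : G) = s ^ 2 := by
    apply hinj _ (e.symm (QuaternionGroup.xa 0)).2 _ (Subgroup.pow_mem _ hs 2)
    rw [h1, map_pow, map_pow, hsv]
  have h4 : e.symm (QuaternionGroup.xa 0) = (⟨s, hs⟩ : (S : Subgroup G)) ^ 2 := Subtype.ext h3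
  have h5 : QuaternionGroup.xa 0 = (e ⟨s, hs⟩) ^ 2 := by
    rw [← map_pow, ← h4, MulEquiv.apply_symm_apply]
  rcases hes : e ⟨s, hs⟩ with i | i
  · rw [hes, pow_two, QuaternionGroup.a_mul_a] at h5
    exact absurd h5 (by simp)
  · rw [hes, QuaternionGroup.xa_sq] at h5
    exact absurd h5 (by simp)

theorem data' [Finite G] {p : ℕ} [hp : Fact p.Prime] {M A : Subgroup G} (hMn : M.Normal)
    (hM : Nat.card M = p) (hMA : M ≤ A) (hcomm : ∀ a ∈ A, ∀ b ∈ A, a * b * a⁻¹ * b⁻¹ ∈ M)
    (huniq : ∀ x : G, orderOf x = p → x ∈ M) (hidx : p ∣ M.relIndex A) :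
    ∃ P Q : Subgroup G, P ⊔ Q = A ∧ IsPGroup p P ∧ IsMulCommutative Q ∧ Q ≤ centralizer (P : Set G) ∧
      Nat.card P = p ^ (Nat.card A).factorization p ∧ Nat.card P * Nat.card Q = Nat.card A := by
  have hMn' : (M.subgroupOf A).Normal := hMn.subgroupOf A
  have hM' : Nat.card (M.subgroupOf A) = p := by
    rw [Nat.card_congr (subgroupOfEquivOfLe hMA).toEquiv, hM]
  obtain ⟨P, Q, hPn, hPQ, hQc, hQP⟩ := data hMn' hM'
    (fun a b => by
      rw [Subgroup.mem_subgroupOf]; exact hcomm a a.2 b b.2)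
    (fun x hx => by
      rw [Subgroup.mem_subgroupOf]; exact huniq x (by rw [Subgroup.orderOf_coe, hx])) hidx
  refine ⟨(P : Subgroup A).map A.subtype, Q.map A.subtype, ?_, P.isPGroup'.map _, ?_, ?_, ?_, ?_⟩
  · rw [← Subgroup.map_sup, hPQ.sup_eq_top, ← MonoidHom.range_eq_map, Subgroup.range_subtype]
  · refine ⟨⟨?_⟩⟩
    rintro ⟨a, a', ha, rfl⟩ ⟨b, b', hb, rfl⟩
    apply Subtype.ext
    have := hQc.1.1 ⟨a', ha⟩ ⟨b', hb⟩
    exact congrArg (fun z : Q => ((z : A) : G)) this
  · rintro - ⟨q, hq, rfl⟩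
    rw [Subgroup.mem_centralizer_iff]
    rintro - ⟨a, ha, rfl⟩
    have := Subgroup.mem_centralizer_iff.mp (hQP hq) a ha
    exact congrArg (fun z : A => (z : G)) this
  · rw [Subgroup.card_map_of_injective A.subtype_injective]
    exact P.card_eq_multiplicity
  · rw [Subgroup.card_map_of_injective A.subtype_injective, Subgroup.card_map_of_injective A.subtype_injective]
    exact hPQ.card_mul

theorem compl_data [Finite G] {M A : Subgroup G} (hMn : M.Normal) (hMA : M ≤ A)
    (hcop : (Nat.card M).Coprime (M.relIndex A)) (hcomm : ∀ a ∈ A, ∀ b ∈ A, a * b * a⁻¹ * b⁻¹ ∈ M) :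
    ∃ A1 : Subgroup G, M ⊔ A1 = A ∧ Nat.card A1 = M.relIndex A ∧ IsMulCommutative A1 := by
  have hMn' : (M.subgroupOf A).Normal := hMn.subgroupOf A
  have hM' : Nat.card (M.subgroupOf A) = Nat.card M := by
    rw [Nat.card_congr (subgroupOfEquivOfLe hMA).toEquiv]
  obtain ⟨Q, hQ⟩ := Subgroup.exists_right_complement'_of_coprime (N := M.subgroupOf A) (by
    rw [hM']; exact hcop)
  refine ⟨Q.map A.subtype, ?_, ?_, ?_⟩
  · have h1 := congrArg (Subgroup.map A.subtype) hQ.sup_eq_top
    rw [Subgroup.map_sup, ← MonoidHom.range_eq_map, Subgroup.range_subtype, Subgroup.subgroupOf_map_subtype,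
      inf_of_le_left hMA] at h1
    exact h1
  · rw [Subgroup.card_map_of_injective A.subtype_injective]
    exact hQ.symm.index_eq_card.symm
  · refine ⟨⟨?_⟩⟩
    rintro ⟨a, a', ha, rfl⟩ ⟨b, b', hb, rfl⟩
    apply Subtype.ext
    change (a' : G) * b' = b' * a'
    have h4 : a' * b' * a'⁻¹ * b'⁻¹ ∈ Q :=
      Q.mul_mem (Q.mul_mem (Q.mul_mem ha hb) (Q.inv_mem ha)) (Q.inv_mem hb)
    have h3 : a' * b' * a'⁻¹ * b'⁻¹ ∈ M.subgroupOf A := by
      rw [Subgroup.mem_subgroupOf]; exact hcomm a' a'.2 b' b'.2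
    have h5 := (Subgroup.disjoint_def.mp hQ.disjoint) h3 h4
    have h6 : a' * b' = b' * a' := by
      calc a' * b' = (a' * b' * a'⁻¹ * b'⁻¹) * (b' * a') := by group
        _ = b' * a' := by rw [h5, one_mul]
    exact congrArg (fun z : A => (z : G)) h6

theorem map_conj_normal {M : Subgroup G} (hM : M.Normal) (g : G) : M.map (MulAut.conj g).toMonoidHom = M := by
  apply le_antisymm
  · rintro - ⟨m, hm, rfl⟩
    exact hM.conj_mem m hm g
  · intro m hm
    exact ⟨g⁻¹ * m * g⁻¹⁻¹, hM.conj_mem m hm g⁻¹, by simp; group⟩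

theorem BP.step {G : Type u} [Group G] [Finite G] (h : BP G) {p : ℕ} [hp : Fact p.Prime] (M : Subgroup G)
    [hMn : M.Normal] (hM1 : M ≠ ⊥) (hMexp : ∀ m ∈ M, m ^ p = 1) (hMc : IsMulCommutative M)
    (hps : p ≠ 2 ∨ Group.IsSolvable G) : BP (G ⧸ M) := by
  have hMp : IsPGroup p M := fun m => ⟨1, by
    rw [pow_one]; exact Subtype.ext (hMexp m m.2)⟩
  obtain ⟨m0, hm0M, hm0⟩ : ∃ m ∈ M, orderOf m = p := by
    obtain ⟨m, hm⟩ := (Subgroup.ne_bot_iff_exists_ne_one.mp hM1)
    exact ⟨m, m.2, orderOf_eq_prime (hMexp m m.2) (fun e => hm (Subtype.ext e))⟩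
  have huniq : ∀ x : G, orderOf x = p → x ∈ M := fun x hx => h.mem_of_orderOf_eq hMn hm0M (hx.trans hm0.symm)
  intro A' B' hA' hB' hAB'
  have hf : Function.Surjective (QuotientGroup.mk' M) := QuotientGroup.mk'_surjective M
  -- reduction to preimages
  suffices hsuff : ∃ g : G, B'.comap (QuotientGroup.mk' M) = (A'.comap (QuotientGroup.mk' M)).map (MulAut.conj g).toMonoidHom by
    obtain ⟨g, hg⟩ := hsuff
    refine ⟨(g : G ⧸ M), ?_⟩
    have h1 := congrArg (Subgroup.map (QuotientGroup.mk' M)) hg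
    rw [Subgroup.map_comap_eq_self_of_surjective hf, Subgroup.map_map] at h1
    rw [h1]
    conv_rhs => rw [← Subgroup.map_comap_eq_self_of_surjective hf A']
    rw [Subgroup.map_map]
    rfl
  have hle : ∀ C : Subgroup (G ⧸ M), M ≤ C.comap (QuotientGroup.mk' M) := fun C => by
    intro m hm
    rw [Subgroup.mem_comap]
    have : (QuotientGroup.mk' M) m = 1 := (QuotientGroup.eq_one_iff m).mpr hm
    rw [this]; exact C.one_mem
  have hcm : ∀ C : Subgroup (G ⧸ M), IsMulCommutative C → ∀ a ∈ C.comap (QuotientGroup.mk' M),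
      ∀ b ∈ C.comap (QuotientGroup.mk' M), a * b * a⁻¹ * b⁻¹ ∈ M := by
    intro C hC a ha b hb
    have h1 := congrArg (fun z : C => (z : G ⧸ M)) (hC.1.1 ⟨_, ha⟩ ⟨_, hb⟩)
    have h2 : (a : G ⧸ M) * b = b * a := h1
    rw [← QuotientGroup.eq_one_iff, QuotientGroup.mk_mul, QuotientGroup.mk_mul, QuotientGroup.mk_mul, h2,
      QuotientGroup.mk_inv, QuotientGroup.mk_inv]
    group
  have hrel : ∀ C : Subgroup (G ⧸ M), M.relIndex (C.comap (QuotientGroup.mk' M)) = Nat.card C := by
    intro C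
    have h1 := card_comap_mk' (N := M) C
    have h2 : Nat.card M * M.relIndex (C.comap (QuotientGroup.mk' M)) = Nat.card (C.comap (QuotientGroup.mk' M)) := by
      rw [← Subgroup.relIndex_bot_left, ← Subgroup.relIndex_bot_left]
      exact Subgroup.relIndex_mul_relIndex _ _ _ bot_le (hle C)
    have h3 : 0 < Nat.card M := Nat.card_pos
    nlinarith
  have hA1 := hrel A'
  have hB1 := hrel B'
  have hcA := hcm A' hA'
  have hcB := hcm B' hB'
  have hMA := hle A'
  have hMB := hle B'
  set A := A'.comap (QuotientGroup.mk' M) with hA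
  set B := B'.comap (QuotientGroup.mk' M) with hB
  have hcard : Nat.card A = Nat.card B := by
    rw [hA, hB, card_comap_mk', card_comap_mk', hAB']
  by_cases hpd : p ∣ Nat.card A'
  · -- an element of order p²
    obtain ⟨c, hc⟩ : ∃ c : G, orderOf c = p ^ 2 := by
      obtain ⟨q, hq⟩ := exists_prime_orderOf_dvd_card' (G := A') p hpd
      obtain ⟨x, hx⟩ := hf (q : G ⧸ M)
      have hxo : orderOf ((QuotientGroup.mk' M) x) = p := by rw [hx, Subgroup.orderOf_coe, hq]
      obtain ⟨i, j, hij, ⟨k, hk⟩, hj⟩ := H24.exists_pPart_decomp p x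
      have h1 : x ^ i ∉ M := by
        intro hmem
        have h2 : (QuotientGroup.mk' M) x = (QuotientGroup.mk' M) (x ^ j) := by
          conv_lhs => rw [hij]
          rw [map_mul, show (QuotientGroup.mk' M) (x ^ i) = 1 from (QuotientGroup.eq_one_iff _).mpr hmem, one_mul]
        have h3 : orderOf ((QuotientGroup.mk' M) x) ∣ orderOf (x ^ j) := by rw [h2]; exact orderOf_map_dvd _ _
        rw [hxo] at h3
        exact hp.out.one_lt.ne' (Nat.Coprime.eq_one_of_dvd hj.symm h3)
      have hk2 : 2 ≤ k := by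
        by_contra hlt
        have : k = 0 ∨ k = 1 := by omega
        rcases this with rfl | rfl
        · rw [pow_zero, orderOf_eq_one_iff] at hk
          exact h1 (hk ▸ M.one_mem)
        · exact h1 (huniq _ (by rw [hk, pow_one]))
      refine ⟨(x ^ i) ^ p ^ (k - 2), ?_⟩
      rw [orderOf_pow_of_dvd (pow_ne_zero _ hp.out.ne_zero) (by rw [hk]; exact pow_dvd_pow p (Nat.sub_le k 2)), hk,
        Nat.pow_div (Nat.sub_le k 2) hp.out.pos, Nat.sub_sub_self hk2]
    -- M has order p
    have hMcard : Nat.card M = p := by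
      obtain ⟨k, hk⟩ := IsPGroup.iff_card.mp hMp
      by_contra hne
      have hk2 : 2 ≤ k := by
        by_contra hlt
        have : k = 0 ∨ k = 1 := by omega
        rcases this with rfl | rfl
        · rw [pow_zero, Subgroup.card_eq_one] at hk
          exact hM1 hk
        · exact hne (by rw [hk, pow_one])
      obtain ⟨K, hK⟩ := Sylow.exists_subgroup_card_pow_prime (G := M) p (n := 2) (by
        rw [hk]; exact pow_dvd_pow p hk2)
      have hKc : IsMulCommutative (K.map M.subtype) := by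
        refine ⟨⟨?_⟩⟩
        rintro ⟨a, a', ha, rfl⟩ ⟨b, b', hb, rfl⟩
        apply Subtype.ext
        exact congrArg (fun z : M => (z : G)) (hMc.1.1 a' b')
      obtain ⟨g, hg⟩ := h (zpowers c) (K.map M.subtype) inferInstance hKc (by
        rw [Nat.card_zpowers, Subgroup.card_map_of_injective M.subtype_injective, hK, hc])
      have h1 : g * c * g⁻¹ ∈ K.map M.subtype := by
        rw [hg]; exact ⟨c, mem_zpowers c, rfl⟩
      obtain ⟨a, ha, hac⟩ := h1
      have h2 : (g * c * g⁻¹) ^ p = 1 := by rw [← hac]; exact hMexp _ a.2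
      rw [conj_pow, conj_eq_one_iff] at h2
      have h3 := orderOf_dvd_of_pow_eq_one h2
      rw [hc] at h3
      have h4 := Nat.le_of_dvd hp.out.pos h3
      nlinarith [hp.out.two_le]
    obtain ⟨P, Q, hPQ, hPp, hQc, hQP, hPcard, hPQc⟩ := data' hMn hMcard hMA hcA huniq (by rw [hA1]; exact hpd)
    obtain ⟨P', Q', hPQ', hPp', hQc', hQP', hPcard', hPQc'⟩ := data' hMn hMcard hMB hcB huniq (by rw [hB1, ← hAB']; exact hpd)
    by_cases hboth : IsMulCommutative P ∧ IsMulCommutative P'
    · exact h A B (hPQ ▸ comm_sup hboth.1 hQc hQP) (hPQ' ▸ comm_sup hboth.2 hQc' hQP') hcard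
    · -- the quaternion case
      have hPP' : Nat.card P = Nat.card P' := by rw [hPcard, hPcard', hcard]
      have hQQ' : Nat.card Q = Nat.card Q' := by
        rw [← hPQc', ← hPQc, hPP'] at hcard
        exact Nat.eq_of_mul_eq_mul_left Nat.card_pos hcard
      have hnc : ∃ R : Subgroup G, IsPGroup p R ∧ Nat.card R = Nat.card P ∧ ¬ IsMulCommutative R := by
        by_cases h1 : IsMulCommutative P
        · exact ⟨P', hPp', hPP'.symm, fun h2 => hboth ⟨h1, h2⟩⟩
        · exact ⟨P, hPp, rfl, h1⟩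
      obtain ⟨R, hRp, hRcard, hRnc⟩ := hnc
      obtain ⟨S, hRS⟩ := hRp.exists_le_sylow
      have hMz : M = zpowers m0 := by
        symm
        apply Subgroup.eq_of_le_of_card_ge (zpowers_le.mpr hm0M)
        rw [Nat.card_zpowers, hm0, hMcard]
      have hSnc : ¬ IsMulCommutative ↥(S : Subgroup G) := by
        intro hSc
        apply hRnc
        refine ⟨⟨fun a b => ?_⟩⟩
        apply Subtype.ext
        exact congrArg (fun z : (S : Subgroup G) => (z : G)) (hSc.1.1 ⟨a, hRS a.2⟩ ⟨b, hRS b.2⟩)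
      have hp2 : p = 2 := by
        by_contra hp2
        have hcyc : IsCyclic (S : Subgroup G) := H19.isCyclic_of_unique_order_p hp2 _ S.isPGroup' (by
          intro x y hx hy hx1
          have hxo : orderOf (x : G) = p := by
            rw [Subgroup.orderOf_coe]; exact orderOf_eq_prime hx hx1
          have hxM : (x : G) ∈ M := huniq _ hxo
          have hyM : (y : G) ∈ M := by
            by_cases hy1 : y = 1
            · rw [hy1]; exact M.one_mem
            · exact huniq _ (by rw [Subgroup.orderOf_coe]; exact orderOf_eq_prime hy hy1)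
          have h1 : M = zpowers (x : G) := by
            symm
            apply Subgroup.eq_of_le_of_card_ge (zpowers_le.mpr hxM)
            rw [Nat.card_zpowers, hxo, hMcard]
          rw [h1] at hyM
          obtain ⟨k, hk⟩ := Subgroup.mem_zpowers_iff.mp hyM
          exact Subgroup.mem_zpowers_iff.mpr ⟨k, Subtype.ext (by push_cast; exact hk)⟩)
        apply hSnc
        refine ⟨⟨fun a b => ?_⟩⟩
        obtain ⟨g, hg⟩ := hcyc.exists_generator
        obtain ⟨i, hi⟩ := Subgroup.mem_zpowers_iff.mp (hg a)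
        obtain ⟨j, hj⟩ := Subgroup.mem_zpowers_iff.mp (hg b)
        rw [← hi, ← hj, ← zpow_add, ← zpow_add, add_comm]
      have hsol : Group.IsSolvable G := hps.resolve_left (fun h' => h' hp2)
      subst hp2
      have hS8 : Nat.card (S : Subgroup G) = 8 := by
        refine sylow_card_eight h hsol (z := m0) ?_ S hSnc
        intro x hx
        have hxM := huniq x hx
        rw [hMz] at hxM
        obtain ⟨k, rfl⟩ := Subgroup.mem_zpowers_iff.mp hxM
        have h2 : m0 ^ 2 = 1 := hMexp m0 hm0M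
        rcases Int.even_or_odd' k with ⟨l, rfl | rfl⟩
        · rw [zpow_mul] at hx
          have : m0 ^ (2 : ℤ) = 1 := by exact_mod_cast h2
          rw [this, one_zpow, orderOf_one] at hx
          omega
        · rw [zpow_add, zpow_mul, zpow_one]
          have : m0 ^ (2 : ℤ) = 1 := by exact_mod_cast h2
          rw [this, one_zpow, one_mul]
      have hP8 : Nat.card P = 8 := by
        obtain ⟨k, hk⟩ := IsPGroup.iff_card.mp hRp
        have hk8 : 2 ^ k ∣ 2 ^ 3 := by
          rw [← hk]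
          have := Subgroup.card_dvd_of_le hRS
          rwa [hS8] at this
        have hk3 : k ≤ 3 := (Nat.pow_dvd_pow_iff_le_right (by norm_num)).mp hk8
        have hk2 : 2 < k := by
          by_contra hle
          push Not at hle
          apply hRnc
          interval_cases k
          · rw [pow_zero, Subgroup.card_eq_one] at hk
            rw [hk]; infer_instance
          · rw [pow_one] at hk
            have hcyc := isCyclic_of_prime_card hk
            refine ⟨⟨fun a b => ?_⟩⟩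
            obtain ⟨g, hg⟩ := hcyc.exists_generator
            obtain ⟨i, hi⟩ := Subgroup.mem_zpowers_iff.mp (hg a)
            obtain ⟨j, hj⟩ := Subgroup.mem_zpowers_iff.mp (hg b)
            rw [← hi, ← hj, ← zpow_add, ← zpow_add, add_comm]
          · exact IsPGroup.isMulCommutative_of_card_eq_prime_sq hk
        have : k = 3 := by omega
        rw [← hRcard, hk, this]; norm_num
      have hsylP : ∀ X : Subgroup G, IsPGroup 2 X → Nat.card X = 8 → ∀ C : Subgroup G, X ≤ C → IsSylowOf 2 X C := by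
        intro X hX hX8 C hXC
        apply isSylowOf_of_not_dvd hXC hX
        intro hd
        have h1 : X.relIndex C ∣ X.index := Subgroup.relIndex_dvd_index_of_le hXC
        have h2 : X.index = (S : Subgroup G).index := by
          have h3 := X.card_mul_index
          have h4 := (S : Subgroup G).card_mul_index
          rw [hX8] at h3
          rw [hS8] at h4
          omega
        exact S.not_dvd_index (h2 ▸ hd.trans h1)
      obtain ⟨g, hg⟩ := h Q Q' hQc hQc' hQQ'
      have hPg : IsPGroup 2 (P.map (MulAut.conj g).toMonoidHom) := hPp.map _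
      have hPg8 : Nat.card (P.map (MulAut.conj g).toMonoidHom) = 8 := by
        rw [Subgroup.card_map_of_injective (MulAut.conj g).injective, hP8]
      have hPgC : P.map (MulAut.conj g).toMonoidHom ≤ centralizer (Q' : Set G) := by
        rintro - ⟨u, hu, rfl⟩
        rw [Subgroup.mem_centralizer_iff]
        intro q hq
        rw [hg] at hq
        obtain ⟨q0, hq0, rfl⟩ := hq
        have h1 := Subgroup.mem_centralizer_iff.mp (hQP hq0) u hu
        change g * q0 * g⁻¹ * (g * u * g⁻¹) = g * u * g⁻¹ * (g * q0 * g⁻¹)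
        calc g * q0 * g⁻¹ * (g * u * g⁻¹) = g * (q0 * u) * g⁻¹ := by group
          _ = g * (u * q0) * g⁻¹ := by rw [h1]
          _ = g * u * g⁻¹ * (g * q0 * g⁻¹) := by group
      obtain ⟨c, hcC, hcc⟩ := (hsylP _ hPg hPg8 _ hPgC).exists_conj (hsylP P' hPp' (by rw [← hPP', hP8]) _
        (Subgroup.le_centralizer_iff.mp hQP'))
      refine ⟨c * g, ?_⟩
      have hmm : ∀ X : Subgroup G, X.map (MulAut.conj (c * g)).toMonoidHom =
          (X.map (MulAut.conj g).toMonoidHom).map (MulAut.conj c).toMonoidHom := by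
        intro X
        rw [Subgroup.map_map]
        congr 1
        ext x
        simp [mul_assoc]
      rw [← hPQ', ← hPQ, Subgroup.map_sup, hmm, hmm, ← hg]
      congr 1
      · exact hcc.symm
      · apply le_antisymm
        · intro q hq
          refine ⟨q, hq, ?_⟩
          have := Subgroup.mem_centralizer_iff.mp hcC q hq
          change c * q * c⁻¹ = q
          rw [← this]; group
        · rintro - ⟨q, hq, rfl⟩
          have := Subgroup.mem_centralizer_iff.mp hcC q hq
          change c * q * c⁻¹ ∈ Q'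
          rw [← this]
          have e : q * c * c⁻¹ = q := by group
          rw [e]; exact hq
  · have hcop : (Nat.card M).Coprime (Nat.card A') := by
      obtain ⟨k, hk⟩ := IsPGroup.iff_card.mp hMp
      rw [hk]
      exact Nat.Coprime.pow_left _ ((Nat.Prime.coprime_iff_not_dvd hp.out).mpr hpd)
    obtain ⟨A1, hA2, hA3, hA4⟩ := compl_data hMn hMA (by rw [hA1]; exact hcop) hcA
    obtain ⟨B1, hB2, hB3, hB4⟩ := compl_data hMn hMB (by rw [hB1, ← hAB']; exact hcop) hcB
    obtain ⟨g, hg⟩ := h A1 B1 hA4 hB4 (by rw [hA3, hB3, hA1, hB1, hAB'])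
    refine ⟨g, ?_⟩
    rw [← hA2, ← hB2, Subgroup.map_sup, map_conj_normal hMn, hg]

theorem BP.quotient : ∀ (n : ℕ) (G : Type u) [Group G] [Finite G], BP G → ∀ (M : Subgroup G) [M.Normal],
    Nat.card M ≤ n → Group.IsSolvable M → (Odd (Nat.card M) ∨ Group.IsSolvable G) → BP (G ⧸ M) := by
  intro n
  induction n with
  | zero => intro G _ _ _ M _ hM; exact absurd hM (by have : 0 < Nat.card M := Nat.card_pos; omega)
  | succ n ih =>
    intro G _ _ hG M hMn hM hMs hor
    by_cases hM1 : M = ⊥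
    · subst hM1
      exact hG.of_equiv (QuotientGroup.quotientBot (G := G)).symm
    obtain ⟨N, hN, hN1, hNM, hmin⟩ := H1.exists_minimal_normal_le hMn hM1
    haveI := hMs
    have hNs : Group.IsSolvable N := Group.isSolvable_of_isSolvable_injective (f := Subgroup.inclusion hNM)
      (Subgroup.inclusion_injective hNM)
    obtain ⟨hNc, p, hp, hNp, hNexp⟩ := H1.minimal_normal_solvable hN hN1 hmin hNs
    haveI : Fact p.Prime := ⟨hp⟩
    haveI := hN
    have hps : p ≠ 2 ∨ Group.IsSolvable G := by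
      rcases hor with h1 | h1
      · left
        rintro rfl
        obtain ⟨k, hk⟩ := IsPGroup.iff_card.mp hNp
        have h2 : Nat.card N ∣ Nat.card M := Subgroup.card_dvd_of_le hNM
        have h3 : Odd (Nat.card N) := Odd.of_dvd_nat h1 h2
        rw [hk] at h3
        have h4 : k = 0 := by
          by_contra hk0
          exact (Nat.not_odd_iff_even.mpr ((Nat.even_pow.mpr ⟨even_two, hk0⟩))) h3
        rw [h4, pow_zero, Subgroup.card_eq_one] at hk
        exact hN1 hk
      · exact Or.inr h1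
    have h1 := hG.step N hN1 hNexp hNc hps
    set M' := M.map (QuotientGroup.mk' N) with hM'
    haveI hM'n : M'.Normal := hMn.map _ (QuotientGroup.mk'_surjective N)
    have hcard : Nat.card N * Nat.card M' = Nat.card M := by
      have h2 := card_comap_mk' (N := N) M'
      rw [hM', Subgroup.comap_map_eq, QuotientGroup.ker_mk', sup_of_le_left hNM] at h2
      rw [hM', h2]
    have hN2 : 2 ≤ Nat.card N := by
      have h3 : Nat.card N ≠ 1 := fun e => hN1 (Subgroup.card_eq_one.mp e)
      have h4 : 0 < Nat.card N := Nat.card_pos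
      omega
    have hM'0 : 0 < Nat.card M' := Nat.card_pos
    have h2 : BP ((G ⧸ N) ⧸ M') := by
      apply ih (G ⧸ N) h1 M' (by nlinarith)
      · have : Function.Surjective ((QuotientGroup.mk' N).subgroupMap M) := MonoidHom.subgroupMap_surjective _ _
        exact Group.isSolvable_of_surjective this
      · rcases hor with h3 | h3
        · left
          exact Odd.of_dvd_nat h3 ⟨Nat.card N, by rw [← hcard, mul_comm]⟩
        · right; infer_instance
    exact h2.of_equiv (QuotientGroup.quotientQuotientEquivQuotient N M hNM)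

end Cfsg.Agent.H23.AbConj
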