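import Mathlib
import Cfsg.Agent.H23.Coprime2
import Cfsg.Agent.H1.BG310G

set_option autoImplicit false
set_option linter.all false

/-!
# Fixed points of coprime operator groups, I, seat helper23
-/

namespace Cfsg.Agent.H23.FX

open Subgroup
open scoped commutatorElement Pointwise

universe u

variable {X : Type u} [Group X]

/-- the subgroup `[h, ⟨x⟩]` -/
def cm (x h : X) : Subgroup X := closure {c | ∃ i : ℕ, c = h⁻¹ * (x ^ i * h * (x ^ i)⁻¹)}

/-- the subgroup generated by the fixed points in the `[h, ⟨x⟩]` -/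
def Dg (x : X) (H : Subgroup X) : Subgroup X :=
  ⨆ h : H, cm x (h : X) ⊓ centralizer (zpowers x : Set X)

theorem memC {x c : X} : c ∈ centralizer (zpowers x : Set X) ↔ Commute c x := by
  rw [mem_centralizer_iff]
  constructor
  · intro h
    exact (h x (mem_zpowers x)).symm
  · intro h y hy
    obtain ⟨k, rfl⟩ := mem_zpowers_iff.mp hy
    exact (h.zpow_right k).symm

theorem zp_nat [Finite X] {x y : X} (hy : y ∈ zpowers x) : ∃ i : ℕ, y = x ^ i := by
  obtain ⟨i, hi⟩ := mem_powers_iff_mem_zpowers.mpr hy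
  exact ⟨i, hi.symm⟩

theorem gen_mem_cm (x h : X) (i : ℕ) : h⁻¹ * (x ^ i * h * (x ^ i)⁻¹) ∈ cm x h :=
  Subgroup.subset_closure ⟨i, rfl⟩

theorem cm_le {x h : X} {H : Subgroup X} (hh : h ∈ H) : cm x h ≤ ⁅H, zpowers x⁆ := by
  unfold cm
  rw [closure_le]
  rintro _ ⟨i, rfl⟩
  have : h⁻¹ * (x ^ i * h * (x ^ i)⁻¹) = ⁅h⁻¹, x ^ i⁆ := by rw [commutatorElement_def]; group
  rw [SetLike.mem_coe, this]
  exact commutator_mem_commutator (inv_mem hh) (npow_mem_zpowers x i)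

theorem comm_le_of_cm [Finite X] {x : X} {H S : Subgroup X} (h : ∀ g ∈ H, cm x g ≤ S) :
    ⁅H, zpowers x⁆ ≤ S := by
  rw [commutator_le]
  intro g hg y hy
  obtain ⟨i, rfl⟩ := zp_nat hy
  apply h g⁻¹ (inv_mem hg)
  apply Subgroup.subset_closure
  exact ⟨i, by rw [commutatorElement_def]; group⟩

theorem norm_of [Finite X] {x : X} {L : Subgroup X} (h : ∀ c ∈ L, x * c * x⁻¹ ∈ L) :
    zpowers x ≤ normalizer (L : Set X) := by
  apply le_normalizer_of_conj_mem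
  intro y hy c hc
  obtain ⟨i, rfl⟩ := zp_nat hy
  induction i with
  | zero => simpa using hc
  | succ i ih =>
    have e : x ^ (i + 1) * c * (x ^ (i + 1))⁻¹ = x * (x ^ i * c * (x ^ i)⁻¹) * x⁻¹ := by
      rw [pow_succ']; group
    rw [e]
    exact h _ (ih (npow_mem_zpowers x i))

theorem cm_inv [Finite X] (x h : X) : zpowers x ≤ normalizer (cm x h : Set X) := by
  apply norm_of
  intro c hc
  unfold cm at hc
  induction hc using closure_induction with
  | mem c hc =>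
    obtain ⟨i, rfl⟩ := hc
    have e : x * (h⁻¹ * (x ^ i * h * (x ^ i)⁻¹)) * x⁻¹ =
        (h⁻¹ * (x ^ 1 * h * (x ^ 1)⁻¹))⁻¹ * (h⁻¹ * (x ^ (i + 1) * h * (x ^ (i + 1))⁻¹)) := by
      rw [show x ^ (i + 1) = x * x ^ i from pow_succ' x i, pow_one]; group
    rw [e]
    exact mul_mem (inv_mem (gen_mem_cm x h 1)) (gen_mem_cm x h (i + 1))
  | one => rw [mul_one, mul_inv_cancel]; exact one_mem _
  | mul a b _ _ ha hb =>
    have e : x * (a * b) * x⁻¹ = (x * a * x⁻¹) * (x * b * x⁻¹) := by group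
    rw [e]; exact mul_mem ha hb
  | inv a _ ha =>
    have e : x * a⁻¹ * x⁻¹ = (x * a * x⁻¹)⁻¹ := by group
    rw [e]; exact inv_mem ha

theorem cm_conj {x h f : X} (hf : Commute f x) {c : X} (hc : c ∈ cm x h) : f * c * f⁻¹ ∈ cm x (f * h * f⁻¹) := by
  unfold cm at hc
  induction hc using closure_induction with
  | mem c hc =>
    obtain ⟨i, rfl⟩ := hc
    apply Subgroup.subset_closure
    refine ⟨i, ?_⟩
    have h1 : f * x ^ i = x ^ i * f := (hf.pow_right i).eq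
    calc f * (h⁻¹ * (x ^ i * h * (x ^ i)⁻¹)) * f⁻¹ = f * h⁻¹ * f⁻¹ * ((f * x ^ i) * h * (f * x ^ i)⁻¹) := by group
      _ = (f * h * f⁻¹)⁻¹ * (x ^ i * (f * h * f⁻¹) * (x ^ i)⁻¹) := by rw [h1]; group
  | one => rw [mul_one, mul_inv_cancel]; exact one_mem _
  | mul a b _ _ ha hb =>
    have e : f * (a * b) * f⁻¹ = (f * a * f⁻¹) * (f * b * f⁻¹) := by group
    rw [e]; exact mul_mem ha hb
  | inv a _ ha =>
    have e : f * a⁻¹ * f⁻¹ = (f * a * f⁻¹)⁻¹ := by group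
    rw [e]; exact inv_mem ha

theorem Dg_conj {x : X} {H : Subgroup X} {f : X} (hfH : f ∈ H) (hf : Commute f x) {d : X} (hd : d ∈ Dg x H) :
    f * d * f⁻¹ ∈ Dg x H := by
  unfold Dg at hd
  induction hd using Subgroup.iSup_induction' with
  | hp h d hd =>
    obtain ⟨h1, h2⟩ := mem_inf.mp hd
    have h3 := cm_conj hf h1
    have h4 : f * d * f⁻¹ ∈ centralizer (zpowers x : Set X) := by
      rw [memC] at h2 ⊢
      exact (hf.mul_left h2).mul_left hf.inv_left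
    unfold Dg
    exact mem_iSup_of_mem (⟨f * h * f⁻¹, mul_mem (mul_mem hfH h.2) (inv_mem hfH)⟩ : H) (mem_inf.mpr ⟨h3, h4⟩)
  | h1 => rw [mul_one, mul_inv_cancel]; exact one_mem _
  | hmul a b _ _ ha hb =>
    have e : f * (a * b) * f⁻¹ = (f * a * f⁻¹) * (f * b * f⁻¹) := by group
    rw [e]; exact mul_mem ha hb

/-- The data of a minimal counterexample. -/
structure Cx (p : ℕ) (x : X) (H D : Subgroup X) : Prop where
  hp2 : p ≠ 2
  hxp : x ^ p = 1
  hn : zpowers x ≤ normalizer (H : Set X)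
  hcop : (Nat.card H).Coprime p
  hsol : Group.IsSolvable H
  hDH : D ≤ H
  hDC : D ≤ centralizer (zpowers x : Set X)
  hcmD : ∀ h ∈ H, cm x h ⊓ centralizer (zpowers x : Set X) ≤ D
  hDn : ∀ f ∈ H, f ∈ centralizer (zpowers x : Set X) → ∀ d ∈ D, f * d * f⁻¹ ∈ D
  IHsub : ∀ L : Subgroup X, L < H → zpowers x ≤ normalizer (L : Set X) →
    ⁅L, zpowers x⁆ ⊓ centralizer (zpowers x : Set X) ≤ D
  IHquo : ∀ N : Subgroup X, N ≤ H → N ≠ ⊥ → H ≤ normalizer (N : Set X) → zpowers x ≤ normalizer (N : Set X) →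
    ∀ f ∈ ⁅H, zpowers x⁆, f ∈ centralizer (zpowers x : Set X) →
      ∃ δ ∈ D, ∃ n ∈ N, n ∈ centralizer (zpowers x : Set X) ∧ f = δ * n
  hbad : ¬ ⁅H, zpowers x⁆ ⊓ centralizer (zpowers x : Set X) ≤ D

variable {p : ℕ} {x : X} {H D : Subgroup X}

theorem Cx.copP [Finite X] (c : Cx p x H D) {L : Subgroup X} (hL : L ≤ H) :
    (Nat.card (zpowers x)).Coprime (Nat.card L) := by
  rw [Nat.card_zpowers]
  have h1 : orderOf x ∣ p := orderOf_dvd_of_pow_eq_one c.hxp
  exact (Nat.Coprime.coprime_dvd_left (card_dvd_of_le hL) (Nat.Coprime.coprime_dvd_right h1 c.hcop)).symm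

theorem Cx.eqH [Finite X] (c : Cx p x H D) : ⁅H, zpowers x⁆ = H := by
  by_contra hne
  have hle := commutator_le_of_le_normalizer c.hn
  have hlt : ⁅H, zpowers x⁆ < H := lt_of_le_of_ne hle hne
  have h1 := c.IHsub _ hlt (normalizer_commutator_ge_right _ _)
  rw [commutator_commutator_eq c.hn (c.copP le_rfl)] at h1
  exact c.hbad h1

theorem Cx.fac [Finite X] (c : Cx p x H D) {L : Subgroup X} (hL : L ≤ H) (hn : zpowers x ≤ normalizer (L : Set X))
    {g : X} (hg : g ∈ L) : ∃ f ∈ L, f ∈ centralizer (zpowers x : Set X) ∧ ∃ n ∈ ⁅L, zpowers x⁆, g = f * n := by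
  obtain ⟨f, hf, n, hn', h⟩ := exists_centralizer_mul_commutator hn (c.copP hL) (Or.inl inferInstance) hg
  exact ⟨f, (mem_inf.mp hf).1, (mem_inf.mp hf).2, n, hn', h⟩

theorem Cx.bad [Finite X] (c : Cx p x H D) {N : Subgroup X} (hN : N ≤ H) (hN1 : N ≠ ⊥)
    (hHN : H ≤ normalizer (N : Set X)) (hn : zpowers x ≤ normalizer (N : Set X)) :
    ¬ N ⊓ centralizer (zpowers x : Set X) ≤ D := by
  intro h
  apply c.hbad
  intro f hf
  obtain ⟨h1, h2⟩ := mem_inf.mp hf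
  obtain ⟨δ, hδ, n, hn', hnC, rfl⟩ := c.IHquo N hN hN1 hHN hn f h1 h2
  exact mul_mem hδ (h (mem_inf.mpr ⟨hn', hnC⟩))

theorem Cx.cmne [Finite X] (c : Cx p x H D) {h : X} (hh : h ∈ H) : cm x h ≠ H := by
  intro h1
  apply c.hbad
  have h2 := c.hcmD h hh
  rw [h1] at h2
  rw [c.eqH]
  exact h2

theorem Cx.cmlt [Finite X] (c : Cx p x H D) {h : X} (hh : h ∈ H) : cm x h < H :=
  lt_of_le_of_ne ((cm_le hh).trans (commutator_le_of_le_normalizer c.hn)) (c.cmne hh)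

/-- fixed points of abelian invariant subgroups inside `[L, x]` -/
theorem Cx.ab [Finite X] (c : Cx p x H D) {L : Subgroup X} (hL : L ≤ H) (hn : zpowers x ≤ normalizer (L : Set X))
    (hab : IsMulCommutative L) : ⁅L, zpowers x⁆ ⊓ centralizer (zpowers x : Set X) = ⊥ :=
  commutator_inf_centralizer_of_abelian hn (c.copP hL) hab

theorem Cx.FD [Finite X] (c : Cx p x H D) {N : Subgroup X} (hN : N ≤ H) (hN1 : N ≠ ⊥)
    (hHN : H ≤ normalizer (N : Set X)) (hn : zpowers x ≤ normalizer (N : Set X)) {f : X} (hf : f ∈ H)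
    (hfC : f ∈ centralizer (zpowers x : Set X)) :
    ∃ δ ∈ D, ∃ n ∈ N, n ∈ centralizer (zpowers x : Set X) ∧ f = δ * n :=
  c.IHquo N hN hN1 hHN hn f (by rw [c.eqH]; exact hf) hfC

end Cfsg.Agent.H23.FX
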