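import Cfsg.Agent.H23.Flav1
import Cfsg.Agent.H23.Transv3

set_option autoImplicit false
set_option linter.all false

/-!
# Fixed points of coprime operator groups, II, seat helper23
-/

namespace Cfsg.Agent.H23.FX

open Subgroup
open scoped commutatorElement Pointwise

universe u

variable {X : Type u} [Group X]

/-- norm -/
def nm (x : X) : ℕ → X → X
  | 0, _ => 1
  | k + 1, v => nm x k v * (x ^ k * v * (x ^ k)⁻¹)

theorem pw_mem {x : X} {L : Subgroup X} (hn : zpowers x ≤ normalizer (L : Set X)) {v : X} (hv : v ∈ L) (k : ℕ) :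
    x ^ k * v * (x ^ k)⁻¹ ∈ L :=
  (mem_normalizer_iff.mp (hn (npow_mem_zpowers x k)) v).mp hv

theorem nm_mem {x : X} {L : Subgroup X} (hn : zpowers x ≤ normalizer (L : Set X)) {v : X} (hv : v ∈ L) (k : ℕ) :
    nm x k v ∈ L := by
  induction k with
  | zero => exact one_mem _
  | succ k ih => exact mul_mem ih (pw_mem hn hv k)

theorem nm_mul {x : X} {V : Subgroup X} (hn : zpowers x ≤ normalizer (V : Set X))
    (hab : ∀ a ∈ V, ∀ b ∈ V, a * b = b * a) {v w : X} (hv : v ∈ V) (hw : w ∈ V) (k : ℕ) :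
    nm x k (v * w) = nm x k v * nm x k w := by
  induction k with
  | zero => show (1 : X) = 1 * 1; rw [mul_one]
  | succ k ih =>
    show nm x k (v * w) * (x ^ k * (v * w) * (x ^ k)⁻¹) =
      (nm x k v * (x ^ k * v * (x ^ k)⁻¹)) * (nm x k w * (x ^ k * w * (x ^ k)⁻¹))
    rw [ih]
    have h1 := hab _ (nm_mem hn hw k) _ (pw_mem hn hv k)
    calc nm x k v * nm x k w * (x ^ k * (v * w) * (x ^ k)⁻¹)
        = nm x k v * (nm x k w * (x ^ k * v * (x ^ k)⁻¹)) * (x ^ k * w * (x ^ k)⁻¹) := by group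
      _ = nm x k v * ((x ^ k * v * (x ^ k)⁻¹) * nm x k w) * (x ^ k * w * (x ^ k)⁻¹) := by rw [h1]
      _ = _ := by group

theorem nm_inv {x : X} {V : Subgroup X} (hn : zpowers x ≤ normalizer (V : Set X))
    (hab : ∀ a ∈ V, ∀ b ∈ V, a * b = b * a) {v : X} (hv : v ∈ V) (k : ℕ) : nm x k v⁻¹ = (nm x k v)⁻¹ := by
  have h1 := nm_mul hn hab hv (inv_mem hv) k
  have h2 : nm x k (1 : X) = 1 := by
    have h3 := nm_mul hn hab (one_mem V) (one_mem V) k
    rw [mul_one] at h3
    exact (mul_eq_left.mp h3.symm)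
  rw [mul_inv_cancel, h2] at h1
  exact eq_inv_of_mul_eq_one_right h1.symm

theorem nm_conj (x : X) {g : X} (hg : Commute g x) (v : X) (k : ℕ) : nm x k (g * v * g⁻¹) = g * nm x k v * g⁻¹ := by
  induction k with
  | zero => show (1 : X) = g * 1 * g⁻¹; rw [mul_one, mul_inv_cancel]
  | succ k ih =>
    show nm x k (g * v * g⁻¹) * (x ^ k * (g * v * g⁻¹) * (x ^ k)⁻¹) = g * (nm x k v * (x ^ k * v * (x ^ k)⁻¹)) * g⁻¹
    have h1 : x ^ k * g = g * x ^ k := (hg.pow_right k).eq.symm
    rw [ih]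
    calc g * nm x k v * g⁻¹ * (x ^ k * (g * v * g⁻¹) * (x ^ k)⁻¹)
        = g * nm x k v * g⁻¹ * ((x ^ k * g) * v * (x ^ k * g)⁻¹) := by group
      _ = _ := by rw [h1]; group

theorem nm_fix (x : X) {u : X} (hu : Commute u x) (k : ℕ) : nm x k u = u ^ k := by
  induction k with
  | zero => exact (pow_zero u).symm
  | succ k ih =>
    show nm x k u * (x ^ k * u * (x ^ k)⁻¹) = u ^ (k + 1)
    rw [ih, ← (hu.pow_right k).eq, mul_inv_cancel_right, pow_succ]

theorem nm_comm {x : X} {p : ℕ} (hxp : x ^ p = 1) {V : Subgroup X} (hn : zpowers x ≤ normalizer (V : Set X))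
    (hab : ∀ a ∈ V, ∀ b ∈ V, a * b = b * a) {v : X} (hv : v ∈ V) : Commute (nm x p v) x := by
  have key : ∀ k, x * nm x k v * x⁻¹ = v⁻¹ * (nm x k v * (x ^ k * v * (x ^ k)⁻¹)) := by
    intro k
    induction k with
    | zero =>
      show x * 1 * x⁻¹ = v⁻¹ * (1 * (x ^ 0 * v * (x ^ 0)⁻¹))
      rw [pow_zero]; group
    | succ k ih =>
      show x * (nm x k v * (x ^ k * v * (x ^ k)⁻¹)) * x⁻¹ =
        v⁻¹ * ((nm x k v * (x ^ k * v * (x ^ k)⁻¹)) * (x ^ (k + 1) * v * (x ^ (k + 1))⁻¹))
      calc x * (nm x k v * (x ^ k * v * (x ^ k)⁻¹)) * x⁻¹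
          = (x * nm x k v * x⁻¹) * ((x * x ^ k) * v * (x * x ^ k)⁻¹) := by group
        _ = _ := by rw [ih, ← pow_succ']; group
  have h1 := key p
  rw [hxp, one_mul, inv_one, mul_one, hab _ (nm_mem hn hv p) _ hv, inv_mul_cancel_left] at h1
  have h2 : x * nm x p v = nm x p v * x := by
    rw [mul_inv_eq_iff_eq_mul] at h1; exact h1
  exact h2.symm

theorem inf_norm {N A B : Subgroup X} (hA : N ≤ normalizer (A : Set X)) (hB : N ≤ normalizer (B : Set X)) :
    N ≤ normalizer ((A ⊓ B : Subgroup X) : Set X) := by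
  apply le_normalizer_of_conj_mem
  intro n hn g hg
  obtain ⟨h1, h2⟩ := mem_inf.mp hg
  exact mem_inf.mpr ⟨(mem_normalizer_iff.mp (hA hn) g).mp h1, (mem_normalizer_iff.mp (hB hn) g).mp h2⟩

theorem sup_norm {N A B : Subgroup X} (hA : N ≤ normalizer (A : Set X)) (hB : N ≤ normalizer (B : Set X)) :
    N ≤ normalizer ((A ⊔ B : Subgroup X) : Set X) := by
  apply le_normalizer_of_conj_mem
  intro n hn
  have h1 : A ⊔ B ≤ (A ⊔ B).comap (MulAut.conj n).toMonoidHom := by
    apply sup_le
    · intro a ha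
      exact mem_sup_left ((mem_normalizer_iff.mp (hA hn) a).mp ha)
    · intro b hb
      exact mem_sup_right ((mem_normalizer_iff.mp (hB hn) b).mp hb)
  intro g hg
  exact h1 hg

theorem cent_norm {N A : Subgroup X} (hA : N ≤ normalizer (A : Set X)) :
    N ≤ normalizer ((centralizer (A : Set X) : Subgroup X) : Set X) := by
  apply le_normalizer_of_conj_mem
  intro n hn g hg
  rw [mem_centralizer_iff] at hg ⊢
  intro a ha
  have h1 : n⁻¹ * a * n ∈ A := by
    have := (mem_normalizer_iff.mp (hA (inv_mem hn)) a).mp ha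
    rwa [inv_inv] at this
  have h2 := hg _ h1
  calc a * (n * g * n⁻¹) = n * ((n⁻¹ * a * n) * g) * n⁻¹ := by group
    _ = n * (g * (n⁻¹ * a * n)) * n⁻¹ := by rw [h2]
    _ = (n * g * n⁻¹) * a := by group

theorem comm_norm {N A B : Subgroup X} (hA : N ≤ normalizer (A : Set X)) (hB : N ≤ normalizer (B : Set X)) :
    N ≤ normalizer ((⁅A, B⁆ : Subgroup X) : Set X) := by
  apply le_normalizer_of_conj_mem
  intro n hn
  have h1 : ⁅A, B⁆ ≤ (⁅A, B⁆).comap (MulAut.conj n).toMonoidHom := by
    rw [commutator_le]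
    intro a ha b hb
    have e : n * ⁅a, b⁆ * n⁻¹ = ⁅n * a * n⁻¹, n * b * n⁻¹⁆ := by simp only [commutatorElement_def]; group
    show n * ⁅a, b⁆ * n⁻¹ ∈ ⁅A, B⁆
    rw [e]
    exact commutator_mem_commutator ((mem_normalizer_iff.mp (hA hn) a).mp ha) ((mem_normalizer_iff.mp (hB hn) b).mp hb)
  intro g hg
  exact h1 hg

variable {p : ℕ} {x : X} {H D : Subgroup X}

theorem Cx.caseII [Finite X] [hp : Fact p.Prime] (c : Cx p x H D) {V : Subgroup X} (hVH : V ≤ H) (hV1 : V ≠ ⊥)
    (hHV : H ≤ normalizer (V : Set X)) (hnV : zpowers x ≤ normalizer (V : Set X))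
    (hmin : ∀ N ≤ V, H ≤ normalizer (N : Set X) → zpowers x ≤ normalizer (N : Set X) → N = ⊥ ∨ N = V)
    {r : ℕ} [hr : Fact r.Prime] (hVr : Cfsg.IsElementaryAbelian r V) (hVC : ¬ V ≤ centralizer (H : Set X)) : False := by
  classical
  have hab : ∀ a ∈ V, ∀ b ∈ V, a * b = b * a := fun a ha b hb =>
    congrArg Subtype.val (hVr.1.is_comm.comm ⟨a, ha⟩ ⟨b, hb⟩)
  have hVp : IsPGroup r V := fun g => ⟨1, by rw [pow_one]; exact Subtype.ext (hVr.2 _ g.2)⟩
  obtain ⟨C, hC⟩ : ∃ C, C = centralizer (zpowers x : Set X) := ⟨_, rfl⟩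
  have hCm : ∀ g, g ∈ C ↔ Commute g x := fun g => by rw [hC]; exact memC
  have hVbad : ¬ V ⊓ C ≤ D := by rw [hC]; exact c.bad hVH hV1 hHV hnV
  have hDC : D ≤ C := by rw [hC]; exact c.hDC
  have hcmD : ∀ h ∈ H, cm x h ⊓ C ≤ D := by rw [hC]; exact c.hcmD
  have hDn : ∀ f ∈ H, f ∈ C → ∀ d ∈ D, f * d * f⁻¹ ∈ D := by rw [hC]; exact c.hDn
  have hIH : ∀ L : Subgroup X, L < H → zpowers x ≤ normalizer (L : Set X) → ⁅L, zpowers x⁆ ⊓ C ≤ D := by
    rw [hC]; exact c.IHsub
  have hHVm : ∀ h ∈ H, ∀ v ∈ V, h * v * h⁻¹ ∈ V := fun h hh v hv => (mem_normalizer_iff.mp (hHV hh) v).mp hv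
  -- commutators with V lie in V
  have hcV : ∀ g ∈ H, ∀ v ∈ V, ⁅g, v⁆ ∈ V := by
    intro g hg v hv
    rw [commutatorElement_def]
    exact mul_mem (hHVm g hg v hv) (inv_mem hv)
  -- normal subgroups of H contained in V via generators
  obtain ⟨S, hS⟩ : ∃ S : Subgroup X, ∀ g, g ∈ S ↔ g ∈ H ∧ ∀ v ∈ V, nm x p ⁅g, v⁆ ∈ D :=
    ⟨{ carrier := {g | g ∈ H ∧ ∀ v ∈ V, nm x p ⁅g, v⁆ ∈ D}
       one_mem' := by
         refine ⟨one_mem _, fun v _ => ?_⟩
         rw [commutatorElement_one_left, nm_fix x (Commute.one_left x), one_pow]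
         exact one_mem _
       mul_mem' := by
         rintro a b ⟨ha, ha'⟩ ⟨hb, hb'⟩
         refine ⟨mul_mem ha hb, fun v hv => ?_⟩
         have e : ⁅a * b, v⁆ = ⁅a, b * v * b⁻¹⁆ * ⁅b, v⁆ := by simp only [commutatorElement_def]; group
         rw [e, nm_mul hnV hab (hcV a ha _ (hHVm b hb v hv)) (hcV b hb v hv)]
         exact mul_mem (ha' _ (hHVm b hb v hv)) (hb' v hv)
       inv_mem' := by
         rintro a ⟨ha, ha'⟩
         refine ⟨inv_mem ha, fun v hv => ?_⟩
         have h1 := hHVm a⁻¹ (inv_mem ha) v hv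
         rw [inv_inv] at h1
         have e : ⁅a⁻¹, v⁆ = ⁅a, a⁻¹ * v * a⁆⁻¹ := by simp only [commutatorElement_def]; group
         rw [e, nm_inv hnV hab (hcV a ha _ h1)]
         exact inv_mem (ha' _ h1) }, fun g => Iff.rfl⟩
  -- s3'
  have s3 : ∀ W : Subgroup X, W ≤ S → V ≤ ⁅W, V⁆ → False := by
    intro W hW hVW
    have h1 : ∀ v ∈ V, nm x p v ∈ D := by
      obtain ⟨VD, hVD⟩ : ∃ VD : Subgroup X, ∀ v, v ∈ VD ↔ v ∈ V ∧ nm x p v ∈ D :=
        ⟨{ carrier := {v | v ∈ V ∧ nm x p v ∈ D}
           one_mem' := ⟨one_mem _, by rw [nm_fix x (Commute.one_left x), one_pow]; exact one_mem _⟩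
           mul_mem' := by
             rintro a b ⟨ha, ha'⟩ ⟨hb, hb'⟩
             exact ⟨mul_mem ha hb, by rw [nm_mul hnV hab ha hb]; exact mul_mem ha' hb'⟩
           inv_mem' := by
             rintro a ⟨ha, ha'⟩
             exact ⟨inv_mem ha, by rw [nm_inv hnV hab ha]; exact inv_mem ha'⟩ }, fun v => Iff.rfl⟩
      have h2 : ⁅W, V⁆ ≤ VD := by
        rw [commutator_le]
        intro g hg v hv
        exact (hVD _).mpr ⟨hcV g ((hS g).mp (hW hg)).1 v hv, ((hS g).mp (hW hg)).2 v hv⟩
      exact fun v hv => ((hVD v).mp (h2 (hVW hv))).2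
    apply hVbad
    intro u hu
    obtain ⟨hu1, hu2⟩ := mem_inf.mp hu
    have h2 := h1 u hu1
    rw [nm_fix x ((hCm u).mp hu2)] at h2
    have h3 : u ^ Nat.card H = 1 := by
      have := orderOf_dvd_iff_pow_eq_one.mp (Subgroup.orderOf_dvd_natCard H (hVH hu1))
      exact this
    exact mem_of_coprime_pow (c.hcop.symm) h2 (by rw [h3]; exact one_mem _)
  have hVcomm : V ≤ ⁅H, V⁆ := by
    have h1 : ⁅H, V⁆ ≤ V := by
      rw [commutator_le]
      exact fun g hg v hv => hcV g hg v hv
    rcases hmin ⁅H, V⁆ h1 (normalizer_commutator_ge_left _ _) (comm_norm c.hn hnV) with h | h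
    · exfalso
      apply hVC
      rw [commutator_comm, commutator_eq_bot_iff_le_centralizer] at h
      exact h
    · exact h.ge
  have hSH : ¬ H ≤ S := fun h => s3 H h hVcomm
  have hSle : S ≤ H := fun g hg => ((hS g).mp hg).1
  have hVS : V ≤ S := by
    intro v hv
    refine (hS v).mpr ⟨hVH hv, fun w hw => ?_⟩
    rw [commutatorElement_eq_one_iff_mul_comm.mpr (hab v hv w hw), nm_fix x (Commute.one_left x), one_pow]
    exact one_mem _
  -- s4
  have s4 : D ≤ S := by
    intro g hg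
    refine (hS g).mpr ⟨c.hDH hg, fun v hv => ?_⟩
    have hgx : Commute g x := (hCm g).mp (hDC hg)
    have e : nm x p ⁅g, v⁆ = g * (nm x p v * g⁻¹ * (nm x p v)⁻¹) := by
      rw [commutatorElement_def, nm_mul hnV hab (hHVm g (c.hDH hg) v hv) (inv_mem hv), nm_conj x hgx,
        nm_inv hnV hab hv]
      group
    rw [e]
    exact mul_mem hg (hDn _ (hVH (nm_mem hnV hv p)) ((hCm _).mpr (nm_comm c.hxp hnV hab hv)) _ (inv_mem hg))
  -- s5
  have s5 : ∀ M : Subgroup X, M ≤ H → zpowers x ≤ normalizer (M : Set X) → V ⊔ M < H → ⁅M, zpowers x⁆ ≤ S := by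
    intro M hMH hnM hlt g hg
    have hgM : g ∈ M := commutator_le_of_le_normalizer hnM hg
    have h1 := hIH (V ⊔ M) hlt (sup_norm hnV hnM)
    refine (hS g).mpr ⟨hMH hgM, fun v hv => ?_⟩
    apply h1
    have hgL : g ∈ ⁅V ⊔ M, zpowers x⁆ := commutator_mono le_sup_right le_rfl hg
    have h2 : ⁅g, v⁆ ∈ ⁅V ⊔ M, zpowers x⁆ := by
      have e : ⁅g, v⁆ = g * (v * g⁻¹ * v⁻¹) := by rw [commutatorElement_def]; group
      rw [e]
      exact mul_mem hgL ((mem_normalizer_iff.mp (normalizer_commutator_ge_left _ _ (mem_sup_left hv)) _).mp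
        (inv_mem hgL))
    exact mem_inf.mpr ⟨nm_mem (normalizer_commutator_ge_right _ _) h2 p,
      (hCm _).mpr (nm_comm c.hxp hnV hab (hcV g (hMH hgM) v hv))⟩
  -- s6
  obtain ⟨h, hhH, hVT⟩ : ∃ h ∈ H, V ⊔ cm x h = H := by
    by_contra hno
    push Not at hno
    apply hSH
    rw [← c.eqH]
    apply comm_le_of_cm
    intro h hh g hg
    have hle : cm x h ≤ H := (c.cmlt hh).le
    obtain ⟨f, hf, hfC, n, hn', rfl⟩ := c.fac hle (cm_inv x h) hg
    have hlt : V ⊔ cm x h < H := lt_of_le_of_ne (sup_le hVH hle) (hno h hh)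
    exact mul_mem (s4 (hcmD h hh (mem_inf.mpr ⟨hf, by rw [hC]; exact hfC⟩))) (s5 _ hle (cm_inv x h) hlt hn')
  -- complements
  have comp : ∀ h ∈ H, V ⊔ cm x h = H → V ⊓ cm x h = ⊥ := by
    intro h hh hVT
    have hTH : cm x h ≤ H := (c.cmlt hh).le
    have hn1 : H ≤ normalizer ((V ⊓ cm x h : Subgroup X) : Set X) := by
      rw [← hVT]
      apply sup_le
      · apply le_normalizer_of_conj_mem
        intro v hv g hg
        have h1 : v * g * v⁻¹ = g := by
          rw [hab v hv g (mem_inf.mp hg).1, mul_inv_cancel_right]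
        rw [h1]; exact hg
      · exact inf_norm (hTH.trans hHV) le_normalizer
    rcases hmin _ inf_le_left hn1 (inf_norm hnV (cm_inv x h)) with h1 | h1
    · exact h1
    · exfalso
      have h2 : V ≤ cm x h := inf_eq_left.mp h1
      rw [sup_eq_right.mpr h2] at hVT
      exact c.cmne hh hVT
  obtain ⟨T, hT⟩ : ∃ T, T = cm x h := ⟨_, rfl⟩
  have hVTbot := comp h hhH hVT
  rw [← hT] at hVT hVTbot
  have hTH : T ≤ H := by rw [hT]; exact (c.cmlt hhH).le
  have hnT : zpowers x ≤ normalizer (T : Set X) := by rw [hT]; exact cm_inv x h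
  have hTD : T ⊓ C ≤ D := by rw [hT]; exact hcmD h hhH
  have hTV : T ≤ normalizer (V : Set X) := hTH.trans hHV
  -- normality helper
  have hnorm : ∀ N : Subgroup X, V ≤ normalizer (N : Set X) → T ≤ normalizer (N : Set X) →
      H ≤ normalizer (N : Set X) := by
    intro N h1 h2
    rw [← hVT]
    exact sup_le h1 h2
  -- s7
  have s7 : T ⊓ centralizer (V : Set X) = ⊥ := by
    by_contra hne
    have h1 : V ≤ normalizer ((T ⊓ centralizer (V : Set X) : Subgroup X) : Set X) := by
      apply le_normalizer_of_conj_mem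
      intro v hv g hg
      have h2 := mem_centralizer_iff.mp (mem_inf.mp hg).2 v hv
      have h3 : v * g * v⁻¹ = g := by rw [h2, mul_inv_cancel_right]
      rw [h3]; exact hg
    have h2 : T ≤ normalizer ((T ⊓ centralizer (V : Set X) : Subgroup X) : Set X) :=
      inf_norm le_normalizer (cent_norm hTV)
    apply c.bad (inf_le_left.trans hTH) hne (hnorm _ h1 h2) (inf_norm hnT (cent_norm hnV))
    rw [← hC]
    exact (inf_le_inf_right _ inf_le_left).trans hTD
  have hfree : ∀ N : Subgroup X, N ≤ T → V ≤ centralizer (N : Set X) → N = ⊥ := by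
    intro N hN h1
    rw [eq_bot_iff, ← s7]
    exact le_inf hN (le_centralizer_iff.mp h1)
  have hTVmem : ∀ g, g ∈ T → g ∈ V → g = 1 := by
    intro g h1 h2
    have : g ∈ V ⊓ T := mem_inf.mpr ⟨h2, h1⟩
    rwa [hVTbot, mem_bot] at this
  have s8' : ∀ M : Subgroup X, M < T → V ⊔ M < H := by
    intro M hM
    refine lt_of_le_of_ne (sup_le hVH (hM.le.trans hTH)) fun heq => ?_
    apply hM.not_ge
    intro t ht
    have h1 : t ∈ V ⊔ M := by rw [heq]; exact hTH ht
    obtain ⟨v, hv, m, hm, rfl⟩ := (mem_sup_iff_of_le_normalizer ((hM.le.trans hTH).trans hHV)).mp h1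
    have h2 : v ∈ T := by
      have := mul_mem ht (inv_mem (hM.le hm))
      rwa [mul_inv_cancel_right] at this
    rw [hTVmem v h2 hv, one_mul]
    exact hm
  have s8 : ∀ M : Subgroup X, M < T → zpowers x ≤ normalizer (M : Set X) → M ≤ S := by
    intro M hM hnM g hg
    obtain ⟨f, hf, hfC, n, hn', rfl⟩ := c.fac (hM.le.trans hTH) hnM hg
    exact mul_mem (s4 (hTD (mem_inf.mpr ⟨hM.le hf, by rw [hC]; exact hfC⟩)))
      (s5 _ (hM.le.trans hTH) hnM (s8' M hM) hn')
  have hTne : T ≠ ⊥ := by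
    intro h1
    rw [h1, sup_bot_eq] at hVT
    apply hVC
    rw [← hVT]
    intro v hv
    rw [mem_centralizer_iff]
    exact fun w hw => hab w hw v hv
  -- s9
  obtain ⟨q, hqf, hTq⟩ : ∃ (q : ℕ) (_ : Fact q.Prime), IsPGroup q T := by
    by_contra hno
    push Not at hno
    have h1 : T ≤ S := by
      rw [← relIndex_eq_one]
      by_contra hne
      obtain ⟨q, hq, hqd⟩ := Nat.exists_prime_and_dvd hne
      haveI : Fact q.Prime := ⟨hq⟩
      obtain ⟨Q, hQ, hnQ⟩ := exists_invariant_sylow hnT (c.copP hTH) (Or.inl inferInstance) q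
      have h3 : Q < T := lt_of_le_of_ne hQ.le (fun h4 => hno q inferInstance (h4 ▸ hQ.isPGroup))
      exact hQ.not_dvd (hqd.trans (relIndex_dvd_of_le_left T (s8 Q h3 hnQ)))
    exact hSH (by rw [← hVT]; exact sup_le hVS h1)
  -- s10
  have hVpcard : ∃ k, Nat.card V = r ^ (k + 1) := by
    obtain ⟨k, hk⟩ := IsPGroup.iff_card.mp hVp
    rcases k with _ | k
    · exfalso; rw [pow_zero] at hk; exact hV1 (eq_bot_of_card_eq V hk)
    · exact ⟨k, hk⟩
  have hHVT : ⁅H, V⁆ ≤ ⁅V, T⁆ := by
    rw [commutator_le]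
    intro g hg w hw
    have hg' : g ∈ V ⊔ T := by rw [hVT]; exact hg
    obtain ⟨v, hv, t, ht, rfl⟩ := (mem_sup_iff_of_le_normalizer hTV).mp hg'
    have e : ⁅v * t, w⁆ = v * ⁅t, w⁆ * v⁻¹ * ⁅v, w⁆ := by simp only [commutatorElement_def]; group
    rw [e, commutatorElement_eq_one_iff_mul_comm.mpr (hab v hv w hw), mul_one,
      hab v hv _ (hcV t (hTH ht) w hw), mul_inv_cancel_right, commutator_comm]
    exact commutator_mem_commutator ht hw
  have hqr : q ≠ r := by
    rintro rfl
    have h1 := commutator_lt_of_isPGroup hVp hTq hTV hV1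
    apply h1.not_ge
    exact hVcomm.trans hHVT
  -- the centre of T
  obtain ⟨Z, hZ⟩ : ∃ Z, Z = T ⊓ centralizer (T : Set X) := ⟨_, rfl⟩
  have hZT : Z ≤ T := by rw [hZ]; exact inf_le_left
  have hZH : Z ≤ H := hZT.trans hTH
  have hnZ : zpowers x ≤ normalizer (Z : Set X) := by rw [hZ]; exact inf_norm hnT (cent_norm hnT)
  have hZne : Z ≠ ⊥ := by
    haveI : Nontrivial T := (Subgroup.nontrivial_iff_ne_bot T).mpr hTne
    haveI := hTq.center_nontrivial
    obtain ⟨z, hz⟩ := exists_ne (1 : center T)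
    intro h1
    apply hz
    have h2 : ((z : T) : X) ∈ Z := by
      rw [hZ]
      refine mem_inf.mpr ⟨(z : T).2, ?_⟩
      rw [mem_centralizer_iff]
      intro t ht
      exact congrArg Subtype.val (mem_center_iff.mp z.2 ⟨t, ht⟩)
    rw [h1, mem_bot] at h2
    exact Subtype.ext (Subtype.ext h2)
  -- centralizers in V of invariant subgroups of Z are trivial
  have hcz : ∀ A : Subgroup X, A ≤ Z → A ≠ ⊥ → zpowers x ≤ normalizer (A : Set X) →
      V ⊓ centralizer (A : Set X) = ⊥ := by
    intro A hA hA1 hnA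
    have h1 : V ≤ normalizer ((V ⊓ centralizer (A : Set X) : Subgroup X) : Set X) := by
      apply le_normalizer_of_conj_mem
      intro v hv g hg
      have h3 : v * g * v⁻¹ = g := by rw [hab v hv g (mem_inf.mp hg).1, mul_inv_cancel_right]
      rw [h3]; exact hg
    have h2 : T ≤ normalizer ((V ⊓ centralizer (A : Set X) : Subgroup X) : Set X) := by
      apply inf_norm hTV
      apply cent_norm
      apply le_normalizer_of_conj_mem
      intro t ht a ha
      have h3 := (mem_inf.mp (hZ ▸ hA ha)).2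
      have h4 := mem_centralizer_iff.mp h3 t ht
      have h5 : t * a * t⁻¹ = a := by rw [h4, mul_inv_cancel_right]
      rw [h5]; exact ha
    rcases hmin _ inf_le_left (hnorm _ h1 h2) (inf_norm hnV (cent_norm hnA)) with h | h
    · exact h
    · exfalso
      apply hA1
      exact hfree A (hA.trans hZT) (inf_eq_left.mp h)
  have hcopq : ∀ A : Subgroup X, A ≤ T → (Nat.card A).Coprime (Nat.card V) := by
    intro A hA
    obtain ⟨k, hk⟩ := IsPGroup.iff_card.mp (hTq.to_le hA)
    obtain ⟨m, hm⟩ := hVpcard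
    rw [hk, hm]
    exact Nat.Coprime.pow _ _ ((Nat.coprime_primes hqf.out hr.out).mpr hqr)
  by_cases hA : ⁅Z, zpowers x⁆ = ⊥
  · -- Z centralized by x
    have hZC : Z ≤ C := by rw [hC]; exact commutator_eq_bot_iff_le_centralizer.mp hA
    have hZD : Z ≤ D := (le_inf hZT hZC).trans hTD
    apply hVbad
    have hUn : Z ≤ normalizer ((V ⊓ C : Subgroup X) : Set X) :=
      inf_norm (hZH.trans hHV) (hZC.trans le_normalizer)
    have h1 := commutator_sup_centralizer hUn
      (Nat.Coprime.coprime_dvd_right (card_dvd_of_le inf_le_left) (hcopq Z hZT)) (Or.inr (by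
        haveI : Group.IsSolvable H := c.hsol
        exact H1.isSolvable_of_le (inf_le_left.trans hVH) c.hsol))
    have h2 : V ⊓ C ⊓ centralizer (Z : Set X) = ⊥ := by
      rw [eq_bot_iff, ← hcz Z le_rfl hZne hnZ]
      exact inf_le_inf_right _ inf_le_left
    rw [h2, sup_bot_eq] at h1
    rw [← h1, commutator_le]
    intro u hu z hz
    obtain ⟨hu1, hu2⟩ := mem_inf.mp hu
    rw [commutatorElement_def]
    exact mul_mem (hDn u (hVH hu1) hu2 z (hZD hz)) (inv_mem (hZD hz))
  · obtain ⟨A, hAd⟩ : ∃ A, A = ⁅Z, zpowers x⁆ := ⟨_, rfl⟩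
    rw [← hAd] at hA
    have hAZ : A ≤ Z := by rw [hAd]; exact commutator_le_of_le_normalizer hnZ
    have hnA : zpowers x ≤ normalizer (A : Set X) := by rw [hAd]; exact normalizer_commutator_ge_right _ _
    have hAA : ⁅A, zpowers x⁆ = A := by rw [hAd, commutator_commutator_eq hnZ (c.copP hZH)]
    have hCVA := hcz A hAZ hA hnA
    have hVA : V ≤ ⁅A, V⁆ := by
      have h1 := commutator_sup_centralizer (A := A) (G := V) ((hAZ.trans hZH).trans hHV)
        (hcopq A (hAZ.trans hZT)) (Or.inr (H1.isSolvable_of_le hVH c.hsol))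
      rw [hCVA, sup_bot_eq, commutator_comm] at h1
      exact h1.ge
    rcases eq_or_lt_of_le (hAZ.trans hZT) with hAT | hAT
    · -- T abelian
      have hTab : ∀ a ∈ T, ∀ b ∈ T, a * b = b * a := by
        intro a ha b hb
        have h1 : a ∈ Z := hAZ (by rw [hAT]; exact ha)
        rw [hZ] at h1
        exact (mem_centralizer_iff.mp (mem_inf.mp h1).2 b hb).symm
      have hTT : ⁅T, zpowers x⁆ = T := by rw [← hAT]; exact hAA
      have hTC : T ⊓ C = ⊥ := by
        have h1 := c.ab hTH hnT ⟨⟨fun a b => Subtype.ext (hTab a a.2 b b.2)⟩⟩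
        rw [hTT] at h1
        rw [hC]; exact h1
      have hCVT : V ⊓ centralizer (T : Set X) = ⊥ := by rw [← hAT]; exact hCVA
      have hxo : orderOf x = p := by
        rcases (Nat.dvd_prime hp.out).mp (orderOf_dvd_of_pow_eq_one c.hxp) with h1 | h1
        · exfalso
          rw [orderOf_eq_one_iff] at h1
          apply hA
          rw [hAd, h1, zpowers_one_eq_bot, commutator_bot_right]
        · exact h1
      have hUcard : Nat.card V = Nat.card (V ⊓ C : Subgroup X) ^ p := by
        have h1 := H1.card_eq_pow_of_frob_ab (V := V) (A := T) (S := zpowers x) hVr hTV hnV hnT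
          (by
            have : ⁅T, T⁆ = ⊥ := by
              rw [commutator_eq_bot_iff_le_centralizer]
              intro a ha
              rw [mem_centralizer_iff]
              exact fun b hb => hTab b hb a ha
            rw [this]; exact bot_le) hCVT
          (by
            intro y hy hy1 a ha hya
            have h2 : x ∈ zpowers y := by
              have h3 : Nat.card (zpowers x) = p := by rw [Nat.card_zpowers, hxo]
              have h4 := mem_zpowers_of_prime_card (G := zpowers x) h3 (g := ⟨y, hy⟩)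
                (g' := ⟨x, mem_zpowers x⟩) (fun h => hy1 (congrArg Subtype.val h))
              obtain ⟨k, hk⟩ := mem_zpowers_iff.mp h4
              exact mem_zpowers_iff.mpr ⟨k, congrArg Subtype.val hk⟩
            obtain ⟨k, hk⟩ := mem_zpowers_iff.mp h2
            have h5 : a ∈ T ⊓ C := mem_inf.mpr ⟨ha, (hCm a).mpr (by rw [← hk]; exact hya.symm.zpow_right k)⟩
            rwa [hTC, mem_bot] at h5)
          (by
            intro h2
            obtain ⟨k, hk⟩ := IsPGroup.iff_card.mp hTq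
            rw [hk] at h2
            exact hqr ((Nat.prime_dvd_prime_iff_eq hr.out hqf.out).mp (hr.out.dvd_of_dvd_pow h2)).symm)
          (by
            intro h2
            rw [Nat.card_zpowers, hxo] at h2
            have h3 := (Nat.prime_dvd_prime_iff_eq hr.out hp.out).mp h2
            obtain ⟨m, hm⟩ := hVpcard
            have h4 : p ∣ Nat.card H := by
              refine dvd_trans ?_ (card_dvd_of_le hVH)
              rw [hm, h3]
              exact dvd_pow_self p (Nat.succ_ne_zero m)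
            have h5 := Nat.dvd_gcd h4 (dvd_refl p)
            rw [c.hcop] at h5
            exact hp.out.one_lt.ne' (Nat.dvd_one.mp h5))
        rw [Nat.card_zpowers, hxo, ← hC] at h1
        exact h1
      -- the upper bound
      have hbound : Nat.card V ≤ Nat.card (V ⊓ C : Subgroup X) * Nat.card (V ⊓ C : Subgroup X) := by
        have hcard : ∀ T' : Subgroup X, T' ≤ H → V ⊔ T' = H → V ⊓ T' = ⊥ → Nat.card H = Nat.card V * Nat.card T' := by
          intro T' h1 h2 h3
          rw [← h2]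
          exact card_sup_of_inf_eq_bot (h1.trans hHV) (by rw [inf_comm]; exact h3)
        have hVpos : 0 < Nat.card V := Nat.card_pos
        have hqV : ¬ q ∣ Nat.card V := by
          obtain ⟨m, hm⟩ := hVpcard
          intro h1
          rw [hm] at h1
          exact hqr ((Nat.prime_dvd_prime_iff_eq hqf.out hr.out).mp (hqf.out.dvd_of_dvd_pow h1))
        have hsyl : ∀ T' : Subgroup X, T' ≤ H → V ⊔ T' = H → V ⊓ T' = ⊥ → IsSylowOf q T' H := by
          intro T' h1 h2 h3
          have h4 := hcard T' h1 h2 h3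
          have h5 := hcard T hTH hVT hVTbot
          have h6 : Nat.card T' = Nat.card T := Nat.eq_of_mul_eq_mul_left hVpos (h4.symm.trans h5)
          obtain ⟨k, hk⟩ := IsPGroup.iff_card.mp hTq
          have h7 : IsPGroup q T' := IsPGroup.of_card (h6.trans hk)
          apply isSylowOf_of_not_dvd h1 h7
          have h8 := (T'.subgroupOf H).card_mul_index
          rw [H1.card_subgroupOf h1, h4, mul_comm (Nat.card V)] at h8
          have h9 : T'.relIndex H = Nat.card V := Nat.eq_of_mul_eq_mul_left Nat.card_pos h8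
          rw [h9]
          exact hqV
        obtain ⟨τ, hτ⟩ : ∃ τ, τ = h⁻¹ * (x * h * x⁻¹) := ⟨_, rfl⟩
        have hτT : τ ∈ T := by
          rw [hτ, hT]
          have := gen_mem_cm x h 1
          rwa [pow_one] at this
        have key : ∀ w ∈ V, ∃ u ∈ V ⊓ C, w⁻¹ * (x * w * x⁻¹) = h * (u * (τ * u⁻¹ * τ⁻¹)) * h⁻¹ := by
          intro w hw
          have hwH : w * h ∈ H := mul_mem (hVH hw) hhH
          have hTwH : cm x (w * h) ≤ H := (c.cmlt hwH).le
          have hxw : ∀ i : ℕ, x ^ i * w * (x ^ i)⁻¹ ∈ V := pw_mem hnV hw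
          have hhV : ∀ v ∈ V, h⁻¹ * v * h ∈ V := by
            intro v hv
            have := hHVm h⁻¹ (inv_mem hhH) v hv
            rwa [inv_inv] at this
          have hsup : V ⊔ cm x (w * h) = H := by
            apply le_antisymm (sup_le hVH hTwH)
            rw [← hVT]
            apply sup_le le_sup_left
            rw [hT]
            conv_lhs => rw [cm]
            rw [closure_le]
            rintro _ ⟨i, rfl⟩
            have e : h⁻¹ * (x ^ i * h * (x ^ i)⁻¹) =
                (h⁻¹ * (w⁻¹ * (x ^ i * w * (x ^ i)⁻¹)) * h)⁻¹ *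
                  ((w * h)⁻¹ * (x ^ i * (w * h) * (x ^ i)⁻¹)) := by group
            rw [e]
            exact mul_mem (mem_sup_left (inv_mem (hhV _ (mul_mem (inv_mem hw) (hxw i)))))
              (mem_sup_right (gen_mem_cm x (w * h) i))
          have hbot := comp (w * h) hwH hsup
          obtain ⟨cc, hcc, hconj⟩ := invariant_sylow_conj c.hn (c.copP le_rfl) (Or.inl inferInstance)
            (hsyl T hTH hVT hVTbot) (hsyl _ hTwH hsup hbot) hnT (cm_inv x (w * h))
          obtain ⟨hccH, hccC⟩ := mem_inf.mp hcc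
          rw [← hC, hCm] at hccC
          obtain ⟨u, hu, t1, ht1, rfl⟩ := (mem_sup_iff_of_le_normalizer hTV).mp (show cc ∈ V ⊔ T by
            rw [hVT]; exact hccH)
          have huC : u ∈ C := by
            rw [hCm]
            have h1 : x * (u * t1) * x⁻¹ = u * t1 := by
              rw [← hccC.eq, mul_inv_cancel_right]
            have h2 : u⁻¹ * (x * u * x⁻¹) = t1 * (x * t1 * x⁻¹)⁻¹ := by
              have : x * (u * t1) * x⁻¹ = (x * u * x⁻¹) * (x * t1 * x⁻¹) := by group
              rw [this] at h1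
              rw [eq_mul_inv_iff_mul_eq, mul_assoc, h1, inv_mul_cancel_left]
            have h3 : x * u * x⁻¹ ∈ V := by simpa using pw_mem hnV hu 1
            have h4 : x * t1 * x⁻¹ ∈ T := by simpa using pw_mem hnT ht1 1
            have h5 := hTVmem (u⁻¹ * (x * u * x⁻¹)) (by rw [h2]; exact mul_mem ht1 (inv_mem h4))
              (mul_mem (inv_mem hu) h3)
            have h6 : x * u * x⁻¹ = u := (inv_mul_eq_one.mp h5).symm
            exact (mul_inv_eq_iff_eq_mul.mp h6).symm
          refine ⟨u, mem_inf.mpr ⟨hu, huC⟩, ?_⟩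
          obtain ⟨a, ha⟩ : ∃ a, a = h⁻¹ * (w⁻¹ * (x * w * x⁻¹)) * h := ⟨_, rfl⟩
          have haV : a ∈ V := by
            rw [ha]
            have h7 : x * w * x⁻¹ ∈ V := by simpa using pw_mem hnV hw 1
            exact hhV _ (mul_mem (inv_mem hw) h7)
          have hy : a * τ ∈ cm x (w * h) := by
            have h7 := gen_mem_cm x (w * h) 1
            rw [pow_one] at h7
            have e : (w * h)⁻¹ * (x * (w * h) * x⁻¹) = a * τ := by rw [ha, hτ]; group
            rwa [e] at h7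
          rw [← hconj] at hy
          have hy2 : (u * t1)⁻¹ * (a * τ) * (u * t1) ∈ T := by
            rw [mem_pointwise_smul_iff_inv_smul_mem, ← map_inv, MulAut.smul_def, MulAut.conj_apply, inv_inv] at hy
            exact hy
          have hy3 : u⁻¹ * (a * τ) * u ∈ T := by
            have := mul_mem (mul_mem ht1 hy2) (inv_mem ht1)
            have e : t1 * ((u * t1)⁻¹ * (a * τ) * (u * t1)) * t1⁻¹ = u⁻¹ * (a * τ) * u := by group
            rwa [e] at this
          have hz : u⁻¹ * a * (τ * u * τ⁻¹) ∈ T := by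
            have := mul_mem hy3 (inv_mem hτT)
            have e : u⁻¹ * (a * τ) * u * τ⁻¹ = u⁻¹ * a * (τ * u * τ⁻¹) := by group
            rwa [e] at this
          have hz2 : u⁻¹ * a * (τ * u * τ⁻¹) ∈ V :=
            mul_mem (mul_mem (inv_mem hu) haV) (hHVm τ (hTH hτT) u hu)
          have hz3 := hTVmem _ hz hz2
          have ha2 : a = u * (τ * u⁻¹ * τ⁻¹) := by
            have h8 : u⁻¹ * a = (τ * u * τ⁻¹)⁻¹ := eq_inv_of_mul_eq_one_left hz3
            have h9 : a = u * (τ * u * τ⁻¹)⁻¹ := by rw [← h8, mul_inv_cancel_left]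
            rw [h9]; group
          rw [← ha2, ha]; group
        choose! uf huf huf2 using key
        have hfib : ∀ w ∈ V, ∀ w' ∈ V, uf w = uf w' → w * w'⁻¹ ∈ V ⊓ C := by
          intro w hw w' hw' heq
          refine mem_inf.mpr ⟨mul_mem hw (inv_mem hw'), ?_⟩
          rw [hCm]
          have h1 : w⁻¹ * (x * w * x⁻¹) = w'⁻¹ * (x * w' * x⁻¹) := by rw [huf2 w hw, huf2 w' hw', heq]
          have h2 : x * w * x⁻¹ ∈ V := by simpa using pw_mem hnV hw 1
          have h3 : x * w' * x⁻¹ ∈ V := by simpa using pw_mem hnV hw' 1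
          have h4 : x * (w * w'⁻¹) * x⁻¹ = w * w'⁻¹ := by
            have e1 : x * (w * w'⁻¹) * x⁻¹ = (x * w * x⁻¹) * (x * w' * x⁻¹)⁻¹ := by group
            have e2 : x * w * x⁻¹ = w * (w'⁻¹ * (x * w' * x⁻¹)) := by rw [← h1, mul_inv_cancel_left]
            rw [e1, e2]; group
          exact (mul_inv_eq_iff_eq_mul.mp h4).symm
        let g : X → X := fun a => if h : ∃ w ∈ V, uf w = a then Classical.choose h else 1
        have hg : ∀ w ∈ V, g (uf w) ∈ V ∧ uf (g (uf w)) = uf w := by
          intro w hw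
          have hex : ∃ w' ∈ V, uf w' = uf w := ⟨w, hw, rfl⟩
          have : g (uf w) = Classical.choose hex := dif_pos hex
          rw [this]
          exact Classical.choose_spec hex
        let F : V → (V ⊓ C : Subgroup X) × (V ⊓ C : Subgroup X) := fun w =>
          (⟨uf w, huf w w.2⟩, ⟨w * (g (uf w))⁻¹, hfib w w.2 _ (hg w w.2).1 (hg w w.2).2.symm⟩)
        have hF : Function.Injective F := by
          intro w w' hww
          have h1 : uf (w : X) = uf (w' : X) := congrArg (fun z => ((z.1 : (V ⊓ C : Subgroup X)) : X)) hww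
          have h2 : (w : X) * (g (uf w))⁻¹ = (w' : X) * (g (uf w'))⁻¹ :=
            congrArg (fun z => ((z.2 : (V ⊓ C : Subgroup X)) : X)) hww
          rw [h1] at h2
          exact Subtype.ext (mul_right_cancel h2)
        have h5 := Nat.card_le_card_of_injective F hF
        rwa [Nat.card_prod] at h5
      have hU1 : Nat.card (V ⊓ C : Subgroup X) = 1 := by
        by_contra hne
        have h2 : 2 ≤ Nat.card (V ⊓ C : Subgroup X) := by
          have : 0 < Nat.card (V ⊓ C : Subgroup X) := Nat.card_pos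
          omega
        have h3 : Nat.card (V ⊓ C : Subgroup X) ^ 3 ≤ Nat.card (V ⊓ C : Subgroup X) ^ p :=
          Nat.pow_le_pow_right (by omega) (by have := hp.out.two_le; have := c.hp2; omega)
        rw [← hUcard] at h3
        have h4 : Nat.card (V ⊓ C : Subgroup X) * Nat.card (V ⊓ C : Subgroup X) <
            Nat.card (V ⊓ C : Subgroup X) ^ 3 := by
          have : Nat.card (V ⊓ C : Subgroup X) ^ 3 =
            (Nat.card (V ⊓ C : Subgroup X) * Nat.card (V ⊓ C : Subgroup X)) * Nat.card (V ⊓ C : Subgroup X) := by ring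
          rw [this]
          have h5 : 0 < Nat.card (V ⊓ C : Subgroup X) * Nat.card (V ⊓ C : Subgroup X) := by positivity
          nlinarith
        omega
      apply hVbad
      rw [eq_bot_of_card_eq _ hU1]
      exact bot_le
    · exact s3 A (s8 A hAT hnA) hVA

end Cfsg.Agent.H23.FX
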