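import Cfsg.Agent.H23.Flav2
import Cfsg.Agent.H2.Frat

set_option autoImplicit false
set_option linter.all false

/-!
# Fixed points of coprime operator groups, III, seat helper23
-/

namespace Cfsg.Agent.H23.FX

open Subgroup
open scoped commutatorElement Pointwise

universe u

variable {X : Type u} [Group X]

variable {p : ℕ} {x : X} {H D : Subgroup X}

/-- `N` centralized by `M` is normalized by `M`. -/
theorem norm_of_cent {M N : Subgroup X} (h : N ≤ centralizer (M : Set X)) : M ≤ normalizer (N : Set X) := by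
  apply le_normalizer_of_conj_mem
  intro m hm n hn
  have h1 := mem_centralizer_iff.mp (h hn) m hm
  rw [h1, mul_inv_cancel_right]
  exact hn

/-- The case of an `r`-group. -/
theorem Cx.caseR [Finite X] [hp : Fact p.Prime] (c : Cx p x H D) {r : ℕ} [hr : Fact r.Prime]
    (hHr : IsPGroup r H) : False := by
  classical
  obtain ⟨C, hC⟩ : ∃ C, C = centralizer (zpowers x : Set X) := ⟨_, rfl⟩
  have hCm : ∀ g, g ∈ C ↔ Commute g x := fun g => by rw [hC]; exact memC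
  have hDC : D ≤ C := by rw [hC]; exact c.hDC
  have hcmD : ∀ h ∈ H, cm x h ⊓ C ≤ D := by rw [hC]; exact c.hcmD
  have hIH : ∀ L : Subgroup X, L < H → zpowers x ≤ normalizer (L : Set X) → ⁅L, zpowers x⁆ ⊓ C ≤ D := by
    rw [hC]; exact c.IHsub
  have cprime : ∀ g ∈ H, g ^ p = 1 → g = 1 := by
    intro g hg h1
    have h3 : g ^ Nat.card H = 1 := orderOf_dvd_iff_pow_eq_one.mp (Subgroup.orderOf_dvd_natCard H hg)
    have := mem_of_coprime_pow (V := ⊥) (c.hcop.symm) (by rw [h1]; exact one_mem _) (by rw [h3]; exact one_mem _)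
    exact mem_bot.mp this
  obtain ⟨Z, hZ⟩ : ∃ Z, Z = H ⊓ centralizer (H : Set X) := ⟨_, rfl⟩
  have hZm : ∀ z, z ∈ Z ↔ z ∈ H ∧ ∀ h ∈ H, z * h = h * z := by
    intro z
    rw [hZ, mem_inf, mem_centralizer_iff]
    exact ⟨fun h => ⟨h.1, fun g hg => (h.2 g hg).symm⟩, fun h => ⟨h.1, fun g hg => (h.2 g hg).symm⟩⟩
  have hZH : Z ≤ H := by rw [hZ]; exact inf_le_left
  have hZcH : Z ≤ centralizer (H : Set X) := by rw [hZ]; exact inf_le_right
  have hnZ : zpowers x ≤ normalizer (Z : Set X) := by rw [hZ]; exact inf_norm c.hn (cent_norm c.hn)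
  have hZab : IsMulCommutative Z := ⟨⟨fun a b => Subtype.ext (((hZm a).mp a.2).2 b (hZH b.2))⟩⟩
  have hZC : Z ≤ C := by
    have h1 : ⁅Z, zpowers x⁆ = ⊥ := by
      by_contra hne
      have h2 : ⁅Z, zpowers x⁆ ≤ Z := commutator_le_of_le_normalizer hnZ
      apply c.bad (h2.trans hZH) hne (norm_of_cent (h2.trans hZcH)) (normalizer_commutator_ge_right _ _)
      rw [c.ab hZH hnZ hZab]
      exact bot_le
    rw [hC]
    exact commutator_eq_bot_iff_le_centralizer.mp h1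
  have hDz : ∀ d ∈ D, d ∈ Z → d = 1 := by
    intro d hd hdZ
    by_contra hne
    have h1 : zpowers d ≤ Z := zpowers_le.mpr hdZ
    have h2 : zpowers d ≤ D := zpowers_le.mpr hd
    apply c.bad (h1.trans hZH) (by rw [Ne, zpowers_eq_bot]; exact hne) (norm_of_cent (h1.trans hZcH))
      (norm_of_cent (by rw [← hC]; exact h1.trans hZC))
    exact inf_le_left.trans h2
  have hHm : ∀ h ∈ H, ∀ g ∈ H, g * h * g⁻¹ ∈ H := fun h hh g hg => mul_mem (mul_mem hg hh) (inv_mem hg)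
  have hxH : ∀ (i : ℕ), ∀ h ∈ H, x ^ i * h * (x ^ i)⁻¹ ∈ H := fun i h hh => pw_mem c.hn hh i
  have hZmv : ∀ z ∈ Z, ∀ h ∈ H, h * z * h⁻¹ = z := by
    intro z hz h hh
    rw [← ((hZm z).mp hz).2 h hh, mul_inv_cancel_right]
  have hcH : ∀ a ∈ H, ∀ b ∈ H, ⁅a, b⁆ ∈ H := by
    intro a ha b hb
    rw [commutatorElement_def]
    exact mul_mem (hHm b hb a ha) (inv_mem hb)
  obtain ⟨A, hA⟩ : ∃ A : Subgroup X, ∀ a, a ∈ A ↔ a ∈ H ∧ ∀ h ∈ H, ⁅a, h⁆ ∈ Z :=
    ⟨{ carrier := {a | a ∈ H ∧ ∀ h ∈ H, ⁅a, h⁆ ∈ Z}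
       one_mem' := ⟨one_mem _, fun h _ => by rw [commutatorElement_one_left]; exact one_mem _⟩
       mul_mem' := by
         rintro a b ⟨ha, ha'⟩ ⟨hb, hb'⟩
         refine ⟨mul_mem ha hb, fun h hh => ?_⟩
         have e : ⁅a * b, h⁆ = a * ⁅b, h⁆ * a⁻¹ * ⁅a, h⁆ := by simp only [commutatorElement_def]; group
         rw [e, hZmv _ (hb' h hh) a ha]
         exact mul_mem (hb' h hh) (ha' h hh)
       inv_mem' := by
         rintro a ⟨ha, ha'⟩
         refine ⟨inv_mem ha, fun h hh => ?_⟩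
         have e : ⁅a⁻¹, h⁆ = a⁻¹ * ⁅a, h⁆⁻¹ * a⁻¹⁻¹ := by simp only [commutatorElement_def]; group
         rw [e, hZmv _ (inv_mem (ha' h hh)) _ (inv_mem ha)]
         exact inv_mem (ha' h hh) }, fun a => Iff.rfl⟩
  have hAH : A ≤ H := fun a ha => ((hA a).mp ha).1
  have bil1 : ∀ a ∈ A, ∀ h ∈ H, ∀ k ∈ H, ⁅a, h * k⁆ = ⁅a, h⁆ * ⁅a, k⁆ := by
    intro a ha h hh k hk
    have e : ⁅a, h * k⁆ = ⁅a, h⁆ * (h * ⁅a, k⁆ * h⁻¹) := by simp only [commutatorElement_def]; group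
    rw [e, hZmv _ (((hA a).mp ha).2 k hk) h hh]
  have bil2 : ∀ a ∈ A, ∀ b ∈ A, ∀ h ∈ H, ⁅a * b, h⁆ = ⁅a, h⁆ * ⁅b, h⁆ := by
    intro a ha b hb h hh
    have e : ⁅a * b, h⁆ = a * ⁅b, h⁆ * a⁻¹ * ⁅a, h⁆ := by simp only [commutatorElement_def]; group
    rw [e, hZmv _ (((hA b).mp hb).2 h hh) a (hAH ha)]
    exact ((hZm _).mp (((hA b).mp hb).2 h hh)).2 _ (hcH a (hAH ha) h hh)
  have bil1i : ∀ a ∈ A, ∀ h ∈ H, ⁅a, h⁻¹⁆ = ⁅a, h⁆⁻¹ := by
    intro a ha h hh
    have h1 := bil1 a ha h hh _ (inv_mem hh)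
    rw [mul_inv_cancel, commutatorElement_one_right] at h1
    exact (inv_eq_of_mul_eq_one_right h1.symm).symm
  have xinv : ∀ i : ℕ, ∀ a ∈ A, ∀ h ∈ H, ⁅x ^ i * a * (x ^ i)⁻¹, x ^ i * h * (x ^ i)⁻¹⁆ = ⁅a, h⁆ := by
    intro i a ha h hh
    have e : ⁅x ^ i * a * (x ^ i)⁻¹, x ^ i * h * (x ^ i)⁻¹⁆ = x ^ i * ⁅a, h⁆ * (x ^ i)⁻¹ := by
      simp only [commutatorElement_def]; group
    have h1 : Commute ⁅a, h⁆ x := (hCm _).mp (hZC (((hA a).mp ha).2 h hh))
    rw [e, ← (h1.pow_right i).eq, mul_inv_cancel_right]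
  have hnA : zpowers x ≤ normalizer (A : Set X) := by
    apply norm_of
    intro a ha
    have h1 : x * a * x⁻¹ ∈ H := by simpa using hxH 1 a (hAH ha)
    refine (hA _).mpr ⟨h1, fun h hh => ?_⟩
    have h2 : x⁻¹ * h * x ∈ H := by
      have := (mem_normalizer_iff.mp (c.hn (inv_mem (mem_zpowers x))) h).mp hh
      rwa [inv_inv] at this
    have h3 := xinv 1 a ha _ h2
    rw [pow_one] at h3
    have e : x * (x⁻¹ * h * x) * x⁻¹ = h := by group
    rw [e] at h3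
    rw [h3]
    exact ((hA a).mp ha).2 _ h2
  have hAx : ∀ i : ℕ, ∀ a ∈ A, x ^ i * a * (x ^ i)⁻¹ ∈ A := fun i a ha => pw_mem hnA ha i
  -- AF
  have AF : ∀ f ∈ H, f ∈ C → ∀ b ∈ ⁅A, zpowers x⁆, ⁅b, f⁆ = 1 := by
    intro f hf hfC b hb
    have h1 : ⁅A, zpowers x⁆ ≤ centralizer ({f} : Set X) := by
      rw [commutator_le]
      intro a ha y hy
      obtain ⟨i, rfl⟩ := zp_nat hy
      rw [mem_centralizer_singleton_iff, ← commutatorElement_eq_one_iff_mul_comm]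
      have e : ⁅a, x ^ i⁆ = a * (x ^ i * a⁻¹ * (x ^ i)⁻¹) := by rw [commutatorElement_def]; group
      have e2 : x ^ i * f * (x ^ i)⁻¹ = f := by
        rw [← (((hCm f).mp hfC).pow_right i).eq, mul_inv_cancel_right]
      have h2 := xinv i a⁻¹ (inv_mem ha) f hf
      rw [e2] at h2
      rw [e, bil2 a ha _ (hAx i _ (inv_mem ha)) f hf, h2, ← bil2 a ha _ (inv_mem ha) f hf, mul_inv_cancel,
        commutatorElement_one_left]
    exact commutatorElement_eq_one_iff_mul_comm.mpr (mem_centralizer_singleton_iff.mp (h1 hb))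
  -- AC
  have AC : ∀ a ∈ A, a ∈ C → a ∈ Z := by
    intro a ha haC
    refine (hZm a).mpr ⟨hAH ha, ?_⟩
    have h1 : ⁅H, zpowers x⁆ ≤ centralizer ({a} : Set X) := by
      rw [commutator_le]
      intro h hh y hy
      obtain ⟨i, rfl⟩ := zp_nat hy
      rw [mem_centralizer_singleton_iff]
      have e : ⁅h, x ^ i⁆ = h * (x ^ i * h⁻¹ * (x ^ i)⁻¹) := by rw [commutatorElement_def]; group
      have e2 : x ^ i * a * (x ^ i)⁻¹ = a := by
        rw [← (((hCm a).mp haC).pow_right i).eq, mul_inv_cancel_right]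
      have h2 := xinv i a ha h⁻¹ (inv_mem hh)
      rw [e2] at h2
      have h3 : ⁅a, ⁅h, x ^ i⁆⁆ = 1 := by
        rw [e, bil1 a ha h hh _ (hxH i _ (inv_mem hh)), h2, ← bil1 a ha h hh _ (inv_mem hh), mul_inv_cancel,
          commutatorElement_one_right]
      exact (commutatorElement_eq_one_iff_mul_comm.mp h3).symm
    rw [c.eqH] at h1
    intro h hh
    exact (mem_centralizer_singleton_iff.mp (h1 hh)).symm
  -- the quadratic identity
  have hq : ∀ a ∈ A, ⁅a, x * a * x⁻¹⁆ = 1 := by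
    intro a ha
    have haH := hAH ha
    have hcmA : cm x a ≤ A := (cm_le ha).trans (commutator_le_of_le_normalizer hnA)
    have hci : ∀ i j : ℕ, ⁅a⁻¹ * (x ^ i * a * (x ^ i)⁻¹), a⁻¹ * (x ^ j * a * (x ^ j)⁻¹)⁆ = 1 := by
      intro i j
      have h1 := gen_mem_cm x a i
      have h2 := gen_mem_cm x a j
      have h3 := ((hA _).mp (hcmA h1)).2 _ (hAH (hcmA h2))
      apply hDz _ _ h3
      apply hcmD a haH
      refine mem_inf.mpr ⟨?_, hZC h3⟩
      rw [commutatorElement_def]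
      exact mul_mem (mul_mem (mul_mem h1 h2) (inv_mem h1)) (inv_mem h2)
    have hβ : ∀ k : ℕ, ⁅a, x ^ (k + 1) * a * (x ^ (k + 1))⁻¹⁆ =
        ⁅a, x ^ 1 * a * (x ^ 1)⁻¹⁆ * ⁅a, x ^ k * a * (x ^ k)⁻¹⁆ := by
      intro k
      have h1 := hci 1 (k + 1)
      have m1 := hAx 1 a ha
      have m2 := hAx (k + 1) a ha
      rw [bil2 _ (inv_mem ha) _ m1 _ (mul_mem (inv_mem haH) (hAH m2)),
        bil1 _ (inv_mem ha) _ (inv_mem haH) _ (hAH m2), bil1 _ m1 _ (inv_mem haH) _ (hAH m2)] at h1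
      have e1 : ⁅a⁻¹, a⁻¹⁆ = 1 := commutatorElement_self _
      have e2 : ⁅a⁻¹, x ^ (k + 1) * a * (x ^ (k + 1))⁻¹⁆ = ⁅a, x ^ (k + 1) * a * (x ^ (k + 1))⁻¹⁆⁻¹ := by
        have h2 := bil2 a ha _ (inv_mem ha) _ (hAH m2)
        rw [mul_inv_cancel, commutatorElement_one_left] at h2
        exact (inv_eq_of_mul_eq_one_right h2.symm).symm
      have e3 : ⁅x ^ 1 * a * (x ^ 1)⁻¹, a⁻¹⁆ = ⁅a, x ^ 1 * a * (x ^ 1)⁻¹⁆ := by
        rw [bil1i _ m1 _ haH, commutatorElement_inv]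
      have e4 : ⁅x ^ 1 * a * (x ^ 1)⁻¹, x ^ (k + 1) * a * (x ^ (k + 1))⁻¹⁆ = ⁅a, x ^ k * a * (x ^ k)⁻¹⁆ := by
        have h2 := xinv 1 a ha _ (hxH k a haH)
        have e : x ^ (k + 1) * a * (x ^ (k + 1))⁻¹ = x ^ 1 * (x ^ k * a * (x ^ k)⁻¹) * (x ^ 1)⁻¹ := by
          rw [pow_succ', pow_one]; group
        rw [e]; exact h2
      rw [e1, e2, e3, e4, one_mul] at h1
      rw [inv_mul_eq_one] at h1
      exact h1
    have hβ' : ∀ k : ℕ, ⁅a, x ^ k * a * (x ^ k)⁻¹⁆ = ⁅a, x ^ 1 * a * (x ^ 1)⁻¹⁆ ^ k := by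
      intro k
      induction k with
      | zero =>
        have e : x ^ 0 * a * (x ^ 0)⁻¹ = a := by rw [pow_zero, one_mul, inv_one, mul_one]
        rw [e, pow_zero, commutatorElement_self]
      | succ k ih =>
        rw [hβ k, ih]
        exact (pow_succ' _ k).symm
    have h1 := hβ' p
    have e : x ^ p * a * (x ^ p)⁻¹ = a := by rw [c.hxp, one_mul, inv_one, mul_one]
    rw [e, commutatorElement_self] at h1
    have h2 := cprime _ (hcH a haH _ (hxH 1 a haH)) h1.symm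
    rwa [pow_one] at h2
  have hxA : ∀ a ∈ A, x * a * x⁻¹ ∈ A := fun a ha => by simpa using hAx 1 a ha
  have hpol : ∀ a ∈ A, ∀ b ∈ A, ⁅a, x * b * x⁻¹⁆ = ⁅x * a * x⁻¹, b⁆ := by
    intro a ha b hb
    have h1 := hq (a * b) (mul_mem ha hb)
    have e : x * (a * b) * x⁻¹ = (x * a * x⁻¹) * (x * b * x⁻¹) := by group
    rw [e, bil2 a ha b hb _ (hAH (mul_mem (hxA a ha) (hxA b hb))),
      bil1 a ha _ (hAH (hxA a ha)) _ (hAH (hxA b hb)), bil1 b hb _ (hAH (hxA a ha)) _ (hAH (hxA b hb)),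
      hq a ha, hq b hb, one_mul, mul_one] at h1
    rw [← commutatorElement_inv b]
    exact eq_inv_of_mul_eq_one_left h1
  have h2step : ∀ a ∈ A, ∀ b ∈ A, ∀ k : ℕ, ⁅a, x ^ (2 * k) * b * (x ^ (2 * k))⁻¹⁆ = ⁅a, b⁆ := by
    intro a ha b hb k
    induction k with
    | zero => rw [mul_zero, pow_zero, one_mul, inv_one, mul_one]
    | succ k ih =>
      have e : x ^ (2 * (k + 1)) * b * (x ^ (2 * (k + 1)))⁻¹ =
          x * (x * (x ^ (2 * k) * b * (x ^ (2 * k))⁻¹) * x⁻¹) * x⁻¹ := by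
        rw [show 2 * (k + 1) = (2 * k + 1) + 1 by ring, pow_succ', pow_succ']; group
      have m := hAx (2 * k) b hb
      rw [e, hpol a ha _ (hxA _ m)]
      have h3 := xinv 1 a ha _ (hAH m)
      rw [pow_one] at h3
      rw [h3, ih]
  have h1step : ∀ a ∈ A, ∀ b ∈ A, ⁅a, x * b * x⁻¹⁆ = ⁅a, b⁆ := by
    intro a ha b hb
    obtain ⟨k, hk⟩ : ∃ k, p = 2 * k + 1 := hp.out.odd_of_ne_two c.hp2
    have h1 := h2step a ha b hb (k + 1)
    have e : x ^ (2 * (k + 1)) = x := by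
      rw [show 2 * (k + 1) = (2 * k + 1) + 1 by ring, ← hk, pow_succ, c.hxp, one_mul]
    rwa [e] at h1
  have histep : ∀ a ∈ A, ∀ b ∈ A, ∀ i : ℕ, ⁅a, x ^ i * b * (x ^ i)⁻¹⁆ = ⁅a, b⁆ := by
    intro a ha b hb i
    induction i with
    | zero => rw [pow_zero, one_mul, inv_one, mul_one]
    | succ i ih =>
      have e : x ^ (i + 1) * b * (x ^ (i + 1))⁻¹ = x * (x ^ i * b * (x ^ i)⁻¹) * x⁻¹ := by
        rw [pow_succ']; group
      rw [e, h1step a ha _ (hAx i b hb), ih]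
  have hAab : ∀ a ∈ A, ∀ b ∈ A, a * b = b * a := by
    intro a ha b hb
    obtain ⟨f, hf, hfC, n, hn', rfl⟩ := c.fac hAH hnA hb
    have h1 : ⁅A, zpowers x⁆ ≤ centralizer ({a} : Set X) := by
      rw [commutator_le]
      intro b hb y hy
      obtain ⟨i, rfl⟩ := zp_nat hy
      rw [mem_centralizer_singleton_iff]
      have e : ⁅b, x ^ i⁆ = b * (x ^ i * b⁻¹ * (x ^ i)⁻¹) := by rw [commutatorElement_def]; group
      have h3 : ⁅a, ⁅b, x ^ i⁆⁆ = 1 := by
        rw [e, bil1 a ha b (hAH hb) _ (hxH i _ (inv_mem (hAH hb))), histep a ha _ (inv_mem hb),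
          ← bil1 a ha b (hAH hb) _ (inv_mem (hAH hb)), mul_inv_cancel, commutatorElement_one_right]
      exact (commutatorElement_eq_one_iff_mul_comm.mp h3).symm
    have h2 : n * a = a * n := mem_centralizer_singleton_iff.mp (h1 hn')
    have h3 := ((hZm f).mp (AC f hf (by rw [hC]; exact hfC))).2 a (hAH ha)
    rw [← mul_assoc, ← h3, mul_assoc, ← h2, mul_assoc]
  have hAC' : ⁅A, zpowers x⁆ ⊓ C = ⊥ := by
    rw [hC]
    exact c.ab hAH hnA ⟨⟨fun a b => Subtype.ext (hAab a a.2 b b.2)⟩⟩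
  -- class at most two
  by_cases hcl : ⁅H, H⁆ ≤ Z
  · have hAe : A = H := by
      apply le_antisymm hAH
      intro a ha
      exact (hA a).mpr ⟨ha, fun h hh => hcl (commutator_mem_commutator ha hh)⟩
    apply c.hbad
    rw [hAe] at hAC'
    rw [← hC, hAC']
    exact bot_le
  · -- minimal non-central
    obtain ⟨B, hB, hBmin⟩ := Set.Finite.exists_minimal (s := {B : Subgroup X | B ≤ ⁅H, H⁆ ∧
      H ≤ normalizer (B : Set X) ∧ zpowers x ≤ normalizer (B : Set X) ∧ ¬ B ≤ Z}) (Set.toFinite _)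
      ⟨⁅H, H⁆, le_rfl, normalizer_commutator_ge_left _ _, comm_norm c.hn c.hn, hcl⟩
    obtain ⟨hBH', hHB, hnB, hBZ⟩ := hB
    have hHH : ⁅H, H⁆ ≤ H := by
      rw [commutator_le]; exact hcH
    have hBH : B ≤ H := hBH'.trans hHH
    have hBne : B ≠ ⊥ := by rintro rfl; exact hBZ bot_le
    have hBr : IsPGroup r B := hHr.to_le hBH
    have hlt := commutator_lt_of_isPGroup hBr hHr hHB hBne
    have h1 : ⁅B, H⁆ ≤ Z := by
      by_contra hno
      have h2 := hBmin ⟨hlt.le.trans hBH', normalizer_commutator_ge_right _ _, comm_norm hnB c.hn, hno⟩ hlt.le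
      exact hlt.not_ge h2
    have hBA : B ≤ A := fun b hb => (hA b).mpr ⟨hBH hb, fun h hh => h1 (commutator_mem_commutator hb hh)⟩
    have hBx : ⁅B, zpowers x⁆ ≠ ⊥ := by
      intro h2
      apply hBZ
      intro b hb
      apply AC b (hBA hb)
      rw [hC]
      exact commutator_eq_bot_iff_le_centralizer.mp h2 hb
    obtain ⟨⟨a, ha⟩, ha1'⟩ := (Subgroup.ne_bot_iff_exists_ne_one).mp hBx
    have ha1 : a ≠ 1 := fun h => ha1' (Subtype.ext h)
    have haB : a ∈ B := commutator_le_of_le_normalizer hnB ha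
    have haA := hBA haB
    have haAx : a ∈ ⁅A, zpowers x⁆ := commutator_mono hBA le_rfl ha
    obtain ⟨h, hh, g, hg, hag⟩ : ∃ h ∈ H, ∃ g ∈ cm x h, ⁅a, g⁆ ≠ 1 := by
      by_contra hno
      push Not at hno
      have h2 : ⁅H, zpowers x⁆ ≤ centralizer ({a} : Set X) := by
        apply comm_le_of_cm
        intro h hh g hg
        rw [mem_centralizer_singleton_iff]
        exact (commutatorElement_eq_one_iff_mul_comm.mp (hno h hh g hg)).symm
      rw [c.eqH] at h2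
      have h3 : a ∈ Z := (hZm a).mpr ⟨hAH haA, fun h hh => (mem_centralizer_singleton_iff.mp (h2 hh)).symm⟩
      have h4 : a ∈ ⁅A, zpowers x⁆ ⊓ C := mem_inf.mpr ⟨haAx, hZC h3⟩
      rw [hAC', mem_bot] at h4
      exact ha1 h4
    have hX0 : cm x h < H := c.cmlt hh
    have hL : B ⊔ cm x h < H := by
      refine lt_of_le_of_ne (sup_le hBH hX0.le) fun heq => ?_
      apply hX0.ne
      apply eq_of_sup_frattini_map hX0.le
      have h2 : B ≤ (frattini H).map H.subtype := by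
        refine hBH'.trans ?_
        have h3 := H2.commutator_le_frattini hHr
        have h4 : ⁅H, H⁆ = (commutator H).map H.subtype := by
          rw [_root_.commutator_def, Subgroup.map_commutator, ← MonoidHom.range_eq_map, range_subtype]
        rw [h4]
        exact Subgroup.map_mono h3
      calc H = B ⊔ cm x h := heq.symm
        _ ≤ cm x h ⊔ (frattini H).map H.subtype := sup_le (h2.trans le_sup_right) le_sup_left
    have hnL : zpowers x ≤ normalizer ((B ⊔ cm x h : Subgroup X) : Set X) := sup_norm hnB (cm_inv x h)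
    have h2 := hIH _ hL hnL
    obtain ⟨f, hf, hfC, n, hn', rfl⟩ := c.fac hX0.le (cm_inv x h) hg
    have hfH := hX0.le hf
    have hnH : n ∈ H := hX0.le (commutator_le_of_le_normalizer (cm_inv x h) hn')
    apply hag
    rw [bil1 a haA f hfH n hnH, AF f hfH (by rw [hC]; exact hfC) a haAx, one_mul]
    have h3 : ⁅a, n⁆ ∈ Z := ((hA a).mp haA).2 n hnH
    apply hDz _ _ h3
    apply h2
    refine mem_inf.mpr ⟨?_, hZC h3⟩
    have h4 : n ∈ ⁅B ⊔ cm x h, zpowers x⁆ := commutator_mono le_sup_right le_rfl hn'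
    rw [commutatorElement_def]
    exact mul_mem ((mem_normalizer_iff.mp (normalizer_commutator_ge_left _ _ (mem_sup_left haB)) n).mp h4)
      (inv_mem h4)

end Cfsg.Agent.H23.FX
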