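import Cfsg.Agent.H23.Flav3

set_option autoImplicit false
set_option linter.all false

/-!
# Fixed points of coprime operator groups, IV, seat helper23
-/

namespace Cfsg.Agent.H23.FX

open Subgroup
open scoped commutatorElement Pointwise

universe u

variable {X : Type u} [Group X]

variable {p : ℕ} {x : X} {H D : Subgroup X}

/-- transfer: a central element of `H` in `H'` and in a Sylow subgroup `R` lies in `R'`. -/
theorem central_transfer {G : Type*} [Group G] [Finite G] {r : ℕ} [hr : Fact r.Prime] (R : Subgroup G)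
    (hR : ¬ r ∣ R.index) {v : G} (hv : v ∈ center G) (hvc : v ∈ commutator G) (hvr : v ^ r = 1) :
    v ∈ ⁅R, R⁆ := by
  have key : ∀ (k : ℕ) (g₀ : G), g₀⁻¹ * v ^ k * g₀ ∈ R → g₀⁻¹ * v ^ k * g₀ = v ^ k := by
    intro k g₀ _
    have h1 := mem_center_iff.mp (pow_mem hv k) g₀
    rw [mul_assoc, ← h1, inv_mul_cancel_left]
  have h1 := MonoidHom.transfer_eq_pow (H := R) (Abelianization.of (G := R)) v key
  have h2 : MonoidHom.transfer (Abelianization.of (G := R)) v = 1 :=
    Abelianization.commutator_subset_ker (MonoidHom.transfer (Abelianization.of (G := R))) hvc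
  rw [h2] at h1
  have h3 : (⟨v ^ R.index, MonoidHom.transfer_eq_pow_aux v key⟩ : R) ∈ commutator R := by
    rw [← Abelianization.ker_of]
    exact h1.symm
  have h4 : v ^ R.index ∈ ⁅R, R⁆ := by
    have h5 : ⁅R, R⁆ = (commutator R).map R.subtype := by
      rw [_root_.commutator_def, Subgroup.map_commutator, ← MonoidHom.range_eq_map, range_subtype]
    rw [h5]
    exact ⟨_, h3, rfl⟩
  apply mem_of_coprime_pow (p := r) _ h4 (by rw [hvr]; exact one_mem _)
  exact ((Nat.Prime.coprime_iff_not_dvd hr.out).mpr hR).symm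

/-- fixed points lie in the derived subgroup when `H = [H, x]` -/
theorem Cx.fix_le [Finite X] [hp : Fact p.Prime] (c : Cx p x H D) {f : X} (hf : f ∈ H)
    (hfx : Commute f x) : (⟨f, hf⟩ : H) ∈ commutator H := by
  classical
  let cj : ℕ → (H →* H) := fun i =>
    { toFun := fun g => ⟨x ^ i * g * (x ^ i)⁻¹, pw_mem c.hn g.2 i⟩
      map_one' := Subtype.ext (by show x ^ i * 1 * (x ^ i)⁻¹ = 1; rw [mul_one, mul_inv_cancel])
      map_mul' := fun a b => Subtype.ext (by
        show x ^ i * (a * b) * (x ^ i)⁻¹ = (x ^ i * a * (x ^ i)⁻¹) * (x ^ i * b * (x ^ i)⁻¹); group) }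
  let Λ : H →* Abelianization H := ∏ i ∈ Finset.range p, (Abelianization.of (G := H)).comp (cj i)
  have hΛ : ∀ g : H, Λ g = ∏ i ∈ Finset.range p, Abelianization.of (cj i g) := by
    intro g
    show (∏ i ∈ Finset.range p, (Abelianization.of (G := H)).comp (cj i)) g = _
    rw [MonoidHom.finset_prod_apply]
    rfl
  have hshift : ∀ g : H, Λ (cj 1 g) = Λ g := by
    intro g
    rw [hΛ, hΛ]
    have h1 : ∀ i, cj i (cj 1 g) = cj (i + 1) g := by
      intro i
      apply Subtype.ext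
      show x ^ i * (x ^ 1 * g * (x ^ 1)⁻¹) * (x ^ i)⁻¹ = x ^ (i + 1) * g * (x ^ (i + 1))⁻¹
      rw [pow_succ x i, pow_one]; group
    simp only [h1]
    have h2 := Finset.prod_range_succ (fun i => Abelianization.of (cj i g)) p
    have h3 := Finset.prod_range_succ' (fun i => Abelianization.of (cj i g)) p
    have h4 : cj p g = cj 0 g := by
      apply Subtype.ext
      show x ^ p * g * (x ^ p)⁻¹ = x ^ 0 * g * (x ^ 0)⁻¹
      rw [c.hxp, pow_zero]
    rw [h2, h4] at h3
    exact (mul_right_cancel h3).symm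
  have hshift' : ∀ (i : ℕ) (g : H), Λ (cj i g) = Λ g := by
    intro i
    induction i with
    | zero =>
      intro g
      congr 1
      apply Subtype.ext
      show x ^ 0 * g * (x ^ 0)⁻¹ = g
      rw [pow_zero, one_mul, inv_one, mul_one]
    | succ i ih =>
      intro g
      have h1 : cj (i + 1) g = cj 1 (cj i g) := by
        apply Subtype.ext
        show x ^ (i + 1) * g * (x ^ (i + 1))⁻¹ = x ^ 1 * (x ^ i * g * (x ^ i)⁻¹) * (x ^ 1)⁻¹
        rw [pow_succ' x i, pow_one]; group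
      rw [h1, hshift, ih]
  have hker : ⁅H, zpowers x⁆ ≤ Λ.ker.map H.subtype := by
    rw [commutator_le]
    intro h hh y hy
    obtain ⟨i, rfl⟩ := zp_nat hy
    refine ⟨⟨h, hh⟩ * (cj i ⟨h, hh⟩)⁻¹, ?_, ?_⟩
    · show Λ _ = 1
      rw [map_mul, map_inv, hshift' i, mul_inv_cancel]
    · show h * (x ^ i * h * (x ^ i)⁻¹)⁻¹ = ⁅h, x ^ i⁆
      rw [commutatorElement_def]; group
  rw [c.eqH] at hker
  obtain ⟨f', hf', hff⟩ := hker hf
  have hf'' : f' = ⟨f, hf⟩ := Subtype.ext hff
  rw [hf''] at hf'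
  have h1 : Λ ⟨f, hf⟩ = 1 := hf'
  rw [hΛ] at h1
  have h2 : ∀ i ∈ Finset.range p, Abelianization.of (cj i ⟨f, hf⟩) = Abelianization.of (⟨f, hf⟩ : H) := by
    intro i _
    congr 1
    apply Subtype.ext
    show x ^ i * f * (x ^ i)⁻¹ = f
    rw [← (hfx.pow_right i).eq, mul_inv_cancel_right]
  rw [Finset.prod_congr rfl h2, Finset.prod_const, Finset.card_range, ← map_pow] at h1
  have h3 : (⟨f, hf⟩ : H) ^ p ∈ commutator H := by
    rw [← Abelianization.ker_of]; exact h1
  apply mem_of_coprime_pow (k := p) (p := Nat.card H) c.hcop.symm h3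
  rw [pow_card_eq_one']
  exact one_mem _

theorem Cx.caseI [Finite X] [hp : Fact p.Prime] (c : Cx p x H D) {V : Subgroup X} (hVH : V ≤ H) (hV1 : V ≠ ⊥)
    (hnV : zpowers x ≤ normalizer (V : Set X))
    (hmin : ∀ N ≤ V, H ≤ normalizer (N : Set X) → zpowers x ≤ normalizer (N : Set X) → N = ⊥ ∨ N = V)
    {r : ℕ} [hr : Fact r.Prime] (hVr : Cfsg.IsElementaryAbelian r V) (hVC : V ≤ centralizer (H : Set X)) : False := by
  classical
  have hVp : IsPGroup r V := fun g => ⟨1, by rw [pow_one]; exact Subtype.ext (hVr.2 _ g.2)⟩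
  obtain ⟨C, hC⟩ : ∃ C, C = centralizer (zpowers x : Set X) := ⟨_, rfl⟩
  have hCm : ∀ g, g ∈ C ↔ Commute g x := fun g => by rw [hC]; exact memC
  have hDC : D ≤ C := by rw [hC]; exact c.hDC
  have hIH : ∀ L : Subgroup X, L < H → zpowers x ≤ normalizer (L : Set X) → ⁅L, zpowers x⁆ ⊓ C ≤ D := by
    rw [hC]; exact c.IHsub
  have hHV : H ≤ normalizer (V : Set X) := norm_of_cent hVC
  have hVbad : ¬ V ⊓ C ≤ D := by rw [hC]; exact c.bad hVH hV1 hHV hnV
  have hVinC : V ≤ C := by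
    have hnC : zpowers x ≤ normalizer ((V ⊓ C : Subgroup X) : Set X) := by
      rw [hC]
      exact norm_of_cent inf_le_right
    rcases hmin (V ⊓ C) inf_le_left (norm_of_cent (inf_le_left.trans hVC)) hnC with h | h
    · exfalso; apply hVbad; rw [h]; exact bot_le
    · exact inf_eq_left.mp h
  have hVD : V ⊓ D = ⊥ := by
    rcases hmin (V ⊓ D) inf_le_left (norm_of_cent (inf_le_left.trans hVC))
      (norm_of_cent (by rw [← hC]; exact inf_le_left.trans hVinC)) with h | h
    · exact h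
    · exfalso
      apply hVbad
      exact inf_le_left.trans (inf_eq_left.mp h)
  have hVcomm : ∀ v ∈ V, ∀ h ∈ H, v * h = h * v := fun v hv h hh =>
    (mem_centralizer_iff.mp (hVC hv) h hh).symm
  obtain ⟨R, hR, hnR, hVR⟩ := exists_invariant_sylow_ge c.hn (c.copP le_rfl) (Or.inl inferInstance) hVH hVp hnV
  rcases eq_or_lt_of_le hR.le with hRH | hRH
  · exact c.caseR (hRH ▸ hR.isPGroup)
  have h1 := hIH R hRH hnR
  have hDRn : D ⊓ R ≤ normalizer ((⁅R, zpowers x⁆ : Subgroup X) : Set X) :=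
    inf_le_right.trans (normalizer_commutator_ge_left _ _)
  have hR0R : ⁅R, zpowers x⁆ ⊔ (D ⊓ R) ≤ R := sup_le (commutator_le_of_le_normalizer hnR) inf_le_right
  have hVR0 : ∀ w ∈ V, w ∈ ⁅R, zpowers x⁆ ⊔ (D ⊓ R) → w = 1 := by
    intro w hw hw0
    obtain ⟨u, hu, δ, hδ, rfl⟩ := (mem_sup_iff_of_le_normalizer hDRn).mp hw0
    have hδD := (mem_inf.mp hδ).1
    have h2 : u ∈ C := by
      have := mul_mem (hVinC hw) (inv_mem (hDC hδD))
      rwa [mul_inv_cancel_right] at this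
    have h3 : u ∈ D := h1 (mem_inf.mpr ⟨hu, h2⟩)
    have h4 : u * δ ∈ V ⊓ D := mem_inf.mpr ⟨hw, mul_mem h3 hδD⟩
    rwa [hVD, mem_bot] at h4
  have hfac : ∀ g ∈ R, ∃ a ∈ ⁅R, zpowers x⁆ ⊔ (D ⊓ R), ∃ w ∈ V, g = a * w := by
    intro g hg
    obtain ⟨f, hf, hfC, n, hn', rfl⟩ := c.fac hR.le hnR hg
    obtain ⟨δ, hδ, w, hw, hwC, rfl⟩ := c.FD hVH hV1 hHV hnV (hR.le hf) hfC
    have hδR : δ ∈ R := by
      have := mul_mem hf (inv_mem (hVR hw))
      rwa [mul_inv_cancel_right] at this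
    refine ⟨δ * n, mul_mem (mem_sup_right (mem_inf.mpr ⟨hδ, hδR⟩)) (mem_sup_left hn'), w, hw, ?_⟩
    rw [mul_assoc, mul_assoc, hVcomm w hw n (hR.le (commutator_le_of_le_normalizer hnR hn'))]
  have hRR : ⁅R, R⁆ ≤ ⁅R, zpowers x⁆ ⊔ (D ⊓ R) := by
    rw [commutator_le]
    intro g hg k hk
    obtain ⟨a, ha, w, hw, rfl⟩ := hfac g hg
    obtain ⟨b, hb, v, hv, rfl⟩ := hfac k hk
    have haH := hR.le (hR0R ha)
    have hbH := hR.le (hR0R hb)
    have i1 : Commute w a := hVcomm w hw a haH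
    have i2 : Commute w b := hVcomm w hw b hbH
    have i3 : Commute v a := hVcomm v hv a haH
    have i4 : Commute v b := hVcomm v hv b hbH
    have i5 : Commute v w := hVcomm v hv w (hVH hw)
    have e : ⁅a * w, b * v⁆ = ⁅a, b⁆ := by
      have e1 : ⁅a * w, b * v⁆ = ⁅a, b * v⁆ := by
        have h2 : w * (b * v) * w⁻¹ = b * v := by
          rw [(i2.mul_right i5.symm).eq, mul_inv_cancel_right]
        calc ⁅a * w, b * v⁆ = a * (w * (b * v) * w⁻¹) * a⁻¹ * (b * v)⁻¹ := by
              rw [commutatorElement_def]; group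
          _ = ⁅a, b * v⁆ := by rw [h2, commutatorElement_def]
      have e2 : ⁅a, b * v⁆ = ⁅a, b⁆ := by
        have h2 : v * a⁻¹ * v⁻¹ = a⁻¹ := by rw [i3.inv_right.eq, mul_inv_cancel_right]
        calc ⁅a, b * v⁆ = a * b * (v * a⁻¹ * v⁻¹) * b⁻¹ := by rw [commutatorElement_def]; group
          _ = ⁅a, b⁆ := by rw [h2, commutatorElement_def]
      rw [e1, e2]
    rw [e, commutatorElement_def]
    exact mul_mem (mul_mem (mul_mem ha hb) (inv_mem ha)) (inv_mem hb)
  apply hV1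
  rw [eq_bot_iff]
  intro v hv
  rw [mem_bot]
  apply hVR0 v hv
  apply hRR
  have hvH := hVH hv
  have h5 := central_transfer (G := H) (r := r) (R.subgroupOf H) hR.not_dvd (v := ⟨v, hvH⟩)
    (by
      rw [mem_center_iff]
      intro g
      exact Subtype.ext (hVcomm v hv g g.2).symm)
    (c.fix_le hvH ((hCm v).mp (hVinC hv)))
    (Subtype.ext (hVr.2 v hv))
  have h6 : (⁅R.subgroupOf H, R.subgroupOf H⁆).map H.subtype = ⁅R, R⁆ := by
    rw [Subgroup.map_commutator, map_subgroupOf_eq_of_le hR.le]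
  rw [← h6]
  exact ⟨_, h5, rfl⟩

/-- no counterexample -/
theorem Cx.false [Finite X] [hp : Fact p.Prime] (c : Cx p x H D) : False := by
  classical
  have hHne : H ≠ ⊥ := by
    intro h
    apply c.hbad
    rw [h, commutator_bot_left, bot_inf_eq]
    exact bot_le
  obtain ⟨V, hV, hVmin⟩ := Set.Finite.exists_minimal (s := {V : Subgroup X | V ≤ H ∧ V ≠ ⊥ ∧
      H ≤ normalizer (V : Set X) ∧ zpowers x ≤ normalizer (V : Set X)}) (Set.toFinite _)
      ⟨H, le_rfl, hHne, le_normalizer, c.hn⟩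
  obtain ⟨hVH, hV1, hHV, hnV⟩ := hV
  have hmin : ∀ N ≤ V, H ≤ normalizer (N : Set X) → zpowers x ≤ normalizer (N : Set X) → N = ⊥ ∨ N = V := by
    intro N hN h1 h2
    by_cases h3 : N = ⊥
    · exact Or.inl h3
    · exact Or.inr (le_antisymm hN (hVmin ⟨hN.trans hVH, h3, h1, h2⟩ hN))
  -- V is abelian
  have hVsol : Group.IsSolvable V := H1.isSolvable_of_le hVH c.hsol
  have hVab : ⁅V, V⁆ = ⊥ := by
    rcases hmin ⁅V, V⁆ (commutator_le_of_le_normalizer le_normalizer) (comm_norm hHV hHV) (comm_norm hnV hnV) with h | h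
    · exact h
    · exfalso
      haveI : Nontrivial V := (Subgroup.nontrivial_iff_ne_bot V).mpr hV1
      have h2 := IsSolvable.commutator_lt_top_of_nontrivial V
      apply h2.ne
      rw [eq_top_iff]
      intro v _
      have h3 : (v : X) ∈ ⁅V, V⁆ := by rw [h]; exact v.2
      have h5 : ⁅V, V⁆ = (commutator V).map V.subtype := by
        rw [_root_.commutator_def, Subgroup.map_commutator, ← MonoidHom.range_eq_map, range_subtype]
      rw [h5] at h3
      obtain ⟨w, hw, hwv⟩ := h3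
      have : w = v := Subtype.ext hwv
      rwa [this] at hw
  have hab : ∀ a ∈ V, ∀ b ∈ V, a * b = b * a := by
    intro a ha b hb
    have := commutator_mem_commutator ha hb
    rw [hVab, mem_bot] at this
    exact commutatorElement_eq_one_iff_mul_comm.mp this
  obtain ⟨r, hr, hrd⟩ := Nat.exists_prime_and_dvd (show Nat.card V ≠ 1 from fun h => hV1 (eq_bot_of_card_eq V h))
  haveI : Fact r.Prime := ⟨hr⟩
  obtain ⟨W, hW⟩ : ∃ W : Subgroup X, ∀ v, v ∈ W ↔ v ∈ V ∧ v ^ r = 1 :=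
    ⟨{ carrier := {v | v ∈ V ∧ v ^ r = 1}
       one_mem' := ⟨one_mem _, one_pow r⟩
       mul_mem' := by
         rintro a b ⟨ha, ha'⟩ ⟨hb, hb'⟩
         exact ⟨mul_mem ha hb, by rw [(show Commute a b from hab a ha b hb).mul_pow, ha', hb', one_mul]⟩
       inv_mem' := by
         rintro a ⟨ha, ha'⟩
         exact ⟨inv_mem ha, by rw [inv_pow, ha', inv_one]⟩ }, fun a => Iff.rfl⟩
  have hWn : ∀ N : Subgroup X, N ≤ normalizer (V : Set X) → N ≤ normalizer (W : Set X) := by
    intro N hN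
    apply le_normalizer_of_conj_mem
    intro n hn w hw
    obtain ⟨h1, h2⟩ := (hW w).mp hw
    exact (hW _).mpr ⟨(mem_normalizer_iff.mp (hN hn) w).mp h1, by rw [conj_pow, h2, mul_one, mul_inv_cancel]⟩
  have hWV : W = V := by
    rcases hmin W (fun w hw => ((hW w).mp hw).1) (hWn H hHV) (hWn _ hnV) with h | h
    · exfalso
      obtain ⟨v, hv⟩ := exists_prime_orderOf_dvd_card' (G := V) r hrd
      have h1 : (v : X) ∈ W := (hW _).mpr ⟨v.2, by
        have h2 : (v : X) ^ orderOf v = 1 := congrArg Subtype.val (pow_orderOf_eq_one v)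
        rwa [hv] at h2⟩
      rw [h, mem_bot] at h1
      have h2 : v = 1 := Subtype.ext h1
      rw [h2, orderOf_one] at hv
      exact hr.one_lt.ne hv
    · exact h
  have hVr : Cfsg.IsElementaryAbelian r V :=
    ⟨⟨⟨fun a b => Subtype.ext (hab a a.2 b b.2)⟩⟩, fun v hv => ((hW v).mp (hWV ▸ hv)).2⟩
  by_cases hVC : V ≤ centralizer (H : Set X)
  · exact c.caseI hVH hV1 hnV hmin hVr hVC
  · exact c.caseII hVH hV1 hHV hnV hmin hVr hVC

end Cfsg.Agent.H23.FX
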