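import Cfsg.Agent.H23.Flav4

set_option autoImplicit false
set_option linter.all false

/-!
# Fixed points of coprime operator groups, V: the theorem, seat helper23
-/

namespace Cfsg.Agent.H23.FX

open Subgroup
open scoped commutatorElement Pointwise

universe u

theorem cm_map {A B : Type*} [Group A] [Group B] (f : A →* B) (a h : A) : (cm a h).map f = cm (f a) (f h) := by
  unfold cm
  rw [MonoidHom.map_closure]
  congr 1
  ext c
  constructor
  · rintro ⟨_, ⟨i, rfl⟩, rfl⟩
    exact ⟨i, by simp only [map_mul, map_inv, map_pow]⟩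
  · rintro ⟨i, rfl⟩
    exact ⟨_, ⟨i, rfl⟩, by simp only [map_mul, map_inv, map_pow]⟩

theorem Dg_map {A B : Type*} [Group A] [Group B] (f : A →* B) (a : A) (K : Subgroup A) :
    (Dg a K).map f ≤ Dg (f a) (K.map f) := by
  unfold Dg
  rw [Subgroup.map_iSup]
  apply iSup_le
  intro h
  refine le_trans ?_ (le_iSup _ (⟨f h, mem_map_of_mem f h.2⟩ : K.map f))
  rintro _ ⟨c, hc, rfl⟩
  obtain ⟨h1, h2⟩ := mem_inf.mp hc
  refine mem_inf.mpr ⟨?_, ?_⟩
  · rw [← cm_map]; exact mem_map_of_mem f h1
  · rw [memC] at h2 ⊢; exact h2.map f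

theorem Dg_mono {A : Type*} [Group A] {a : A} {K L : Subgroup A} (h : K ≤ L) : Dg a K ≤ Dg a L := by
  unfold Dg
  apply iSup_le
  intro k
  exact le_iSup (fun h : L => cm a (h : A) ⊓ centralizer (zpowers a : Set A)) (⟨k, h k.2⟩ : L)

theorem Dg_quo {Y : Type*} [Group Y] [Finite Y] {y : Y} {H N : Subgroup Y} [N.Normal]
    (hcop : (Nat.card (zpowers y)).Coprime (Nat.card N)) :
    Dg (QuotientGroup.mk' N y) (H.map (QuotientGroup.mk' N)) ≤ (Dg y H).map (QuotientGroup.mk' N) := by
  conv_lhs => unfold Dg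
  apply iSup_le
  rintro ⟨_, h, hh, rfl⟩ c' hc'
  obtain ⟨h1, h2⟩ := mem_inf.mp hc'
  rw [← cm_map] at h1
  obtain ⟨c, hc, rfl⟩ := h1
  rw [memC] at h2
  have hc : c ∈ cm y h := hc
  have hinv := cm_inv y h
  have hNn : zpowers y ≤ normalizer (N : Set Y) := by
    apply norm_of
    intro c hc
    exact ‹N.Normal›.conj_mem c hc y
  obtain ⟨c0, hc0, n, hn, hcn⟩ := mem_sup_of_commutator_mem (A := zpowers y) (N := N ⊓ cm y h) (g := c)
    (inf_norm hNn hinv) (Nat.Coprime.coprime_dvd_right (card_dvd_of_le inf_le_left) hcop) (Or.inl inferInstance)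
    (by
      intro a ha
      obtain ⟨i, rfl⟩ := zp_nat ha
      refine mem_inf.mpr ⟨?_, ?_⟩
      · rw [← QuotientGroup.ker_mk' N, MonoidHom.mem_ker, commutatorElement_def]
        simp only [map_mul, map_inv, map_pow]
        have h3 := (h2.pow_right i).eq
        simp only [inv_inv]
        rw [mul_assoc ((QuotientGroup.mk' N) c)⁻¹, ← h3]
        group
      · rw [commutatorElement_def]
        have h4 := (mem_normalizer_iff.mp (hinv (npow_mem_zpowers y i)) c).mp hc
        rw [inv_inv, mul_assoc, mul_assoc]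
        refine mul_mem (inv_mem hc) ?_
        rw [← mul_assoc]
        exact h4)
  obtain ⟨hnN, hnc⟩ := mem_inf.mp hn
  refine ⟨c0, ?_, ?_⟩
  · unfold Dg
    refine mem_iSup_of_mem (⟨h, hh⟩ : H) (mem_inf.mpr ⟨?_, hc0⟩)
    have : c0 = c * n⁻¹ := by rw [hcn]; group
    rw [this]
    exact mul_mem hc (inv_mem hnc)
  · rw [hcn, map_mul]
    have : (QuotientGroup.mk' N) n = 1 := by
      rw [← MonoidHom.mem_ker, QuotientGroup.ker_mk']; exact hnN
    rw [this, mul_one]

theorem quo {Y : Type*} [Group Y] [Finite Y] {y : Y} {H N : Subgroup Y} [N.Normal]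
    (hcop : (Nat.card (zpowers y)).Coprime (Nat.card N))
    (IH : ⁅H.map (QuotientGroup.mk' N), zpowers (QuotientGroup.mk' N y)⁆ ⊓
      centralizer (zpowers (QuotientGroup.mk' N y) : Set (Y ⧸ N)) ≤
      Dg (QuotientGroup.mk' N y) (H.map (QuotientGroup.mk' N)))
    {f : Y} (hf : f ∈ ⁅H, zpowers y⁆) (hfC : f ∈ centralizer (zpowers y : Set Y)) :
    ∃ δ ∈ Dg y H, ∃ n ∈ N, n ∈ centralizer (zpowers y : Set Y) ∧ f = δ * n := by
  have h1 : QuotientGroup.mk' N f ∈ ⁅H.map (QuotientGroup.mk' N), zpowers (QuotientGroup.mk' N y)⁆ := by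
    rw [← MonoidHom.map_zpowers, ← map_commutator]
    exact mem_map_of_mem _ hf
  have h2 : QuotientGroup.mk' N f ∈ centralizer (zpowers (QuotientGroup.mk' N y) : Set (Y ⧸ N)) := by
    rw [memC] at hfC ⊢
    exact hfC.map _
  obtain ⟨δ, hδ, h3⟩ := Dg_quo hcop (IH (mem_inf.mpr ⟨h1, h2⟩))
  have hδC : δ ∈ centralizer (zpowers y : Set Y) := by
    have : Dg y H ≤ centralizer (zpowers y : Set Y) := iSup_le fun h => inf_le_right
    exact this hδ
  refine ⟨δ, hδ, δ⁻¹ * f, ?_, mul_mem (inv_mem hδC) hfC, by group⟩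
  rw [← QuotientGroup.ker_mk' N, MonoidHom.mem_ker, map_mul, map_inv, h3, inv_mul_cancel]

theorem card_map_lt' {A B : Type*} [Group A] [Group B] [Finite A] (f : A →* B) {K N : Subgroup A} (hNK : N ≤ K)
    (hN : N ≠ ⊥) (hf : N ≤ f.ker) : Nat.card (K.map f) < Nat.card K := by
  by_contra hge
  push Not at hge
  have hs : Function.Surjective (f.subgroupMap K) := f.subgroupMap_surjective K
  haveI : Finite (K.map f) := Finite.of_surjective _ hs
  have hb := hs.bijective_of_nat_card_le hge
  apply hN
  rw [eq_bot_iff]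
  intro n hn
  have h1 : f.subgroupMap K ⟨n, hNK hn⟩ = 1 := Subtype.ext (hf hn)
  have h2 : (⟨n, hNK hn⟩ : K) = 1 := hb.1 (by rw [h1, map_one])
  exact mem_bot.mpr (congrArg Subtype.val h2)

theorem main (p : ℕ) [hpf : Fact p.Prime] (hp2 : p ≠ 2) (n : ℕ) : ∀ (X : Type u) [Group X] [Finite X] (x : X)
    (H : Subgroup X), Nat.card H = n → x ^ p = 1 → zpowers x ≤ normalizer (H : Set X) →
    (Nat.card H).Coprime p → Group.IsSolvable H →
    ⁅H, zpowers x⁆ ⊓ centralizer (zpowers x : Set X) ≤ Dg x H := by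
  induction n using Nat.strong_induction_on with
  | _ n ih =>
  intro X _ _ x H hH hxp hn hcop hsol
  by_contra hbad
  refine Cx.false (p := p) (x := x) (H := H) (D := Dg x H) ⟨hp2, hxp, hn, hcop, hsol, ?_, ?_, ?_, ?_, ?_, ?_, hbad⟩
  · unfold Dg
    exact iSup_le fun h => (inf_le_left.trans (cm_le h.2)).trans (commutator_le_of_le_normalizer hn)
  · exact iSup_le fun h => inf_le_right
  · intro h hh
    exact le_iSup (fun h : H => cm x (h : X) ⊓ centralizer (zpowers x : Set X)) (⟨h, hh⟩ : H)
  · intro f hf hfC d hd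
    exact Dg_conj hf (memC.mp hfC) hd
  · intro L hL hLn
    have hlt : Nat.card L < n := by
      rw [← hH]
      exact Set.Finite.card_lt_card (Set.toFinite _) hL
    haveI : Group.IsSolvable L := solvable_of_solvable_injective (f := inclusion hL.le) (inclusion_injective hL.le)
    exact (ih _ hlt X x L rfl hxp hLn (Nat.Coprime.coprime_dvd_left (card_dvd_of_le hL.le) hcop) inferInstance).trans
      (Dg_mono hL.le)
  · intro N hNH hN1 hHN hxN f hf hfC
    have hNM : N ≤ normalizer (N : Set X) := le_normalizer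
    have hxM : x ∈ normalizer (N : Set X) := hxN (mem_zpowers x)
    haveI : (N.subgroupOf (normalizer (N : Set X))).Normal := normal_in_normalizer
    have hKm : (H.subgroupOf (normalizer (N : Set X))).map (normalizer (N : Set X)).subtype = H := by
      rw [subgroupOf_map_subtype, inf_eq_left.mpr hHN]
    have hNm : (N.subgroupOf (normalizer (N : Set X))).map (normalizer (N : Set X)).subtype = N := by
      rw [subgroupOf_map_subtype, inf_eq_left.mpr hNM]
    generalize hK : H.subgroupOf (normalizer (N : Set X)) = K at hKm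
    generalize hN' : N.subgroupOf (normalizer (N : Set X)) = N' at hNm this
    have hinj := (normalizer (N : Set X)).subtype_injective
    have hcK : Nat.card K = Nat.card H := by
      rw [← hKm, card_map_of_injective hinj]
    have hcN : Nat.card N' = Nat.card N :=
      (card_map_of_injective hinj).symm.trans (congrArg (fun S : Subgroup X => Nat.card S) hNm)
    have hNK : N' ≤ K := by
      rw [← hK, ← hN']; exact comap_mono hNH
    have hN1' : N' ≠ ⊥ := by
      rintro rfl
      exact hN1 (by rw [← hNm, Subgroup.map_bot])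
    have hym : (zpowers (⟨x, hxM⟩ : normalizer (N : Set X))).map (normalizer (N : Set X)).subtype = zpowers x := by
      rw [MonoidHom.map_zpowers]; rfl
    have hyn : ∀ c ∈ K, (⟨x, hxM⟩ : normalizer (N : Set X)) * c * (⟨x, hxM⟩ : normalizer (N : Set X))⁻¹ ∈ K := by
      intro c hc
      rw [← hK] at hc ⊢
      rw [mem_subgroupOf] at hc ⊢
      exact (mem_normalizer_iff.mp (hn (mem_zpowers x)) _).mp hc
    have hyp : (⟨x, hxM⟩ : normalizer (N : Set X)) ^ p = 1 := Subtype.ext hxp
    have hcz : (Nat.card (zpowers (⟨x, hxM⟩ : normalizer (N : Set X)))).Coprime (Nat.card N') := by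
      rw [Nat.card_zpowers, hcN]
      exact (Nat.Coprime.coprime_dvd_left (card_dvd_of_le hNH)
        (Nat.Coprime.coprime_dvd_right (orderOf_dvd_of_pow_eq_one hyp) hcop)).symm
    haveI hsK : Group.IsSolvable K := by
      have e : Function.Injective ((normalizer (N : Set X)).subtype.subgroupMap K) := by
        intro a b hab
        have h1 : (((a : normalizer (N : Set X)) : X)) = ((b : normalizer (N : Set X)) : X) :=
          congrArg (Subtype.val : ((K.map (normalizer (N : Set X)).subtype : Subgroup X) : Type u) → X) hab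
        exact Subtype.ext (Subtype.ext h1)
      haveI : Group.IsSolvable (K.map (normalizer (N : Set X)).subtype) := by rw [hKm]; exact hsol
      exact solvable_of_solvable_injective e
    obtain ⟨f', hf', hff⟩ : f ∈ (⁅K, zpowers (⟨x, hxM⟩ : normalizer (N : Set X))⁆).map (normalizer (N : Set X)).subtype := by
      rw [map_commutator, hKm, hym]; exact hf
    have hff' : (f' : X) = f := hff
    have hfC' : f' ∈ centralizer (zpowers (⟨x, hxM⟩ : normalizer (N : Set X)) : Set (normalizer (N : Set X))) := by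
      rw [memC] at hfC ⊢
      apply Subtype.ext
      change (f' : X) * x = x * f'
      rw [hff']
      exact hfC
    have hlt : Nat.card (K.map (QuotientGroup.mk' N')) < n := by
      rw [← hH, ← hcK]
      exact card_map_lt' _ hNK hN1' (by rw [QuotientGroup.ker_mk'])
    haveI : Group.IsSolvable (K.map (QuotientGroup.mk' N')) :=
      solvable_of_surjective ((QuotientGroup.mk' N').subgroupMap_surjective K)
    obtain ⟨δ, hδ, m, hm, hmC, hfe⟩ := quo (y := (⟨x, hxM⟩ : normalizer (N : Set X))) (H := K) (N := N') hcz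
      (ih _ hlt _ (QuotientGroup.mk' N' (⟨x, hxM⟩ : normalizer (N : Set X))) (K.map (QuotientGroup.mk' N')) rfl
        (by rw [← map_pow, hyp, map_one])
        (by
          apply norm_of
          rintro _ ⟨c, hc, rfl⟩
          rw [← map_inv, ← map_mul, ← map_mul]
          exact mem_map_of_mem _ (hyn c hc))
        (Nat.Coprime.coprime_dvd_left (card_map_dvd _ _) (by rw [hcK]; exact hcop))
        inferInstance) hf' hfC'
    refine ⟨(δ : X), ?_, (m : X), ?_, ?_, ?_⟩
    · have h1 := Dg_map (normalizer (N : Set X)).subtype (⟨x, hxM⟩ : normalizer (N : Set X)) K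
      rw [hKm] at h1
      exact h1 (mem_map_of_mem _ hδ)
    · exact hNm.le (mem_map_of_mem _ hm)
    · rw [memC] at hmC ⊢
      exact congrArg Subtype.val hmC.eq
    · rw [← hff', hfe]; rfl

end Cfsg.Agent.H23.FX
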