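import Mathlib
import Cfsg.Agent.H23.MaxCentN
import Cfsg.Agent.H1.Cores
import Cfsg.Agent.H1.Basic
import Cfsg.Agent.L.Alperin
import Cfsg.Agent.H4.ZStarF
import Cfsg.Agent.H4.BaerSuzuki
import Cfsg.Agent.H24.MaxNil
import Cfsg.Agent.FT

set_option autoImplicit false
set_option linter.all false

/-! # A criterion for the nilpotency of a term of the lower central series -/

namespace Cfsg.Agent.H23.LC

open Subgroup Cfsg.Agent.H23 Cfsg.Agent.H23.MaxCent Cfsg.Agent.H23.MCN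
open scoped Pointwise commutatorElement

universe u

/-- values of the left-normed commutator word of length `n + 1` -/
def V (G : Type u) [Group G] : ℕ → Set G
  | 0 => Set.univ
  | n + 1 => {x | ∃ a ∈ V G n, ∃ b : G, x = a * b * a⁻¹ * b⁻¹}

/-- the condition on orders -/
def Cond (k : ℕ) (G : Type u) [Group G] : Prop :=
  ∀ x ∈ V G k, ∀ y ∈ V G k, (orderOf x).Coprime (orderOf y) →
    (∀ r : ℕ, r.Prime → r ∣ orderOf x * orderOf y → r ∣ orderOf (x * y)) ∨ orderOf x * orderOf y ≤ orderOf (x * y)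

variable {G : Type u} [Group G]

theorem V_succ (n : ℕ) : ∀ x ∈ V G (n + 1), x ∈ V G n := by
  induction n with
  | zero => intro x _; exact Set.mem_univ x
  | succ n ih =>
    rintro x ⟨a, ha, b, rfl⟩
    exact ⟨a, ih a ha, b, rfl⟩

theorem map_V {G' : Type u} [Group G'] (f : G →* G') (n : ℕ) : ∀ x ∈ V G n, f x ∈ V G' n := by
  induction n with
  | zero => intro x _; exact Set.mem_univ _
  | succ n ih =>
    rintro x ⟨a, ha, b, rfl⟩
    exact ⟨f a, ih a ha, f b, by simp⟩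

theorem Cond.sub {k : ℕ} (h : Cond k G) (H : Subgroup G) : Cond k H := by
  intro x hx y hy hxy
  have h1 := h x (map_V H.subtype k x hx) y (map_V H.subtype k y hy) (by
    rwa [show (orderOf (x : G)) = orderOf x from Subgroup.orderOf_coe x,
      show (orderOf (y : G)) = orderOf y from Subgroup.orderOf_coe y])
  rwa [Subgroup.orderOf_coe, Subgroup.orderOf_coe, ← Subgroup.coe_mul, Subgroup.orderOf_coe] at h1

theorem V_le_lcs (n : ℕ) : ∀ x ∈ V G n, x ∈ (⊤ : Subgroup G).lowerCentralSeries n := by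
  induction n with
  | zero => intro x _; exact mem_top x
  | succ n ih =>
    rintro x ⟨a, ha, b, rfl⟩
    rw [Subgroup.lowerCentralSeries_succ]
    exact commutator_mem_commutator (ih a ha) (mem_top b)

/-- the step -/
theorem step {p q : ℕ} (hp : p.Prime) (hq : q.Prime) (hqp : q ≠ p) {x : G} (hxp : ∃ a : ℕ, x ^ p ^ a = 1)
    {W : Subgroup G} (hW : ∀ w ∈ W, ∃ b : ℕ, w ^ q ^ b = 1) (hxW : ∀ w ∈ W, x * w * x⁻¹ ∈ W) {w : G} (hw : w ∈ W)
    (hwx : x * w ≠ w * x) : w * x * w⁻¹ * x⁻¹ ∈ W ∧ x * (w * x * w⁻¹ * x⁻¹) ≠ (w * x * w⁻¹ * x⁻¹) * x := by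
  obtain ⟨c, hc⟩ : ∃ c, c = w * x * w⁻¹ * x⁻¹ := ⟨_, rfl⟩
  rw [← hc]
  have hcW : c ∈ W := by
    have := W.mul_mem hw (hxW _ (W.inv_mem hw))
    have e : w * (x * w⁻¹ * x⁻¹) = c := by rw [hc]; group
    rwa [e] at this
  refine ⟨hcW, fun hcx => hwx ?_⟩
  have h1 : x * w * x⁻¹ = c⁻¹ * w := by
    have : x * w⁻¹ * x⁻¹ = w⁻¹ * c := by rw [hc]; group
    have h2 : (x * w⁻¹ * x⁻¹)⁻¹ = (w⁻¹ * c)⁻¹ := by rw [this]
    have e1 : (x * w⁻¹ * x⁻¹)⁻¹ = x * w * x⁻¹ := by group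
    have e2 : (w⁻¹ * c)⁻¹ = c⁻¹ * w := by group
    rw [e1, e2] at h2; exact h2
  have h2 : ∀ i : ℕ, x ^ i * w * (x ^ i)⁻¹ = c⁻¹ ^ i * w := by
    intro i
    induction i with
    | zero => simp
    | succ i ih =>
      have e : x ^ (i + 1) * w * (x ^ (i + 1))⁻¹ = x * (x ^ i * w * (x ^ i)⁻¹) * x⁻¹ := by
        rw [pow_succ' x i]; group
      rw [e, ih]
      have h3 : x * c⁻¹ ^ i = c⁻¹ ^ i * x := ((show Commute x c from hcx).inv_right.pow_right i)
      calc x * (c⁻¹ ^ i * w) * x⁻¹ = (x * c⁻¹ ^ i) * w * x⁻¹ := by group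
        _ = c⁻¹ ^ i * (x * w * x⁻¹) := by rw [h3]; group
        _ = c⁻¹ ^ (i + 1) * w := by rw [h1, pow_succ]; group
  obtain ⟨a, ha⟩ := hxp
  have h3 := h2 (p ^ a)
  rw [ha, inv_one, mul_one, one_mul] at h3
  have h4 : c⁻¹ ^ p ^ a = 1 := mul_eq_right.1 h3.symm
  rw [inv_pow, inv_eq_one] at h4
  obtain ⟨b, hb⟩ := hW c hcW
  have h5 : c ∈ (⊥ : Subgroup G) := by
    refine mem_of_coprime_pow (Nat.Coprime.pow b a ((Nat.coprime_primes hq hp).2 hqp)) ?_ ?_
    · rw [mem_bot]; exact hb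
    · rw [mem_bot]; exact h4
  rw [mem_bot] at h5
  rw [h5, inv_one, one_mul, mul_inv_eq_iff_eq_mul] at h1
  exact h1

theorem seq {p q : ℕ} (hp : p.Prime) (hq : q.Prime) (hqp : q ≠ p) {x : G} (hxp : ∃ a : ℕ, x ^ p ^ a = 1)
    {W : Subgroup G} (hW : ∀ w ∈ W, ∃ b : ℕ, w ^ q ^ b = 1) (hxW : ∀ w ∈ W, x * w * x⁻¹ ∈ W) {w : G} (hw : w ∈ W)
    (hwx : x * w ≠ w * x) (n : ℕ) : ∃ e ∈ V G n, e ∈ W ∧ x * e ≠ e * x := by
  induction n with
  | zero => exact ⟨w, Set.mem_univ w, hw, hwx⟩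
  | succ n ih =>
    obtain ⟨e, he, heW, hex⟩ := ih
    obtain ⟨h1, h2⟩ := step hp hq hqp hxp hW hxW heW hex
    exact ⟨_, ⟨e, he, x, rfl⟩, h1, h2⟩

variable [Finite G]

theorem KL {k : ℕ} (h : Cond k G) {p q : ℕ} (hp : p.Prime) (hq : q.Prime) (hqp : q ≠ p) {x : G} (hx : x ∈ V G k)
    (hxp : ∃ a : ℕ, x ^ p ^ a = 1) {W : Subgroup G} (hW : ∀ w ∈ W, ∃ b : ℕ, w ^ q ^ b = 1)
    (hxW : ∀ w ∈ W, x * w * x⁻¹ ∈ W) : ∀ w ∈ W, x * w = w * x := by
  intro w hw
  by_contra hwx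
  obtain ⟨e, he, heW, hex⟩ := seq hp hq hqp hxp hW hxW hw hwx k
  obtain ⟨h1, h2⟩ := step hp hq hqp hxp hW hxW heW hex
  obtain ⟨c, hc⟩ : ∃ c, c = e * x * e⁻¹ * x⁻¹ := ⟨_, rfl⟩
  rw [← hc] at h1 h2
  have hcV : c ∈ V G k := V_succ k _ ⟨e, he, x, hc⟩
  have hcx : c * x = e * x * e⁻¹ := by rw [hc]; group
  obtain ⟨a, ha⟩ := hxp
  obtain ⟨b, hb⟩ := hW c h1
  have hcq : orderOf c ∣ q ^ b := orderOf_dvd_of_pow_eq_one hb
  have hxq : orderOf x ∣ p ^ a := orderOf_dvd_of_pow_eq_one ha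
  have hcop : (orderOf c).Coprime (orderOf x) :=
    Nat.Coprime.coprime_dvd_left hcq (Nat.Coprime.coprime_dvd_right hxq
      (Nat.Coprime.pow b a ((Nat.coprime_primes hq hp).2 hqp)))
  have hord : orderOf (c * x) = orderOf x := by
    rw [hcx]
    have := orderOf_injective (MulAut.conj e).toMonoidHom (MulAut.conj e).injective x
    simpa [MulAut.conj_apply] using this
  have hc1 : c ≠ 1 := by
    rintro rfl
    apply h2
    rw [mul_one, one_mul]
  have hc1' : orderOf c ≠ 1 := fun h3 => hc1 (orderOf_eq_one_iff.1 h3)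
  rcases h c hcV x hx hcop with h3 | h3
  · obtain ⟨i, hi, hi2⟩ := (Nat.dvd_prime_pow hq).1 hcq
    have hi0 : i ≠ 0 := by rintro rfl; rw [pow_zero] at hi2; exact hc1' hi2
    have h4 := h3 q hq (Dvd.dvd.mul_right (by rw [hi2]; exact dvd_pow_self q hi0) _)
    rw [hord] at h4
    have h5 := hq.dvd_of_dvd_pow (h4.trans hxq)
    exact hqp ((Nat.prime_dvd_prime_iff_eq hq hp).1 h5)
  · rw [hord] at h3
    have h4 : 0 < orderOf x := orderOf_pos x
    have h5 : 2 ≤ orderOf c := by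
      have := orderOf_pos c
      omega
    nlinarith

theorem in_fitting {k : ℕ} (h : Cond k G) {q : ℕ} [hq : Fact q.Prime] {X : Subgroup G} (hX : X.Normal)
    (hXF : ∀ g ∈ X, ∃ a : ℕ, g ^ q ^ a ∈ Cfsg.fittingSubgroup G) {x : G} (hxX : x ∈ X) (hxV : x ∈ V G k)
    (hxq : ∃ a : ℕ, x ^ q ^ a = 1) : x ∈ Cfsg.fittingSubgroup G := by
  have hFn : (Cfsg.fittingSubgroup G).Normal := H1.fitting_normal G
  have hFnil := H1.fitting_isNilpotent G
  obtain ⟨F, hF⟩ : ∃ F, F = Cfsg.fittingSubgroup G := ⟨_, rfl⟩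
  rw [← hF] at hXF hFn hFnil ⊢
  obtain ⟨T, hT⟩ : ∃ T : Set G, T = {z | z ∈ F ∧ (orderOf z).Coprime q} := ⟨_, rfl⟩
  have hTm : ∀ z, z ∈ T ↔ z ∈ F ∧ (orderOf z).Coprime q := fun z => by rw [hT]; rfl
  have hTn : (centralizer T).Normal := by
    constructor
    intro y hy g
    rw [mem_centralizer_iff] at hy ⊢
    intro t ht
    obtain ⟨ht1, ht2⟩ := (hTm t).1 ht
    have h1 : g⁻¹ * t * g ∈ T := by
      refine (hTm _).2 ⟨?_, ?_⟩
      · have := hFn.conj_mem t ht1 g⁻¹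
        rwa [inv_inv] at this
      · have := orderOf_injective (MulAut.conj g⁻¹).toMonoidHom (MulAut.conj g⁻¹).injective t
        have h2 : orderOf (g⁻¹ * t * g) = orderOf t := by simpa [MulAut.conj_apply] using this
        rw [h2]; exact ht2
    have h2 := hy _ h1
    calc t * (g * y * g⁻¹) = g * ((g⁻¹ * t * g) * y) * g⁻¹ := by group
      _ = g * (y * (g⁻¹ * t * g)) * g⁻¹ := by rw [h2]
      _ = g * y * g⁻¹ * t := by group
  have hxT : x ∈ centralizer T := by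
    rw [mem_centralizer_iff]
    intro t ht
    obtain ⟨ht1, ht2⟩ := (hTm t).1 ht
    by_contra hcon
    have h1 : t ∉ centralizer ({x} : Set G) := fun h1 => hcon (mem_C.1 h1)
    obtain ⟨r, j, hr, hj, i, hi⟩ := exists_primary _ t rfl h1
    haveI : Fact r.Prime := ⟨hr⟩
    have hrq : r ≠ q := by
      rintro rfl
      apply hj
      have h2 : (orderOf (t ^ j)).Coprime r := Nat.Coprime.coprime_dvd_left (orderOf_pow_dvd j) ht2
      have h3 : orderOf (t ^ j) = 1 := Nat.Coprime.eq_one_of_dvd (h2.pow_right i) (orderOf_dvd_of_pow_eq_one hi)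
      rw [orderOf_eq_one_iff] at h3
      rw [h3]; exact one_mem _
    obtain ⟨W, hW⟩ := exists_pels r hFnil
    have h2 := KL h hq.out hr hrq hxV hxq (W := W) (fun w hw => ((hW w).1 hw).2)
      (fun w hw => conj_pels hW (fun g hg => hFn.conj_mem g hg x) w hw) (t ^ j)
      ((hW _).2 ⟨pow_mem ht1 j, i, hi⟩)
    exact hj (mem_C.2 h2.symm)
  have hYn : (X ⊓ centralizer T).Normal := inferInstance
  have hYnil : Group.IsNilpotent (X ⊓ centralizer T : Subgroup G) := by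
    refine nil_of' (N := X ⊓ centralizer T) _ le_rfl q ?_
    intro g hg
    obtain ⟨hg1, hg2⟩ := mem_inf.1 hg
    obtain ⟨a, ha⟩ := hXF g hg1
    obtain ⟨e, m, hm, hne⟩ := Nat.exists_eq_pow_mul_and_not_dvd (orderOf_pos (g ^ q ^ a)).ne' q hq.out.ne_one
    refine ⟨a + e, ?_⟩
    rw [pow_add, pow_mul, mem_centralizer_iff]
    intro y hy
    have hz : (g ^ q ^ a) ^ q ^ e ∈ T := by
      refine (hTm _).2 ⟨pow_mem ha _, ?_⟩
      have : orderOf ((g ^ q ^ a) ^ q ^ e) ∣ m :=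
        orderOf_dvd_of_pow_eq_one (by rw [← pow_mul, ← hne, pow_orderOf_eq_one])
      exact Nat.Coprime.coprime_dvd_left this ((Nat.Prime.coprime_iff_not_dvd hq.out).2 hm).symm
    exact (mem_centralizer_iff.1 (mem_inf.1 hy).2 _ hz).symm
  rw [hF]
  exact H1.le_fitting hYn hYnil (mem_inf.2 ⟨hxX, hxT⟩)

theorem nil_ucs {Γ : Type u} [Group Γ] [Finite Γ] {q : ℕ} [hq : Fact q.Prime] (A : Subgroup Γ) (n : ℕ)
    (hA : ∀ a ∈ A, ∃ k : ℕ, a ^ q ^ k ∈ Subgroup.upperCentralSeries Γ n) : Group.IsNilpotent A := by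
  let f := QuotientGroup.mk' (Subgroup.upperCentralSeries Γ n)
  have h1 : IsPGroup q (A.map f) := by
    rintro ⟨_, ⟨a, ha, rfl⟩⟩
    obtain ⟨k, hk⟩ := hA a ha
    refine ⟨k, Subtype.ext ?_⟩
    show (f a) ^ q ^ k = 1
    rw [← map_pow]
    exact (QuotientGroup.eq_one_iff _).2 hk
  have h2 : Group.IsNilpotent (A.map f) := h1.isNilpotent
  obtain ⟨c, hc⟩ := (isNilpotent_iff_lowerCentralSeries _).1 h2
  rw [← map_lowerCentralSeries] at hc
  have h3 : A.lowerCentralSeries c ≤ Subgroup.upperCentralSeries Γ n := by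
    intro a ha
    have h4 : f a ∈ (A.lowerCentralSeries c).map f := mem_map_of_mem f ha
    rw [hc, mem_bot] at h4
    exact (QuotientGroup.eq_one_iff _).1 h4
  have h4 : ∀ j ≤ n, A.lowerCentralSeries (c + j) ≤ Subgroup.upperCentralSeries Γ (n - j) := by
    intro j
    induction j with
    | zero => intro _; exact h3
    | succ j ih =>
      intro hj
      have h5 := ih (by omega)
      rw [← add_assoc, Subgroup.lowerCentralSeries_succ, commutator_le]
      intro a ha b hb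
      have h6 := h5 ha
      have e : n - j = (n - (j + 1)) + 1 := by omega
      rw [e] at h6
      exact (Subgroup.mem_upperCentralSeries_succ_iff.1 h6 b)
  refine (isNilpotent_iff_lowerCentralSeries A).2 ⟨c + n, ?_⟩
  rw [eq_bot_iff]
  have := h4 n le_rfl
  rwa [Nat.sub_self, Subgroup.upperCentralSeries_zero] at this

theorem solv_case {k : ℕ} (hs : Group.IsSolvable G) (h : Cond k G) :
    (⊤ : Subgroup G).lowerCentralSeries k ≤ Cfsg.fittingSubgroup G := by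
  have hFn : (Cfsg.fittingSubgroup G).Normal := H1.fitting_normal G
  by_cases hH : Subgroup.upperCentralSeries (G ⧸ Cfsg.fittingSubgroup G) k = ⊤
  · have h1 := (Subgroup.lowerCentralSeries_eq_bot_iff_upperCentralSeries_eq_top (G := G ⧸ Cfsg.fittingSubgroup G) (n := k)).2 hH
    intro g hg
    have h2 : QuotientGroup.mk' (Cfsg.fittingSubgroup G) g ∈
        ((⊤ : Subgroup G).lowerCentralSeries k).map (QuotientGroup.mk' (Cfsg.fittingSubgroup G)) := mem_map_of_mem _ hg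
    rw [map_lowerCentralSeries] at h2
    have h3 := Subgroup.lowerCentralSeries_mono k (le_top : (⊤ : Subgroup G).map (QuotientGroup.mk' (Cfsg.fittingSubgroup G)) ≤ ⊤) h2
    have h4 : QuotientGroup.mk' (Cfsg.fittingSubgroup G) g ∈ (⊥ : Subgroup (G ⧸ Cfsg.fittingSubgroup G)) := by
      rw [← h1]; exact h3
    rw [mem_bot] at h4
    exact (QuotientGroup.eq_one_iff g).1 h4
  exfalso
  obtain ⟨f, hf⟩ : ∃ f, f = QuotientGroup.mk' (Cfsg.fittingSubgroup G) := ⟨_, rfl⟩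
  have hfs : Function.Surjective f := by rw [hf]; exact QuotientGroup.mk'_surjective _
  have hf1 : ∀ {g : G}, f g = 1 ↔ g ∈ Cfsg.fittingSubgroup G := fun {g} => by rw [hf]; exact QuotientGroup.eq_one_iff g
  have hsΓ : Group.IsSolvable (G ⧸ Cfsg.fittingSubgroup G) := inferInstance
  have hne : Nontrivial ((G ⧸ Cfsg.fittingSubgroup G) ⧸ Subgroup.upperCentralSeries (G ⧸ Cfsg.fittingSubgroup G) k) := by
    rw [QuotientGroup.nontrivial_iff]; exact hH
  obtain ⟨q, A, hqp, hAc, hA1, hAm, hAq⟩ := H1.exists_pgroup_characteristic_of_solvable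
    ((G ⧸ Cfsg.fittingSubgroup G) ⧸ Subgroup.upperCentralSeries (G ⧸ Cfsg.fittingSubgroup G) k) inferInstance
  haveI : Fact q.Prime := ⟨hqp⟩
  haveI := hAc
  have hAn : A.Normal := inferInstance
  let g := QuotientGroup.mk' (Subgroup.upperCentralSeries (G ⧸ Cfsg.fittingSubgroup G) k)
  have hX1n : (A.comap g).Normal := inferInstance
  have hpow : ∀ a ∈ A.comap g, ∃ i : ℕ, a ^ q ^ i ∈ Subgroup.upperCentralSeries (G ⧸ Cfsg.fittingSubgroup G) k := by
    intro a ha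
    obtain ⟨i, hi⟩ := hAq ⟨g a, ha⟩
    refine ⟨i, (QuotientGroup.eq_one_iff _).1 ?_⟩
    show g (a ^ q ^ i) = 1
    rw [map_pow]; exact congrArg Subtype.val hi
  have hX1nil := nil_ucs (A.comap g) k hpow
  obtain ⟨Q1, hQ1⟩ := exists_pels q hX1nil
  have hQ1n : Q1.Normal := ⟨fun n hn γ => conj_pels hQ1 (fun z hz => hX1n.conj_mem z hz γ) n hn⟩
  obtain ⟨u, huQ, huH⟩ : ∃ u ∈ Q1, u ∉ Subgroup.upperCentralSeries (G ⧸ Cfsg.fittingSubgroup G) k := by
    by_contra hcon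
    push Not at hcon
    obtain ⟨⟨a', ha'⟩, ha1⟩ := (ne_bot_iff_exists_ne_one (H := A)).1 hA1
    obtain ⟨a, rfl⟩ := QuotientGroup.mk'_surjective _ a'
    apply ha1
    apply Subtype.ext
    show g a = 1
    refine (QuotientGroup.eq_one_iff _).2 ?_
    obtain ⟨i, hi⟩ := hpow a ha'
    obtain ⟨e, m, hm, hne⟩ := Nat.exists_eq_pow_mul_and_not_dvd (orderOf_pos a).ne' q hqp.ne_one
    refine mem_of_coprime_pow (((Nat.Prime.coprime_iff_not_dvd hqp).2 hm).symm.pow_right i) ?_ hi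
    exact hcon _ ((hQ1 _).2 ⟨pow_mem (show a ∈ A.comap g from ha') m, e, by rw [← pow_mul, mul_comm, ← hne, pow_orderOf_eq_one]⟩)
  have hXn : (Q1.comap f).Normal := inferInstance
  obtain ⟨Q0, hQ0⟩ := exists_isSylowOf q (Q1.comap f)
  have hQ0map : Q0.map f = Q1 := by
    have h1 : (Q1.comap f).map f = Q1 := map_comap_eq_self_of_surjective hfs Q1
    apply le_antisymm
    · rw [← h1]; exact map_mono hQ0.le
    · have h2 : (Q0.map f).relIndex Q1 ∣ Q0.relIndex (Q1.comap f) := by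
        have := H1.relIndex_map_dvd f Q0 (Q1.comap f)
        rwa [h1] at this
      have h3 : ¬ q ∣ (Q0.map f).relIndex Q1 := fun h3 => hQ0.not_dvd (h3.trans h2)
      obtain ⟨i, hi⟩ := (pels_isPGroup hQ1).index ((Q0.map f).subgroupOf Q1)
      have h4 : (Q0.map f).relIndex Q1 = q ^ i := hi
      have h5 : i = 0 := by
        by_contra h6
        exact h3 (by rw [h4]; exact dvd_pow_self q h6)
      rw [h5, pow_zero] at h4
      exact relIndex_eq_one.1 h4
  have hfr : ∀ γ : G ⧸ Cfsg.fittingSubgroup G, ∃ n ∈ normalizer (Q0 : Set G), f n = γ := by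
    intro γ
    obtain ⟨w, rfl⟩ := hfs γ
    have h1 : IsSylowOf q (MulAut.conj w • Q0) (Q1.comap f) := by
      exact hQ0.conj (by rw [normalizer_eq_top]; exact mem_top w)
    obtain ⟨t, ht, ht2⟩ := hQ0.exists_conj h1
    have h2 : t⁻¹ * w ∈ normalizer (Q0 : Set G) := by
      rw [H1.mem_normalizer_iff_conj_smul, map_mul, mul_smul, ← ht2, ← mul_smul, ← map_mul, inv_mul_cancel, map_one,
        one_smul]
    have h3 : f t ∈ Q0.map f := by rw [hQ0map]; exact ht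
    obtain ⟨s, hs, hst⟩ := h3
    refine ⟨s * (t⁻¹ * w), mul_mem (le_normalizer hs) h2, ?_⟩
    rw [map_mul, map_mul, map_inv, hst, mul_inv_cancel_left]
  have hseq : ∀ j ≤ k, ∃ x ∈ Q0, x ∈ V G j ∧ f x ∉ Subgroup.upperCentralSeries (G ⧸ Cfsg.fittingSubgroup G) (k - j) := by
    intro j
    induction j with
    | zero =>
      intro _
      rw [← hQ0map] at huQ
      obtain ⟨x, hx, rfl⟩ := huQ
      exact ⟨x, hx, Set.mem_univ x, huH⟩
    | succ j ih =>
      intro hj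
      obtain ⟨x, hx, hxV, hxf⟩ := ih (by omega)
      have e : k - j = (k - (j + 1)) + 1 := by omega
      rw [e, Subgroup.mem_upperCentralSeries_succ_iff] at hxf
      push Not at hxf
      obtain ⟨γ, hγ⟩ := hxf
      obtain ⟨n, hn, rfl⟩ := hfr γ
      refine ⟨x * n * x⁻¹ * n⁻¹, ?_, ⟨x, hxV, n, rfl⟩, ?_⟩
      · have h1 : n * x⁻¹ * n⁻¹ ∈ Q0 := (mem_normalizer_iff.1 hn _).1 (inv_mem hx)
        have := Q0.mul_mem hx h1
        have e : x * (n * x⁻¹ * n⁻¹) = x * n * x⁻¹ * n⁻¹ := by group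
        rwa [e] at this
      · intro h1
        apply hγ
        rw [commutatorElement_def, ← map_inv, ← map_inv, ← map_mul, ← map_mul, ← map_mul]
        exact h1
  obtain ⟨x, hx, hxV, hxf⟩ := hseq k le_rfl
  rw [Nat.sub_self, Subgroup.upperCentralSeries_zero, mem_bot, hf1] at hxf
  apply hxf
  refine in_fitting h (q := q) hXn ?_ (hQ0.le hx) hxV ?_
  · intro w hw
    obtain ⟨-, i, hi⟩ := (hQ1 _).1 (show f w ∈ Q1 from hw)
    refine ⟨i, hf1.1 ?_⟩
    rw [map_pow]; exact hi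
  · obtain ⟨i, hi⟩ := hQ0.isPGroup ⟨x, hx⟩
    exact ⟨i, congrArg Subtype.val hi⟩

section
variable {Γ : Type u} [Group Γ] [Finite Γ]

/-- no odd-order element acts nontrivially on an elementary abelian 2-subgroup -/
def NoAct (Γ : Type u) [Group Γ] : Prop :=
  ∀ E : Subgroup Γ, (∀ a ∈ E, ∀ b ∈ E, a * b = b * a) → (∀ a ∈ E, a ^ 2 = 1) →
    ∀ y ∈ normalizer (E : Set Γ), Odd (orderOf y) → ∀ e ∈ E, y * e = e * y

theorem key_fn (hN : NoAct Γ) {S T : Subgroup Γ} (hT : Cfsg.Agent.L.FN 2 S T) {z : Γ} (hz : z ∈ T)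
    (hzS : ∀ s ∈ S, s * z = z * s) (hz2 : z ^ 2 = 1) : ∀ x ∈ normalizer (T : Set Γ), x * z = z * x := by
  haveI : Fact (Nat.Prime 2) := ⟨Nat.prime_two⟩
  obtain ⟨hTS, hSyl⟩ := hT
  let E : Subgroup Γ :=
    { carrier := {t | t ∈ T ∧ t ^ 2 = 1 ∧ ∀ s ∈ T, s * t = t * s}
      mul_mem' := by
        rintro a b ⟨ha, ha2, hac⟩ ⟨hb, hb2, hbc⟩
        refine ⟨T.mul_mem ha hb, ?_, ?_⟩
        · rw [(show Commute a b from hbc a ha).mul_pow, ha2, hb2, one_mul]
        · intro s hs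
          rw [← mul_assoc, hac s hs, mul_assoc, hbc s hs, mul_assoc]
      one_mem' := ⟨one_mem _, one_pow _, fun s _ => by rw [mul_one, one_mul]⟩
      inv_mem' := by
        rintro a ⟨ha, ha2, hac⟩
        exact ⟨T.inv_mem ha, by rw [inv_pow, ha2, inv_one], fun s hs => (show Commute s a from hac s hs).inv_right⟩ }
  have hE : ∀ t, t ∈ E ↔ t ∈ T ∧ t ^ 2 = 1 ∧ ∀ s ∈ T, s * t = t * s := fun t => Iff.rfl
  have hconj : ∀ x ∈ normalizer (T : Set Γ), ∀ e ∈ E, x * e * x⁻¹ ∈ E := by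
    intro x hx e he
    obtain ⟨h1, h2, h3⟩ := (hE e).1 he
    refine (hE _).2 ⟨(mem_normalizer_iff.1 hx e).1 h1, by rw [conj_pow, h2, mul_one, mul_inv_cancel], ?_⟩
    intro s hs
    have h4 : x⁻¹ * s * x ∈ T := by
      have := (mem_normalizer_iff.1 (inv_mem hx) s).1 hs
      rwa [inv_inv] at this
    have h5 := h3 _ h4
    calc s * (x * e * x⁻¹) = x * ((x⁻¹ * s * x) * e) * x⁻¹ := by group
      _ = x * (e * (x⁻¹ * s * x)) * x⁻¹ := by rw [h5]
      _ = x * e * x⁻¹ * s := by group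
  have hTE : normalizer (T : Set Γ) ≤ normalizer (E : Set Γ) := le_normalizer_of_conj_mem hconj
  have hEab : ∀ a ∈ E, ∀ b ∈ E, a * b = b * a := fun a ha b hb => ((hE b).1 hb).2.2 a ((hE a).1 ha).1
  have hzE : z ∈ E := (hE z).2 ⟨hz, hz2, fun s hs => hzS s (hTS hs)⟩
  obtain ⟨M, hM⟩ : ∃ M, M = normalizer (T : Set Γ) := ⟨_, rfl⟩
  have hEM : E ≤ M := by rw [hM]; exact fun e he => le_normalizer ((hE e).1 he).1
  have hE'n : (E.subgroupOf M).Normal := ⟨fun e he m => hconj m (by rw [← hM]; exact m.2) e he⟩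
  have hC'n : (centralizer (E.subgroupOf M : Set M)).Normal := inferInstance
  have hpg : IsPGroup 2 (M ⧸ centralizer (E.subgroupOf M : Set M)) := by
    intro x'
    obtain ⟨x, rfl⟩ := QuotientGroup.mk'_surjective _ x'
    obtain ⟨e, m, hm, hne⟩ := Nat.exists_eq_pow_mul_and_not_dvd (orderOf_pos x).ne' 2 (by norm_num)
    refine ⟨e, ?_⟩
    rw [← map_pow]
    refine (QuotientGroup.eq_one_iff _).2 ?_
    rw [mem_centralizer_iff]
    intro t ht
    have h1 : orderOf (x ^ 2 ^ e) ∣ m := orderOf_dvd_of_pow_eq_one (by rw [← pow_mul, ← hne, pow_orderOf_eq_one])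
    have h2 : Odd (orderOf ((x ^ 2 ^ e : M) : Γ)) := by
      rw [Subgroup.orderOf_coe]
      exact Odd.of_dvd_nat (Nat.not_even_iff_odd.1 (fun h => hm h.two_dvd)) h1
    apply Subtype.ext
    exact (hN E hEab (fun a ha => ((hE a).1 ha).2.1) _ (hTE (by rw [← hM]; exact (x ^ 2 ^ e).2)) h2 t ht).symm
  obtain ⟨i, hi⟩ := IsPGroup.iff_card.1 hpg
  have hzM : z ∈ M := hEM hzE
  have h1 : (centralizer ({(⟨z, hzM⟩ : M)} : Set M)).index ∣ 2 ^ i := by
    rw [← hi]
    refine Subgroup.index_dvd_of_le (centralizer_le ?_)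
    rw [Set.singleton_subset_iff]
    exact hzE
  have h2 : (centralizer ({(⟨z, hzM⟩ : M)} : Set M)).index ∣ (S ⊓ M).relIndex M := by
    refine Subgroup.index_dvd_of_le ?_
    intro s hs
    rw [mem_C]
    apply Subtype.ext
    exact hzS s (mem_inf.1 (show (s : Γ) ∈ S ⊓ M from hs)).1
  have h3 : ¬ 2 ∣ (S ⊓ M).relIndex M := by rw [hM]; exact hSyl.not_dvd
  obtain ⟨j, -, hj⟩ := (Nat.dvd_prime_pow Nat.prime_two).1 h1
  have h4 : j = 0 := by
    by_contra h4
    exact h3 ((dvd_pow_self 2 h4).trans (hj ▸ h2))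
  rw [h4, pow_zero, Subgroup.index_eq_one] at hj
  intro x hx
  have hxM : x ∈ M := by rw [hM]; exact hx
  have h5 : (⟨x, hxM⟩ : M) ∈ centralizer ({(⟨z, hzM⟩ : M)} : Set M) := by rw [hj]; exact mem_top _
  exact congrArg Subtype.val (mem_C.1 h5)

theorem fix_of_fn (hN : NoAct Γ) {S : Subgroup Γ} {z : Γ} (hzS : ∀ s ∈ S, s * z = z * s) (hz2 : z ^ 2 = 1)
    {A : Set Γ} {g : Γ} (H : Cfsg.Agent.L.CFam {U | Cfsg.Agent.L.FN 2 S U} A g) : A = {z} → g⁻¹ * z * g = z := by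
  induction H with
  | one A => intro _; simp
  | cons A T x g hT hx hA _ ih =>
    intro h1
    subst h1
    have hzT : z ∈ T := hA rfl
    have h2 := key_fn hN hT hzT hzS hz2 x hx
    have h3 : x⁻¹ * z * x = z := by rw [mul_assoc, ← h2, inv_mul_cancel_left]
    have h4 := ih (by
      show (fun a => x⁻¹ * a * x⁻¹⁻¹) '' {z} = {z}
      rw [Set.image_singleton, inv_inv, h3])
    calc (x * g)⁻¹ * z * (x * g) = g⁻¹ * (x⁻¹ * z * x) * g := by group
      _ = z := by rw [h3, h4]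

theorem exists_E (hs : IsSimpleGroup Γ) (hns : ¬ Group.IsSolvable Γ) :
    ∃ (E : Subgroup Γ) (y e₀ : Γ), (∀ a ∈ E, ∀ b ∈ E, a * b = b * a) ∧ (∀ a ∈ E, a ^ 2 = 1) ∧
      y ∈ normalizer (E : Set Γ) ∧ Odd (orderOf y) ∧ e₀ ∈ E ∧ y * e₀ ≠ e₀ * y := by
  haveI : Fact (Nat.Prime 2) := ⟨Nat.prime_two⟩
  by_contra hcon
  have hN : NoAct Γ := by
    intro E h1 h2 y hy hyo e he
    by_contra h3
    exact hcon ⟨E, y, e, h1, h2, hy, hyo, he, h3⟩
  have heven : ¬ Odd (Nat.card Γ) := fun h => hns (FT.odd_order h)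
  obtain ⟨S⟩ : Nonempty (Sylow 2 Γ) := inferInstance
  have h2dvd : 2 ∣ Nat.card (S : Subgroup Γ) := by
    apply Sylow.dvd_card_of_dvd_card
    exact (Nat.not_odd_iff_even.1 heven).two_dvd
  haveI : Nontrivial (S : Subgroup Γ) := by
    rw [← Finite.one_lt_card_iff_nontrivial]
    exact lt_of_lt_of_le (by norm_num) (Nat.le_of_dvd Nat.card_pos h2dvd)
  haveI := IsPGroup.center_nontrivial S.2
  have h2c : 2 ∣ Nat.card (center (S : Subgroup Γ)) := by
    obtain ⟨i, hi⟩ := IsPGroup.iff_card.1 (S.2.to_subgroup (center (S : Subgroup Γ)))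
    rw [hi]
    refine dvd_pow_self 2 ?_
    rintro rfl
    rw [pow_zero] at hi
    exact absurd (Finite.one_lt_card (α := center (S : Subgroup Γ))) (by rw [hi]; exact lt_irrefl 1)
  obtain ⟨⟨⟨z, hzS⟩, hzc⟩, hz2⟩ := exists_prime_orderOf_dvd_card' 2 h2c
  have hz2 : orderOf z = 2 := by
    rw [← Subgroup.orderOf_coe, ← Subgroup.orderOf_coe] at hz2
    exact hz2
  have hzz : ∀ s ∈ (S : Subgroup Γ), s * z = z * s := by
    intro s hs
    exact congrArg Subtype.val (mem_center_iff.1 hzc ⟨s, hs⟩)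
  have hzp : z ^ 2 = 1 := by rw [← hz2, pow_orderOf_eq_one]
  have hiso : Cfsg.IsIsolatedInvolution z := by
    refine H4.isolated_of_sylow S hz2 fun g hg => ?_
    have hSy : Cfsg.Agent.L.SylIn 2 (S : Subgroup Γ) ⊤ := by
      refine ⟨le_top, S.2, ?_⟩
      rw [relIndex_top_right]
      exact Sylow.not_dvd_index S
    have h1 := Cfsg.Agent.L.alperin_fn (S : Subgroup Γ) hSy {z} g⁻¹ (by rw [Set.singleton_subset_iff]; exact hzS) (by
      rintro _ ⟨a, ha, rfl⟩
      rw [Set.mem_singleton_iff] at ha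
      rw [ha, inv_inv]
      exact hg)
    have h2 := fix_of_fn hN hzz hzp h1 rfl
    rwa [inv_inv] at h2
  have hO : Cfsg.oddCore Γ = ⊥ := H4.oddCore_eq_bot_of (fun K hK hKo => by
    rcases hs.eq_bot_or_eq_top_of_normal K hK with h | h
    · exact h
    · rw [h, Subgroup.card_top] at hKo
      exact absurd hKo heven)
  have hzc := H4.zstar_central hO hiso
  rcases hs.eq_bot_or_eq_top_of_normal (center Γ) inferInstance with h | h
  · rw [h, mem_bot] at hzc
    rw [hzc, orderOf_one] at hz2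
    norm_num at hz2
  · apply hns
    exact isSolvable_of_comm (fun a b => by
      have h1 : b ∈ center Γ := by rw [h]; exact mem_top b
      exact mem_center_iff.1 h1 a)

end

section
variable {Γ : Type u} [Group Γ] [Finite Γ]

theorem seq_map {G : Type u} [Group G] (f : G →* Γ) {p q : ℕ} (hp : p.Prime) (hq : q.Prime) (hqp : q ≠ p) {x : G}
    (hxp : ∃ a : ℕ, (f x) ^ p ^ a = 1) {W : Subgroup G} (hW : ∀ w ∈ W, ∃ b : ℕ, w ^ q ^ b = 1)
    (hxW : ∀ w ∈ W, x * w * x⁻¹ ∈ W) {w : G} (hw : w ∈ W) (hwx : f x * f w ≠ f w * f x) (n : ℕ) :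
    ∃ e ∈ V G n, e ∈ W ∧ f x * f e ≠ f e * f x := by
  induction n with
  | zero => exact ⟨w, Set.mem_univ w, hw, hwx⟩
  | succ n ih =>
    obtain ⟨e, he, heW, hex⟩ := ih
    have h1 := step (W := W.map f) hp hq hqp hxp (by
      rintro _ ⟨v, hv, rfl⟩
      obtain ⟨b, hb⟩ := hW v hv
      exact ⟨b, by rw [← map_pow, hb, map_one]⟩) (by
      rintro _ ⟨v, hv, rfl⟩
      exact ⟨x * v * x⁻¹, hxW v hv, by simp⟩) (mem_map_of_mem f heW) hex
    refine ⟨e * x * e⁻¹ * x⁻¹, ⟨e, he, x, rfl⟩, ?_, ?_⟩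
    · have := W.mul_mem heW (hxW _ (W.inv_mem heW))
      have e' : e * (x * e⁻¹ * x⁻¹) = e * x * e⁻¹ * x⁻¹ := by group
      rwa [e'] at this
    · have := h1.2
      simpa using this

theorem map_sylow_eq {G : Type u} [Group G] [Finite G] {f : G →* Γ} (hfs : Function.Surjective f) {q : ℕ}
    [hq : Fact q.Prime] {Q1 : Subgroup Γ} (hQ1 : IsPGroup q Q1) {Q0 : Subgroup G} (hQ0 : IsSylowOf q Q0 (Q1.comap f)) :
    Q0.map f = Q1 := by
  have h1 : (Q1.comap f).map f = Q1 := map_comap_eq_self_of_surjective hfs Q1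
  apply le_antisymm
  · rw [← h1]; exact map_mono hQ0.le
  · have h2 : (Q0.map f).relIndex Q1 ∣ Q0.relIndex (Q1.comap f) := by
      have := H1.relIndex_map_dvd f Q0 (Q1.comap f)
      rwa [h1] at this
    have h3 : ¬ q ∣ (Q0.map f).relIndex Q1 := fun h3 => hQ0.not_dvd (h3.trans h2)
    obtain ⟨i, hi⟩ := hQ1.index ((Q0.map f).subgroupOf Q1)
    have h4 : (Q0.map f).relIndex Q1 = q ^ i := hi
    have h5 : i = 0 := by
      by_contra h6
      exact h3 (by rw [h4]; exact dvd_pow_self q h6)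
    rw [h5, pow_zero] at h4
    exact relIndex_eq_one.1 h4

theorem nonsolv {G : Type u} [Group G] [Finite G] {k : ℕ} (h : Cond k G)
    (hmin : ∀ L : Subgroup G, L ≠ ⊤ → Group.IsSolvable L) (f : G →* Γ) (hfs : Function.Surjective f)
    (hs : IsSimpleGroup Γ) (hns : ¬ Group.IsSolvable Γ) : False := by
  haveI : Fact (Nat.Prime 2) := ⟨Nat.prime_two⟩
  obtain ⟨E, y0, e0, hEab, hE2, hy0E, hy0o, he0, hy0⟩ := exists_E hs hns
  -- make y a primary element
  obtain ⟨y, r, hr, hr2, ⟨a, hya⟩, hyE, hye⟩ : ∃ (y : Γ) (r : ℕ), r.Prime ∧ r ≠ 2 ∧ (∃ a : ℕ, y ^ r ^ a = 1) ∧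
      y ∈ normalizer (E : Set Γ) ∧ y * e0 ≠ e0 * y := by
    have h1 : y0 ∉ centralizer ({e0} : Set Γ) := fun h1 => hy0 (mem_C.1 h1)
    obtain ⟨r, j, hr, hj, a, ha⟩ := exists_primary _ y0 rfl h1
    refine ⟨y0 ^ j, r, hr, ?_, ⟨a, ha⟩, pow_mem hy0E j, fun h2 => hj (mem_C.2 h2)⟩
    rintro rfl
    apply hj
    have h2 : Odd (orderOf (y0 ^ j)) := Odd.of_dvd_nat hy0o (orderOf_pow_dvd j)
    have h3 : orderOf (y0 ^ j) = 1 := by
      have h4 : (orderOf (y0 ^ j)).Coprime (2 ^ a) := (Nat.coprime_two_right.2 h2).pow_right a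
      exact Nat.Coprime.eq_one_of_dvd h4 (orderOf_dvd_of_pow_eq_one ha)
    rw [orderOf_eq_one_iff] at h3
    rw [h3]; exact one_mem _
  have hEp : IsPGroup 2 E := fun e => ⟨1, Subtype.ext (by rw [pow_one]; exact hE2 e e.2)⟩
  obtain ⟨R, hR⟩ := exists_isSylowOf 2 (E.comap f)
  have hRmap := map_sylow_eq hfs hEp hR
  obtain ⟨y', rfl⟩ := hfs y
  have hy'X : y' ∈ normalizer ((E.comap f : Subgroup G) : Set G) := by
    rw [mem_normalizer_iff]
    intro x
    have := mem_normalizer_iff.1 hyE (f x)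
    rw [← map_mul, ← map_inv, ← map_mul] at this
    exact this
  obtain ⟨t, ht, ht2⟩ := hR.exists_conj (hR.conj hy'X)
  have hn : t⁻¹ * y' ∈ normalizer (R : Set G) := by
    rw [H1.mem_normalizer_iff_conj_smul, map_mul, mul_smul, ← ht2, ← mul_smul, ← map_mul, inv_mul_cancel, map_one,
      one_smul]
  obtain ⟨n, hnd⟩ : ∃ n, n = t⁻¹ * y' := ⟨_, rfl⟩
  rw [← hnd] at hn
  have hact : ∀ (i : ℕ), ∀ e ∈ E, (f n) ^ i * e * ((f n) ^ i)⁻¹ = (f y') ^ i * e * ((f y') ^ i)⁻¹ := by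
    intro i
    induction i with
    | zero => intro e _; simp
    | succ i ih =>
      intro e he
      have h1 : f y' * e * (f y')⁻¹ ∈ E := (mem_normalizer_iff.1 hyE e).1 he
      have h2 : f n * e * (f n)⁻¹ = f y' * e * (f y')⁻¹ := by
        rw [hnd, map_mul, map_inv]
        have h3 : f t ∈ E := ht
        have h4 := hEab _ h3 _ h1
        calc (f t)⁻¹ * f y' * e * ((f t)⁻¹ * f y')⁻¹ = (f t)⁻¹ * ((f y' * e * (f y')⁻¹) * f t) := by group
          _ = (f t)⁻¹ * (f t * (f y' * e * (f y')⁻¹)) := by rw [h4]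
          _ = f y' * e * (f y')⁻¹ := by rw [inv_mul_cancel_left]
      calc (f n) ^ (i + 1) * e * ((f n) ^ (i + 1))⁻¹ = (f n) ^ i * (f n * e * (f n)⁻¹) * ((f n) ^ i)⁻¹ := by
            rw [pow_succ]; group
        _ = (f n) ^ i * (f y' * e * (f y')⁻¹) * ((f n) ^ i)⁻¹ := by rw [h2]
        _ = (f y') ^ i * (f y' * e * (f y')⁻¹) * ((f y') ^ i)⁻¹ := ih _ h1
        _ = (f y') ^ (i + 1) * e * ((f y') ^ (i + 1))⁻¹ := by rw [pow_succ]; group
  obtain ⟨b, m, hm, hne⟩ := Nat.exists_eq_pow_mul_and_not_dvd (orderOf_pos n).ne' r hr.ne_one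
  obtain ⟨y3, hy3⟩ : ∃ y3, y3 = n ^ m := ⟨_, rfl⟩
  have hy3r : y3 ^ r ^ b = 1 := by rw [hy3, ← pow_mul, mul_comm, ← hne, pow_orderOf_eq_one]
  have hy3e : f y3 * e0 ≠ e0 * f y3 := by
    intro h1
    have h2 := hact m e0 he0
    rw [hy3, map_pow] at h1
    rw [h1, mul_inv_cancel_right] at h2
    have h3 : (f y') ^ m ∈ centralizer ({e0} : Set Γ) := by
      rw [mem_C]
      rw [eq_mul_inv_iff_mul_eq] at h2
      exact h2.symm
    have h4 : f y' ∈ centralizer ({e0} : Set Γ) := by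
      refine mem_of_coprime_pow (((Nat.Prime.coprime_iff_not_dvd hr).2 hm).symm.pow_right a) h3 ?_
      rw [hya]; exact one_mem _
    exact hye (mem_C.1 h4)
  have hy3R : ∀ w ∈ R, y3 * w * y3⁻¹ ∈ R := by
    intro w hw
    have h1 : y3 ∈ normalizer (R : Set G) := by rw [hy3]; exact pow_mem hn m
    exact (mem_normalizer_iff.1 h1 w).1 hw
  have he0' := he0
  rw [← hRmap] at he0'
  obtain ⟨u, hu, rfl⟩ := he0'
  have hRel : ∀ w ∈ R, ∃ b : ℕ, w ^ 2 ^ b = 1 := by
    intro w hw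
    obtain ⟨i, hi⟩ := hR.isPGroup ⟨w, hw⟩
    exact ⟨i, congrArg Subtype.val hi⟩
  obtain ⟨x, hxV, hxR, hx⟩ := seq_map f hr Nat.prime_two (Ne.symm hr2) ⟨b, by rw [← map_pow, hy3r, map_one]⟩ hRel hy3R
    hu hy3e k
  have hxE : f x ∈ E := hR.le hxR
  have hx1 : f x ≠ 1 := by
    intro h1
    apply hx
    rw [h1, mul_one, one_mul]
  have hx2 : orderOf (f x) = 2 := orderOf_eq_prime (hE2 _ hxE) hx1
  -- Baer-Suzuki
  obtain ⟨g, i, hw1, hwo, hwinv⟩ := H4.inverts_odd_of_not_mem_core (f x) hx2 (by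
    intro K hK hKp hxK
    rcases hs.eq_bot_or_eq_top_of_normal K hK with h1 | h1
    · rw [h1, mem_bot] at hxK
      exact hx1 hxK
    · apply hns
      rw [h1] at hKp
      have h2 : IsPGroup 2 Γ := hKp.of_equiv Subgroup.topEquiv
      haveI := h2.isNilpotent
      infer_instance)
  obtain ⟨w0, hw0⟩ : ∃ w0, w0 = (f x * (g * f x * g⁻¹)) ^ 2 ^ i := ⟨_, rfl⟩
  rw [← hw0] at hw1 hwo hwinv
  obtain ⟨s, hs', hs2, w, hw1, ⟨c, hwc⟩, hwinv⟩ : ∃ s : ℕ, s.Prime ∧ s ≠ 2 ∧ ∃ w : Γ, w ≠ 1 ∧ (∃ c : ℕ, w ^ s ^ c = 1) ∧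
      f x * w * (f x)⁻¹ = w⁻¹ := by
    obtain ⟨s, j, hs', hj, c, hc⟩ := exists_primary (K := (⊥ : Subgroup Γ)) _ w0 rfl (by rwa [mem_bot])
    rw [mem_bot] at hj
    refine ⟨s, hs', ?_, w0 ^ j, hj, ⟨c, hc⟩, ?_⟩
    · rintro rfl
      apply hj
      have h2 : Odd (orderOf (w0 ^ j)) := Odd.of_dvd_nat hwo (orderOf_pow_dvd j)
      have h4 : (orderOf (w0 ^ j)).Coprime (2 ^ c) := (Nat.coprime_two_right.2 h2).pow_right c
      exact orderOf_eq_one_iff.1 (Nat.Coprime.eq_one_of_dvd h4 (orderOf_dvd_of_pow_eq_one hc))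
    · rw [← conj_pow, hwinv, inv_pow]
  haveI : Fact s.Prime := ⟨hs'⟩
  -- the proper subgroup
  obtain ⟨D, hD⟩ : ∃ D, D = zpowers w ⊔ zpowers (f x) := ⟨_, rfl⟩
  have hwD : w ∈ D := by rw [hD]; exact mem_sup_left (mem_zpowers w)
  have hxD : f x ∈ D := by rw [hD]; exact mem_sup_right (mem_zpowers _)
  have hinvz : ∀ v ∈ zpowers w, f x * v * (f x)⁻¹ = v⁻¹ := by
    intro v hv
    obtain ⟨j, rfl⟩ := mem_zpowers_iff.1 hv
    rw [← conj_zpow, hwinv, inv_zpow]
  have hDtop : D ≠ ⊤ := by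
    intro h1
    have h2 : (zpowers w).Normal := by
      rw [← normalizer_eq_top_iff, eq_top_iff, ← h1, hD]
      refine sup_le le_normalizer ?_
      rw [zpowers_le]
      have h3 : zpowers (f x) ≤ normalizer ((zpowers w : Subgroup Γ) : Set Γ) := by
        apply le_normalizer_of_conj_mem
        intro c' hc' v hv
        obtain ⟨j, rfl⟩ := mem_zpowers_iff.1 hc'
        have key : ∀ j : ℕ, ∀ v ∈ zpowers w, (f x) ^ j * v * ((f x) ^ j)⁻¹ ∈ zpowers w := by
          intro j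
          induction j with
          | zero => intro v hv; simpa using hv
          | succ j ih =>
            intro v hv
            have h4 : f x * v * (f x)⁻¹ ∈ zpowers w := by rw [hinvz v hv]; exact inv_mem hv
            have h5 := ih _ h4
            have e : (f x) ^ j * (f x * v * (f x)⁻¹) * ((f x) ^ j)⁻¹ = (f x) ^ (j + 1) * v * ((f x) ^ (j + 1))⁻¹ := by
              rw [pow_succ]; group
            rwa [e] at h5
        have h6 : ∃ j' : ℕ, (f x) ^ j = (f x) ^ j' := by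
          obtain ⟨j', hj'⟩ := (mem_powers_iff_mem_zpowers (x := f x) (y := (f x) ^ j)).2 ⟨j, rfl⟩
          exact ⟨j', hj'.symm⟩
        obtain ⟨j', hj'⟩ := h6
        rw [hj']
        exact key j' v hv
      exact h3 (mem_zpowers _)
    rcases hs.eq_bot_or_eq_top_of_normal _ h2 with h3 | h3
    · exact hw1 (zpowers_eq_bot.1 h3)
    · apply hns
      refine isSolvable_of_comm (fun a b => ?_)
      have ha : a ∈ zpowers w := by rw [h3]; exact mem_top a
      have hb : b ∈ zpowers w := by rw [h3]; exact mem_top b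
      obtain ⟨i, rfl⟩ := mem_zpowers_iff.1 ha
      obtain ⟨j, rfl⟩ := mem_zpowers_iff.1 hb
      exact ((Commute.refl w).zpow_zpow i j)
  obtain ⟨L, hL⟩ : ∃ L, L = D.comap f := ⟨_, rfl⟩
  have hLtop : L ≠ ⊤ := by
    intro h1
    apply hDtop
    rw [eq_top_iff]
    intro γ _
    obtain ⟨γ, rfl⟩ := hfs γ
    have : γ ∈ L := by rw [h1]; exact mem_top γ
    rw [hL] at this
    exact this
  have hLs := hmin L hLtop
  have hLF := solv_case hLs (h.sub L)
  have hKnil : Group.IsNilpotent ((⊤ : Subgroup L).lowerCentralSeries k) :=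
    H1.isNilpotent_of_le hLF (H1.fitting_isNilpotent L)
  have hKn : ((⊤ : Subgroup L).lowerCentralSeries k).Normal := inferInstance
  obtain ⟨W', hW'⟩ := exists_pels s hKnil
  have hxL : x ∈ L := by rw [hL]; exact hxD
  -- elements of the lower central series above ⟨w⟩
  have hlift : ∀ j : ℕ, ∀ v ∈ zpowers w, ∃ κ ∈ (⊤ : Subgroup L).lowerCentralSeries j, f (κ : G) = v := by
    intro j
    induction j with
    | zero =>
      intro v hv
      obtain ⟨κ, rfl⟩ := hfs v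
      have h1 : κ ∈ L := by
        rw [hL]
        show f κ ∈ D
        rw [hD]; exact mem_sup_left hv
      exact ⟨⟨κ, h1⟩, mem_top _, rfl⟩
    | succ j ih =>
      intro v hv
      -- square root
      obtain ⟨v1, hv1, hv12⟩ : ∃ v1 ∈ zpowers w, v1 * v1 = v := by
        have hvo : Odd (orderOf v) := by
          have h1 : orderOf v ∣ s ^ c := by
            obtain ⟨i, rfl⟩ := mem_zpowers_iff.1 hv
            apply orderOf_dvd_of_pow_eq_one
            rw [← zpow_natCast, zpow_comm, zpow_natCast, hwc, one_zpow]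
          exact Odd.of_dvd_nat ((hs'.odd_of_ne_two hs2).pow) h1
        obtain ⟨d, hd⟩ := hvo
        refine ⟨v ^ (d + 1), pow_mem hv _, ?_⟩
        rw [← pow_add]
        have e : d + 1 + (d + 1) = orderOf v + 1 := by omega
        rw [e, pow_succ, pow_orderOf_eq_one, one_mul]
      obtain ⟨κ, hκ, hκv⟩ := ih v1 hv1
      refine ⟨κ * ⟨x, hxL⟩ * κ⁻¹ * ⟨x, hxL⟩⁻¹, ?_, ?_⟩
      · rw [Subgroup.lowerCentralSeries_succ]
        exact commutator_mem_commutator hκ (mem_top _)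
      · push_cast
        rw [map_mul, map_mul, map_mul, map_inv, map_inv, hκv]
        have h1 := hinvz _ (inv_mem hv1)
        rw [inv_inv] at h1
        calc v1 * f x * v1⁻¹ * (f x)⁻¹ = v1 * (f x * v1⁻¹ * (f x)⁻¹) := by group
          _ = v1 * v1 := by rw [h1]
          _ = v := hv12
  obtain ⟨κ, hκ, hκw⟩ := hlift k w (mem_zpowers w)
  obtain ⟨d, m', hm', hne'⟩ := Nat.exists_eq_pow_mul_and_not_dvd (orderOf_pos κ).ne' s hs'.ne_one
  have hκW : κ ^ m' ∈ W' := (hW' _).2 ⟨pow_mem hκ m', d, by rw [← pow_mul, mul_comm, ← hne', pow_orderOf_eq_one]⟩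
  have hcomm := KL h Nat.prime_two hs' hs2 hxV (hRel x hxR) (W := W'.map L.subtype) (by
      rintro _ ⟨v, hv, rfl⟩
      obtain ⟨-, i, hi⟩ := (hW' v).1 hv
      exact ⟨i, by rw [← map_pow, hi, map_one]⟩) (by
      rintro _ ⟨v, hv, rfl⟩
      exact ⟨⟨x, hxL⟩ * v * ⟨x, hxL⟩⁻¹, conj_pels hW' (fun z hz => hKn.conj_mem z hz _) v hv, rfl⟩)
    (L.subtype (κ ^ m')) (mem_map_of_mem _ hκW)
  have h1 : f x * w ^ m' = w ^ m' * f x := by
    have := congrArg f hcomm
    rw [map_mul, map_mul] at this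
    have e : f (L.subtype (κ ^ m')) = w ^ m' := by
      show f ((κ ^ m' : L) : G) = w ^ m'
      push_cast
      rw [map_pow, hκw]
    rwa [e] at this
  have h2 := hinvz (w ^ m') (pow_mem (mem_zpowers w) m')
  rw [h1, mul_inv_cancel_right] at h2
  have h3 : w ^ (m' * 2) = 1 := by
    rw [pow_mul, pow_two]
    nth_rewrite 2 [h2]
    rw [mul_inv_cancel]
  have h4 : w ∈ (⊥ : Subgroup Γ) := by
    refine mem_of_coprime_pow (k := m' * 2) (p := s ^ c) ?_ (by rw [mem_bot]; exact h3) (by rw [mem_bot]; exact hwc)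
    apply Nat.Coprime.pow_right
    apply Nat.Coprime.mul_left
    · exact ((Nat.Prime.coprime_iff_not_dvd hs').2 hm').symm
    · exact (Nat.coprime_primes Nat.prime_two hs').2 (Ne.symm hs2)
  rw [mem_bot] at h4
  exact hw1 h4

end

theorem solvable_of_cond {k : ℕ} : ∀ (n : ℕ) (G : Type u) [Group G] [Finite G], Nat.card G = n → Cond k G →
    Group.IsSolvable G := by
  intro n
  induction n using Nat.strong_induction_on with
  | _ n ih =>
  intro G _ _ hn h
  by_contra hns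
  have hmin : ∀ L : Subgroup G, L ≠ ⊤ → Group.IsSolvable L := by
    intro L hL
    refine ih (Nat.card L) ?_ L rfl (h.sub L)
    rw [← hn]
    exact lt_of_le_of_ne (Nat.le_of_dvd Nat.card_pos (Subgroup.card_subgroup_dvd_card L))
      (fun h1 => hL (Subgroup.eq_top_of_card_eq L h1))
  -- a maximal normal subgroup
  haveI : Nontrivial G := by
    by_contra h1
    rw [not_nontrivial_iff_subsingleton] at h1
    exact hns inferInstance
  obtain ⟨M, ⟨hMn, hM1⟩, hMmax⟩ := Set.Finite.exists_maximal (Set.toFinite {M : Subgroup G | M.Normal ∧ M ≠ ⊤})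
    ⟨⊥, inferInstance, bot_ne_top⟩
  haveI := hMn
  have hMs := hmin M hM1
  have hsimple : IsSimpleGroup (G ⧸ M) := by
    haveI : Nontrivial (G ⧸ M) := by rw [QuotientGroup.nontrivial_iff]; exact hM1
    refine ⟨fun K hK => ?_⟩
    by_cases hKtop : K = ⊤
    · exact Or.inr hKtop
    left
    have h1 : (K.comap (QuotientGroup.mk' M)).Normal := inferInstance
    have h2 : M ≤ K.comap (QuotientGroup.mk' M) := by
      intro m hm
      show QuotientGroup.mk' M m ∈ K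
      have : QuotientGroup.mk' M m = 1 := (QuotientGroup.eq_one_iff m).2 hm
      rw [this]; exact one_mem _
    have h3 : K.comap (QuotientGroup.mk' M) ≠ ⊤ := by
      intro h3
      apply hKtop
      rw [← map_comap_eq_self_of_surjective (QuotientGroup.mk'_surjective M) K, h3]
      exact map_top_of_surjective _ (QuotientGroup.mk'_surjective M)
    have h4 := hMmax ⟨h1, h3⟩ h2
    rw [eq_bot_iff]
    intro κ hκ
    obtain ⟨κ, rfl⟩ := QuotientGroup.mk'_surjective M κ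
    rw [mem_bot]
    exact (QuotientGroup.eq_one_iff κ).2 (h4 hκ)
  refine nonsolv h hmin (QuotientGroup.mk' M) (QuotientGroup.mk'_surjective M) hsimple ?_
  intro hq
  apply hns
  exact solvable_of_ker_le_range M.subtype (QuotientGroup.mk' M) (by simp)

theorem main_forward [Finite G] {k : ℕ} (h : Cond k G) :
    Group.IsNilpotent ((⊤ : Subgroup G).lowerCentralSeries k) :=
  H1.isNilpotent_of_le (solv_case (solvable_of_cond _ G rfl h) h) (H1.fitting_isNilpotent G)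

end Cfsg.Agent.H23.LC
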