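import Mathlib.NumberTheory.Multiplicity
import Mathlib.Analysis.SpecialFunctions.Complex.CircleAddChar
import Mathlib.Algebra.Ring.GeomSum
import Mathlib.Data.ZMod.Units

set_option autoImplicit false
set_option linter.all false

/-!
# Arithmetic for metacyclic p-groups of odd order, seat helper23
-/

namespace Cfsg.Agent.H23

section lam
variable {R : Type*}

/-- `1 + r + ⋯ + r^(m-1)` -/
def lam [Semiring R] (r : R) (m : ℕ) : R := ∑ i ∈ Finset.range m, r ^ i

theorem lam_zero [Semiring R] (r : R) : lam r 0 = 0 := by simp [lam]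
theorem lam_one [Semiring R] (r : R) : lam r 1 = 1 := by simp [lam]
theorem lam_succ [Semiring R] (r : R) (m : ℕ) : lam r (m + 1) = lam r m + r ^ m := Finset.sum_range_succ _ _

theorem lam_add [Semiring R] (r : R) (m k : ℕ) : lam r (m + k) = lam r m + r ^ m * lam r k := by
  unfold lam
  rw [Finset.sum_range_add, Finset.mul_sum]
  congr 1
  exact Finset.sum_congr rfl fun i _ => pow_add _ _ _

theorem lam_mul_sub [CommRing R] (r : R) (m : ℕ) : (r - 1) * lam r m = r ^ m - 1 := by
  rw [mul_comm]; exact geom_sum_mul r m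

theorem cast_lam [Semiring R] (r m : ℕ) : ((lam r m : ℕ) : R) = lam (r : R) m := by
  unfold lam; push_cast; rfl

theorem lam_of_one [Semiring R] (m : ℕ) : lam (1 : R) m = m := by simp [lam]

theorem emult_lam {p : ℕ} (hp : p.Prime) (hp2 : p ≠ 2) {r : ℕ} (hr : r ≡ 1 [MOD p]) (m : ℕ) :
    emultiplicity p (lam r m) = emultiplicity p m := by
  rcases Nat.lt_or_ge r 2 with h | h
  · interval_cases r
    · exfalso
      have := (Nat.modEq_iff_dvd' (by norm_num : 0 ≤ 1)).mp hr
      exact hp.one_lt.ne' (Nat.dvd_one.mp this)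
    · rw [lam_of_one]; simp
  · have hd : p ∣ r - 1 := (Nat.modEq_iff_dvd' (by omega)).mp hr.symm
    have hnd : ¬ p ∣ r := by
      intro h1
      have h2 : p ∣ r - (r - 1) := Nat.dvd_sub h1 hd
      have h3 : r - (r - 1) = 1 := by omega
      rw [h3] at h2
      exact hp.one_lt.ne' (Nat.dvd_one.mp h2)
    have h1 := Nat.emultiplicity_pow_sub_pow hp (hp.odd_of_ne_two hp2) (y := 1) hd hnd m
    have h2 : r ^ m - 1 ^ m = (r - 1) * lam r m := by
      zify [show 1 ≤ r by omega, show 1 ^ m ≤ r ^ m from Nat.pow_le_pow_left (by omega) m]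
      rw [cast_lam, lam_mul_sub, one_pow]
    rw [h2, emultiplicity_mul hp.prime] at h1
    have hfin : FiniteMultiplicity p (r - 1) := Nat.finiteMultiplicity_iff.mpr ⟨hp.ne_one, by omega⟩
    rw [hfin.emultiplicity_eq_multiplicity] at h1
    exact ENat.add_right_injective_of_ne_top (ENat.coe_ne_top _) h1

theorem pow_dvd_lam_iff {p : ℕ} (hp : p.Prime) (hp2 : p ≠ 2) {r : ℕ} (hr : r ≡ 1 [MOD p]) (k m : ℕ) :
    p ^ k ∣ lam r m ↔ p ^ k ∣ m := by
  rw [pow_dvd_iff_le_emultiplicity, pow_dvd_iff_le_emultiplicity, emult_lam hp hp2 hr]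

theorem coprime_of_modEq_one {p : ℕ} (hp : p.Prime) {r : ℕ} (hr : r ≡ 1 [MOD p]) : r.Coprime p := by
  have := hr.gcd_eq
  rw [Nat.coprime_iff_gcd_eq_one, this, Nat.gcd_one_left]

theorem lam_surj {p : ℕ} (hp : p.Prime) (hp2 : p ≠ 2) {r : ℕ} (hr : r ≡ 1 [MOD p]) (n : ℕ) (t : ZMod (p ^ n)) :
    ∃ m : ℕ, lam (r : ZMod (p ^ n)) m = t := by
  haveI : NeZero (p ^ n) := ⟨(pow_pos hp.pos n).ne'⟩
  let f : Fin (p ^ n) → ZMod (p ^ n) := fun i => lam (r : ZMod (p ^ n)) i
  have hinj : Function.Injective f := by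
    have key : ∀ i j : ℕ, i ≤ j → j < p ^ n → lam (r : ZMod (p ^ n)) i = lam (r : ZMod (p ^ n)) j → i = j := by
      intro i j hij hj h
      obtain ⟨d, rfl⟩ := Nat.exists_eq_add_of_le hij
      rw [lam_add, left_eq_add, ← cast_lam, ← Nat.cast_pow, ← Nat.cast_mul, ZMod.natCast_eq_zero_iff] at h
      have h1 : (p ^ n).Coprime (r ^ i) := Nat.Coprime.pow _ _ (coprime_of_modEq_one hp hr).symm
      have h2 := (pow_dvd_lam_iff hp hp2 hr n d).mp (h1.dvd_of_dvd_mul_left h)
      have h3 : d = 0 := Nat.eq_zero_of_dvd_of_lt h2 (by omega)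
      omega
    intro i j hij
    apply Fin.ext
    rcases le_total (i : ℕ) j with h | h
    · exact key i j h j.2 hij
    · exact (key j i h i.2 hij.symm).symm
  have hbij : Function.Bijective f :=
    (Fintype.bijective_iff_injective_and_card f).mpr ⟨hinj, by rw [Fintype.card_fin, ZMod.card]⟩
  obtain ⟨i, hi⟩ := hbij.2 t
  exact ⟨i, hi⟩

end lam

section perp
variable {N : ℕ}

/-- the determinant pairing -/
def dt (x y : ZMod N × ZMod N) : ZMod N := x.2 * y.1 - x.1 * y.2

theorem dt_add_left (x x' y : ZMod N × ZMod N) : dt (x + x') y = dt x y + dt x' y := by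
  simp only [dt, Prod.fst_add, Prod.snd_add]; ring
theorem dt_add_right (x y y' : ZMod N × ZMod N) : dt x (y + y') = dt x y + dt x y' := by
  simp only [dt, Prod.fst_add, Prod.snd_add]; ring
theorem dt_smul_left (t : ZMod N) (x y : ZMod N × ZMod N) : dt (t • x) y = t * dt x y := by
  simp only [dt, Prod.smul_fst, Prod.smul_snd, smul_eq_mul]; ring
theorem dt_smul_right (t : ZMod N) (x y : ZMod N × ZMod N) : dt x (t • y) = t * dt x y := by
  simp only [dt, Prod.smul_fst, Prod.smul_snd, smul_eq_mul]; ring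
theorem dt_self (x : ZMod N × ZMod N) : dt x x = 0 := by simp only [dt]; ring
theorem dt_zero_left (y : ZMod N × ZMod N) : dt 0 y = 0 := by simp [dt]
theorem dt_zero_right (y : ZMod N × ZMod N) : dt y 0 = 0 := by simp [dt]
theorem dt_swap (x y : ZMod N × ZMod N) : dt y x = - dt x y := by simp only [dt]; ring
theorem dt_eq_zero_comm {x y : ZMod N × ZMod N} : dt x y = 0 ↔ dt y x = 0 := by rw [dt_swap x y, neg_eq_zero]
theorem eq_zero_of_dt {x : ZMod N × ZMod N} (h : ∀ y, dt x y = 0) : x = 0 := by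
  have h1 := h (1, 0)
  have h2 := h (0, 1)
  simp only [dt, mul_one, mul_zero, sub_zero, zero_sub, neg_eq_zero] at h1 h2
  exact Prod.ext h2 h1

/-- orthogonal complement -/
def prp (W : AddSubgroup (ZMod N × ZMod N)) : AddSubgroup (ZMod N × ZMod N) where
  carrier := {y | ∀ x ∈ W, dt x y = 0}
  zero_mem' := fun x _ => dt_zero_right x
  add_mem' := fun {y y'} hy hy' x hx => by rw [dt_add_right, hy x hx, hy' x hx, add_zero]
  neg_mem' := fun {y} hy x hx => by
    have h1 := hy x hx
    have h2 : dt x (-y) = - dt x y := by simp only [dt, Prod.fst_neg, Prod.snd_neg]; ring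
    rw [h2, h1, neg_zero]

theorem mem_prp {W : AddSubgroup (ZMod N × ZMod N)} {y : ZMod N × ZMod N} : y ∈ prp W ↔ ∀ x ∈ W, dt x y = 0 := Iff.rfl

open Classical in
theorem card_mul_card_prp [NeZero N] (W : AddSubgroup (ZMod N × ZMod N)) :
    Nat.card W * Nat.card (prp W) = N ^ 2 := by
  let ψ : AddChar (ZMod N) ℂ := ZMod.stdAddChar
  have hinj : Function.Injective ψ := ZMod.injective_stdAddChar
  let χl : ZMod N × ZMod N → AddChar W ℂ := fun y =>
    { toFun := fun x => ψ (dt (x : ZMod N × ZMod N) y)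
      map_zero_eq_one' := by simp [dt_zero_left]
      map_add_eq_mul' := fun a b => by rw [AddSubgroup.coe_add, dt_add_left, AddChar.map_add_eq_mul] }
  let χr : ZMod N × ZMod N → AddChar (ZMod N × ZMod N) ℂ := fun x =>
    { toFun := fun y => ψ (dt x y)
      map_zero_eq_one' := by simp [dt_zero_right]
      map_add_eq_mul' := fun a b => by rw [dt_add_right, AddChar.map_add_eq_mul] }
  have h1 : ∀ y, ∑ x : W, ψ (dt (x : ZMod N × ZMod N) y) = if y ∈ prp W then (Fintype.card W : ℂ) else 0 := by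
    intro y
    have := AddChar.sum_eq_ite (χl y)
    have h2 : (χl y = 0) ↔ y ∈ prp W := by
      constructor
      · intro h x hx
        have h3 := DFunLike.congr_fun h ⟨x, hx⟩
        have h4 : ψ (dt x y) = 1 := h3
        rw [← ψ.map_zero_eq_one] at h4
        exact hinj h4
      · intro h
        ext x
        show ψ (dt (x : ZMod N × ZMod N) y) = 1
        rw [h x x.2, ψ.map_zero_eq_one]
    rw [if_congr h2 rfl rfl] at this
    exact this
  have h2 : ∀ x : W, ∑ y, ψ (dt (x : ZMod N × ZMod N) y) = if x = 0 then (Fintype.card (ZMod N × ZMod N) : ℂ) else 0 := by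
    intro x
    have := AddChar.sum_eq_ite (χr x)
    have h2 : (χr x = 0) ↔ x = 0 := by
      constructor
      · intro h
        apply Subtype.ext
        apply eq_zero_of_dt
        intro y
        have h3 := DFunLike.congr_fun h y
        have h4 : ψ (dt x y) = 1 := h3
        rw [← ψ.map_zero_eq_one] at h4
        exact hinj h4
      · intro h
        ext y
        show ψ (dt (x : ZMod N × ZMod N) y) = 1
        rw [h, AddSubgroup.coe_zero, dt_zero_left, ψ.map_zero_eq_one]
    rw [if_congr h2 rfl rfl] at this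
    exact this
  have h3 : ∑ y, ∑ x : W, ψ (dt (x : ZMod N × ZMod N) y) = ∑ x : W, ∑ y, ψ (dt (x : ZMod N × ZMod N) y) :=
    Finset.sum_comm
  simp only [h1, h2] at h3
  rw [Finset.sum_ite_eq' Finset.univ (0 : W), if_pos (Finset.mem_univ _), ← Finset.sum_filter, Finset.sum_const, nsmul_eq_mul,
    Fintype.card_prod, ZMod.card] at h3
  have h4 : (Finset.univ.filter (fun y => y ∈ prp W)).card = Nat.card (prp W) := by
    rw [Nat.card_eq_fintype_card, ← Fintype.card_subtype]
  rw [h4, ← Nat.card_eq_fintype_card] at h3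
  have h5 : Nat.card (prp W) * Nat.card W = N * N := by exact_mod_cast h3
  rw [mul_comm, h5]; ring

theorem card_le_of_isotropic [NeZero N] (W : AddSubgroup (ZMod N × ZMod N)) (h : W ≤ prp W) : Nat.card W ≤ N := by
  have h1 := card_mul_card_prp W
  have h2 : Nat.card W ≤ Nat.card (prp W) := Nat.card_le_card_of_injective (AddSubgroup.inclusion h) (AddSubgroup.inclusion_injective h)
  have h3 : Nat.card W * Nat.card W ≤ N * N := by
    calc Nat.card W * Nat.card W ≤ Nat.card W * Nat.card (prp W) := Nat.mul_le_mul_left _ h2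
      _ = N * N := by rw [h1]; ring
  by_contra hcon
  push Not at hcon
  have := Nat.mul_lt_mul'' hcon hcon
  omega

end perp

end Cfsg.Agent.H23
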