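import Cfsg.Agent.H23.Metacyc
import Cfsg.Prelude.Def_OddOrderLocal
import Mathlib.GroupTheory.PGroup
import Mathlib.GroupTheory.Commutator.Basic
import Mathlib.FieldTheory.Finite.Basic

set_option autoImplicit false
set_option linter.all false

/-!
# Metacyclic p-groups of odd order, II, seat helper23
-/

namespace Cfsg.Agent.H23

open Subgroup
open scoped commutatorElement

/-- `G = ⟨a⟩⟨b⟩` with `b a b⁻¹ = a ^ r`, `r ≡ 1 mod p`. -/
structure MC (p : ℕ) {G : Type*} [Group G] (a b : G) (r : ℕ) : Prop where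
  gen : ∀ g : G, ∃ i j : ℕ, g = a ^ i * b ^ j
  conj : b * a = a ^ r * b
  hr : r ≡ 1 [MOD p]

theorem exists_MC {G : Type*} [Group G] [Finite G] {p : ℕ} [hp : Fact p.Prime] (hG : IsPGroup p G)
    (hmc : Cfsg.IsMetacyclic G) : ∃ (a b : G) (r : ℕ), MC p a b r := by
  obtain ⟨N, hN, hN1, hN2⟩ := hmc
  obtain ⟨⟨a, ha⟩, hgen⟩ := hN1
  obtain ⟨b', hb'⟩ := hN2
  obtain ⟨b, rfl⟩ := QuotientGroup.mk_surjective b'
  have hNa : ∀ x ∈ N, ∃ i : ℕ, x = a ^ i := by
    intro x hx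
    have h1 := mem_powers_iff_mem_zpowers.mpr (hgen ⟨x, hx⟩)
    obtain ⟨i, hi⟩ := h1
    refine ⟨i, ?_⟩
    have := congrArg Subtype.val hi
    exact this.symm
  have hgen2 : ∀ g : G, ∃ i j : ℕ, g = a ^ i * b ^ j := by
    intro g
    obtain ⟨j, hj⟩ := mem_powers_iff_mem_zpowers.mpr (hb' (g : G ⧸ N))
    have h1 : g * (b ^ j)⁻¹ ∈ N := by
      have h2 : ((b ^ j : G) : G ⧸ N) = (g : G ⧸ N) := hj
      have h3 := (QuotientGroup.eq (s := N)).mp h2
      have h4 := hN.conj_mem _ h3 (b ^ j)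
      have h5 : b ^ j * ((b ^ j)⁻¹ * g) * (b ^ j)⁻¹ = g * (b ^ j)⁻¹ := by group
      rwa [h5] at h4
    obtain ⟨i, hi⟩ := hNa _ h1
    exact ⟨i, j, by rw [← hi]; group⟩
  by_cases ha1 : a = 1
  · exact ⟨a, b, 1, hgen2, by rw [ha1]; simp, rfl⟩
  obtain ⟨r, hr⟩ := hNa _ (hN.conj_mem a ha b)
  refine ⟨a, b, r, hgen2, ?_, ?_⟩
  · rw [← hr]; group
  · -- r ^ (p^k) ≡ 1 mod p
    have hpow : ∀ m : ℕ, b ^ m * a * (b ^ m)⁻¹ = a ^ (r ^ m) := by
      intro m
      induction m with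
      | zero => simp
      | succ m ih =>
        have h1 : b ^ (m + 1) * a * (b ^ (m + 1))⁻¹ = b * (b ^ m * a * (b ^ m)⁻¹) * b⁻¹ := by rw [pow_succ']; group
        rw [h1, ih]
        have h2 : b * a ^ (r ^ m) * b⁻¹ = (b * a * b⁻¹) ^ (r ^ m) := by
          rw [← MulAut.conj_apply, map_pow, MulAut.conj_apply]
        rw [h2, hr, ← pow_mul, pow_succ']
    obtain ⟨k, hk⟩ := (IsPGroup.iff_orderOf.mp hG) b
    have h1 := hpow (p ^ k)
    rw [← hk, pow_orderOf_eq_one, hk] at h1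
    simp only [one_mul, inv_one, mul_one] at h1
    have h2 : a ^ 1 = a ^ (r ^ p ^ k) := by rw [pow_one]; exact h1
    rw [pow_eq_pow_iff_modEq] at h2
    have h3 : p ∣ orderOf a := by
      obtain ⟨l, hl⟩ := (IsPGroup.iff_orderOf.mp hG) a
      rw [hl]
      refine dvd_pow_self p ?_
      rintro rfl
      rw [pow_zero, orderOf_eq_one_iff] at hl
      exact ha1 hl
    have h4 : 1 ≡ r ^ p ^ k [MOD p] := h2.of_dvd h3
    rw [← ZMod.natCast_eq_natCast_iff] at h4 ⊢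
    push_cast at h4 ⊢
    rw [ZMod.pow_card_pow] at h4
    exact h4.symm

namespace MC
variable {p : ℕ} {G : Type*} [Group G] {a b : G} {r : ℕ}

theorem one_le (h : MC p a b r) (hp : p.Prime) : 1 ≤ r := by
  by_contra hcon
  have h0 : r = 0 := by omega
  have := (Nat.modEq_iff_dvd' (by norm_num : 0 ≤ 1)).mp (h0 ▸ h.hr)
  exact hp.one_lt.ne' (Nat.dvd_one.mp this)

theorem pow_mul (h : MC p a b r) (j i : ℕ) : b ^ j * a ^ i = a ^ (i * r ^ j) * b ^ j := by
  have h1 : ∀ i : ℕ, b * a ^ i = a ^ (i * r) * b := by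
    intro i
    induction i with
    | zero => simp
    | succ i ih =>
      calc b * a ^ (i + 1) = (b * a ^ i) * a := by rw [pow_succ]; group
        _ = a ^ (i * r) * (b * a) := by rw [ih]; group
        _ = a ^ (i * r) * a ^ r * b := by rw [h.conj]; group
        _ = a ^ ((i + 1) * r) * b := by rw [← pow_add]; congr 2; ring
  induction j with
  | zero => simp
  | succ j ih =>
    calc b ^ (j + 1) * a ^ i = b * (b ^ j * a ^ i) := by rw [pow_succ']; group
      _ = b * a ^ (i * r ^ j) * b ^ j := by rw [ih]; group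
      _ = a ^ (i * r ^ j * r) * b * b ^ j := by rw [h1]
      _ = a ^ (i * r ^ (j + 1)) * b ^ (j + 1) := by rw [mul_assoc, ← pow_succ', pow_succ r]; congr 2; ring

theorem mul_eq (h : MC p a b r) (i j k l : ℕ) :
    (a ^ i * b ^ j) * (a ^ k * b ^ l) = a ^ (i + k * r ^ j) * b ^ (j + l) := by
  calc (a ^ i * b ^ j) * (a ^ k * b ^ l) = a ^ i * (b ^ j * a ^ k) * b ^ l := by group
    _ = a ^ i * a ^ (k * r ^ j) * (b ^ j * b ^ l) := by rw [h.pow_mul]; group
    _ = _ := by rw [← pow_add, ← pow_add]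

theorem c_eq (h : MC p a b r) : ⁅b, a⁆ = a ^ ((r : ℤ) - 1) := by
  rw [commutatorElement_def, h.conj, zpow_sub, zpow_one, zpow_natCast]; group

theorem comm_formula (h : MC p a b r) (i j k l : ℕ) :
    ⁅a ^ i * b ^ j, a ^ k * b ^ l⁆ = ⁅b, a⁆ ^ ((lam (r : ℤ) j) * k - i * (lam (r : ℤ) l)) := by
  rw [h.c_eq, ← zpow_mul]
  have h1 : ⁅a ^ i * b ^ j, a ^ k * b ^ l⁆ = ((a ^ i * b ^ j) * (a ^ k * b ^ l)) * ((a ^ k * b ^ l) * (a ^ i * b ^ j))⁻¹ := by
    rw [commutatorElement_def]; group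
  rw [h1, h.mul_eq, h.mul_eq, add_comm l j]
  have h2 : a ^ (i + k * r ^ j) * b ^ (j + l) * (a ^ (k + i * r ^ l) * b ^ (j + l))⁻¹ =
      a ^ (((i + k * r ^ j : ℕ) : ℤ) - ((k + i * r ^ l : ℕ) : ℤ)) := by
    rw [zpow_sub, zpow_natCast, zpow_natCast]; group
  rw [h2]
  congr 1
  have e1 := lam_mul_sub (r : ℤ) j
  have e2 := lam_mul_sub (r : ℤ) l
  push_cast
  calc (i : ℤ) + k * r ^ j - (k + i * r ^ l) = k * (r ^ j - 1) - i * (r ^ l - 1) := by ring
    _ = k * ((r - 1) * lam (r : ℤ) j) - i * ((r - 1) * lam (r : ℤ) l) := by rw [e1, e2]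
    _ = (r - 1) * (lam (r : ℤ) j * k - i * lam (r : ℤ) l) := by ring

/-- order of the derived subgroup -/
noncomputable def NN (h : MC p a b r) : ℕ := orderOf ⁅b, a⁆

theorem zpow_c_eq_one (h : MC p a b r) (z : ℤ) : ⁅b, a⁆ ^ z = 1 ↔ (z : ZMod h.NN) = 0 := by
  rw [← orderOf_dvd_iff_zpow_eq_one, ZMod.intCast_zmod_eq_zero_iff_dvd]; rfl

theorem cast_lam_int {N : ℕ} (r : ℕ) (j : ℕ) : ((lam (r : ℤ) j : ℤ) : ZMod N) = lam (r : ZMod N) j := by
  unfold lam; push_cast; rfl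

noncomputable def ii (h : MC p a b r) (g : G) : ℕ := (h.gen g).choose
noncomputable def jj (h : MC p a b r) (g : G) : ℕ := (h.gen g).choose_spec.choose
theorem ij_spec (h : MC p a b r) (g : G) : g = a ^ h.ii g * b ^ h.jj g := (h.gen g).choose_spec.choose_spec

/-- the coordinate cocycle -/
noncomputable def ph (h : MC p a b r) (g : G) : ZMod h.NN × ZMod h.NN := (h.ii g, lam (r : ZMod h.NN) (h.jj g))

theorem comm_eq_one_iff_aux (h : MC p a b r) (i j k l : ℕ) :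
    ⁅a ^ i * b ^ j, a ^ k * b ^ l⁆ = 1 ↔ lam (r : ZMod h.NN) j * k - i * lam (r : ZMod h.NN) l = 0 := by
  rw [h.comm_formula, h.zpow_c_eq_one]
  push_cast
  rw [cast_lam_int, cast_lam_int]

theorem ph_eq (h : MC p a b r) {g : G} {i j : ℕ} (hg : g = a ^ i * b ^ j) :
    h.ph g = ((i : ZMod h.NN), lam (r : ZMod h.NN) j) := by
  have h0 := h.ij_spec g
  set i' := h.ii g with hi'
  set j' := h.jj g with hj'
  have key : ∀ k l : ℕ, lam (r : ZMod h.NN) j' * k - i' * lam (r : ZMod h.NN) l =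
      lam (r : ZMod h.NN) j * k - i * lam (r : ZMod h.NN) l := by
    intro k l
    have e1 := h.comm_formula i' j' k l
    have e2 := h.comm_formula i j k l
    rw [← h0] at e1
    rw [← hg] at e2
    have e3 := (e1.symm.trans e2)
    rw [← mul_inv_eq_one, ← zpow_neg, ← zpow_add, h.zpow_c_eq_one] at e3
    push_cast at e3
    rw [cast_lam_int, cast_lam_int, cast_lam_int] at e3
    rw [← sub_eq_zero, sub_eq_add_neg]
    exact e3
  have k1 := key 1 0
  have k2 := key 0 1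
  rw [lam_zero, mul_zero, mul_zero, sub_zero, sub_zero, Nat.cast_one, mul_one, mul_one] at k1
  rw [lam_one, mul_one, mul_one, Nat.cast_zero, mul_zero, mul_zero, zero_sub, zero_sub, neg_inj] at k2
  exact Prod.ext k2 k1

theorem comm_iff (h : MC p a b r) (g k : G) : ⁅g, k⁆ = 1 ↔ dt (h.ph g) (h.ph k) = 0 := by
  have h1 := h.comm_eq_one_iff_aux (h.ii g) (h.jj g) (h.ii k) (h.jj k)
  rw [← h.ij_spec g, ← h.ij_spec k] at h1
  rw [h1]
  rfl

theorem comm_mem (h : MC p a b r) (g k : G) : ⁅g, k⁆ ∈ zpowers ⁅b, a⁆ := by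
  have h1 := h.comm_formula (h.ii g) (h.jj g) (h.ii k) (h.jj k)
  rw [← h.ij_spec g, ← h.ij_spec k] at h1
  exact ⟨_, h1.symm⟩

theorem commutator_eq (h : MC p a b r) : commutator G = zpowers ⁅b, a⁆ := by
  apply le_antisymm
  · rw [_root_.commutator_def, commutator_le]
    intro g _ k _
    exact h.comm_mem g k
  · rw [zpowers_le, _root_.commutator_def]
    exact commutator_mem_commutator (mem_top _) (mem_top _)

theorem card_commutator (h : MC p a b r) : Nat.card (commutator G) = h.NN := by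
  rw [h.commutator_eq, Nat.card_zpowers]; rfl

/-- the multiplier -/
noncomputable def ch (h : MC p a b r) (g : G) : ZMod h.NN := 1 + ((r : ZMod h.NN) - 1) * (h.ph g).2

theorem ch_eq (h : MC p a b r) {g : G} {i j : ℕ} (hg : g = a ^ i * b ^ j) : h.ch g = (r : ZMod h.NN) ^ j := by
  unfold ch
  rw [h.ph_eq hg, lam_mul_sub]; ring

theorem ph_mul (h : MC p a b r) (g k : G) : h.ph (g * k) = h.ph g + h.ch g • h.ph k := by
  have e1 := h.ij_spec g
  have e2 := h.ij_spec k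
  have e3 : g * k = a ^ (h.ii g + h.ii k * r ^ h.jj g) * b ^ (h.jj g + h.jj k) := by
    rw [← h.mul_eq, ← e1, ← e2]
  rw [h.ph_eq e3, h.ch_eq e1]
  apply Prod.ext
  · simp only [ph, Prod.fst_add, Prod.smul_fst, smul_eq_mul]
    push_cast
    ring
  · simp only [ph, Prod.snd_add, Prod.smul_snd, smul_eq_mul]
    rw [lam_add]

theorem ph_one (h : MC p a b r) : h.ph 1 = 0 := by
  rw [h.ph_eq (i := 0) (j := 0) (by simp), lam_zero, Nat.cast_zero]; rfl

theorem ch_one (h : MC p a b r) : h.ch 1 = 1 := by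
  rw [h.ch_eq (i := 0) (j := 0) (by simp), pow_zero]

theorem ch_mul (h : MC p a b r) (g k : G) : h.ch (g * k) = h.ch g * h.ch k := by
  unfold ch
  rw [h.ph_mul]
  simp only [Prod.snd_add, Prod.smul_snd, smul_eq_mul, ch]
  ring

theorem ch_pow (h : MC p a b r) (g : G) (m : ℕ) : h.ch (g ^ m) = h.ch g ^ m := by
  induction m with
  | zero => rw [pow_zero, pow_zero, h.ch_one]
  | succ m ih => rw [pow_succ, pow_succ, h.ch_mul, ih]

theorem ph_pow (h : MC p a b r) (g : G) (m : ℕ) : h.ph (g ^ m) = lam (h.ch g) m • h.ph g := by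
  induction m with
  | zero => rw [pow_zero, lam_zero, zero_smul, h.ph_one]
  | succ m ih => rw [pow_succ, h.ph_mul, ih, h.ch_pow, lam_succ, add_smul]

theorem isUnit_ch (h : MC p a b r) (g : G) : IsUnit (h.ch g) := by
  refine IsUnit.of_mul_eq_one (h.ch g⁻¹) ?_
  rw [← h.ch_mul, mul_inv_cancel, h.ch_one]

theorem exists_rho (h : MC p a b r) (g : G) : ∃ ρ : ℕ, ρ ≡ 1 [MOD p] ∧ (ρ : ZMod h.NN) = h.ch g := by
  refine ⟨r ^ h.jj g, ?_, ?_⟩
  · have := h.hr.pow (h.jj g)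
    rwa [one_pow] at this
  · rw [h.ch_eq (h.ij_spec g), Nat.cast_pow]

theorem ph_eq_ph_iff (h : MC p a b r) (g k : G) : h.ph g = h.ph k ↔ h.ph (g⁻¹ * k) = 0 := by
  have h1 : h.ph k = h.ph g + h.ch g • h.ph (g⁻¹ * k) := by rw [← h.ph_mul, mul_inv_cancel_left]
  rw [h1, left_eq_add]
  constructor
  · intro h2
    obtain ⟨u, hu⟩ := h.isUnit_ch g
    have h3 : ((↑u⁻¹ : ZMod h.NN) * h.ch g) • h.ph (g⁻¹ * k) = 0 := by rw [mul_smul, h2, smul_zero]
    rwa [← hu, Units.inv_mul, one_smul] at h3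
  · intro h2; rw [h2, smul_zero]

end MC

end Cfsg.Agent.H23
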