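import Cfsg.Agent.H23.Metacyc2
import Cfsg.Agent.H23.PGroup
import Mathlib.GroupTheory.Index

set_option autoImplicit false
set_option linter.all false

/-!
# Metacyclic p-groups of odd order, III, seat helper23
-/

namespace Cfsg.Agent.H23

open Subgroup
open scoped commutatorElement

namespace MC
variable {p : ℕ} {G : Type*} [Group G] {a b : G} {r : ℕ}

theorem exists_NN_eq (h : MC p a b r) (hG : IsPGroup p G) [Fact p.Prime] : ∃ n, h.NN = p ^ n :=
  (IsPGroup.iff_orderOf.mp hG) _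

theorem exists_lam_ch (h : MC p a b r) (hG : IsPGroup p G) [hp : Fact p.Prime] (hp2 : p ≠ 2) (g : G) (t : ZMod h.NN) :
    ∃ m : ℕ, lam (h.ch g) m = t := by
  obtain ⟨ρ, h1, h2⟩ := h.exists_rho g
  obtain ⟨n, hn⟩ := h.exists_NN_eq hG
  rw [← h2]
  clear h2
  generalize h.NN = N at *
  subst hn
  exact lam_surj hp.out hp2 h1 n t

theorem ph_surj (h : MC p a b r) (hG : IsPGroup p G) [hp : Fact p.Prime] (hp2 : p ≠ 2) :
    Function.Surjective h.ph := by
  intro v
  have h1 : ∃ j : ℕ, lam (r : ZMod h.NN) j = v.2 := by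
    obtain ⟨n, hn⟩ := h.exists_NN_eq hG
    have hr := h.hr
    generalize h.NN = N at *
    subst hn
    exact lam_surj hp.out hp2 hr n v.2
  obtain ⟨j, hj⟩ := h1
  have hpos : NeZero h.NN := by
    obtain ⟨n, hn⟩ := h.exists_NN_eq hG
    rw [hn]; exact ⟨(pow_pos hp.out.pos n).ne'⟩
  refine ⟨a ^ v.1.val * b ^ j, ?_⟩
  rw [h.ph_eq rfl, hj, ZMod.natCast_zmod_val]

theorem mem_center_iff' (h : MC p a b r) (hG : IsPGroup p G) [hp : Fact p.Prime] (hp2 : p ≠ 2) {g : G} :
    g ∈ center G ↔ h.ph g = 0 := by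
  rw [mem_center_iff]
  constructor
  · intro h1
    apply eq_zero_of_dt
    intro y
    obtain ⟨k, rfl⟩ := h.ph_surj hG hp2 y
    rw [← h.comm_iff, commutatorElement_eq_one_iff_mul_comm]
    exact (h1 k).symm
  · intro h1 k
    have h2 := (h.comm_iff g k).mpr (by rw [h1, dt_zero_left])
    rw [commutatorElement_eq_one_iff_mul_comm] at h2
    exact h2.symm

/-- image of a subgroup, an additive subgroup -/
noncomputable def im (h : MC p a b r) (hG : IsPGroup p G) [hp : Fact p.Prime] (hp2 : p ≠ 2) (R : Subgroup G) :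
    AddSubgroup (ZMod h.NN × ZMod h.NN) :=
  have hs : ∀ x ∈ R, ∀ t : ZMod h.NN, ∃ y ∈ R, h.ph y = t • h.ph x := by
    intro x hx t
    obtain ⟨m, hm⟩ := h.exists_lam_ch hG hp2 x t
    exact ⟨x ^ m, pow_mem hx m, by rw [h.ph_pow, hm]⟩
  { carrier := h.ph '' R
    zero_mem' := ⟨1, one_mem R, h.ph_one⟩
    add_mem' := by
      rintro _ _ ⟨x, hx, rfl⟩ ⟨y, hy, rfl⟩
      obtain ⟨u, hu⟩ := h.isUnit_ch x
      obtain ⟨z, hz, hz'⟩ := hs y hy (↑u⁻¹ : ZMod h.NN)
      refine ⟨x * z, mul_mem hx hz, ?_⟩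
      rw [h.ph_mul, hz', ← mul_smul, ← hu, Units.mul_inv, one_smul]
    neg_mem' := by
      rintro _ ⟨x, hx, rfl⟩
      obtain ⟨y, hy, hy'⟩ := hs x hx (-1)
      exact ⟨y, hy, by rw [hy', neg_smul, one_smul]⟩ }

theorem NN_neZero (h : MC p a b r) (hG : IsPGroup p G) [hp : Fact p.Prime] : NeZero h.NN := by
  obtain ⟨n, hn⟩ := h.exists_NN_eq hG
  rw [hn]; exact ⟨(pow_pos hp.out.pos n).ne'⟩

variable (hG : IsPGroup p G) [hp : Fact p.Prime] (hp2 : p ≠ 2)
include hG hp2

theorem mem_im (h : MC p a b r) {R : Subgroup G} {x : ZMod h.NN × ZMod h.NN} :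
    x ∈ h.im hG hp2 R ↔ ∃ g ∈ R, h.ph g = x := Iff.rfl

theorem smul_mem_im (h : MC p a b r) {R : Subgroup G} {x : ZMod h.NN × ZMod h.NN} (hx : x ∈ h.im hG hp2 R)
    (t : ZMod h.NN) : t • x ∈ h.im hG hp2 R := by
  obtain ⟨g, hg, rfl⟩ := hx
  obtain ⟨m, hm⟩ := h.exists_lam_ch hG hp2 g t
  exact ⟨g ^ m, pow_mem hg m, by rw [h.ph_pow, hm]⟩

/-- cardinality of preimages -/
theorem card_preimage (h : MC p a b r) (S : Set (ZMod h.NN × ZMod h.NN)) :
    Nat.card (h.ph ⁻¹' S : Set G) = Nat.card (center G) * Nat.card S := by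
  rw [← Nat.card_prod]
  let s : ZMod h.NN × ZMod h.NN → G := fun v => (h.ph_surj hG hp2 v).choose
  have hs : ∀ v, h.ph (s v) = v := fun v => (h.ph_surj hG hp2 v).choose_spec
  refine Nat.card_congr ?_
  refine
    { toFun := fun g => (⟨(s (h.ph g))⁻¹ * g, ?_⟩, ⟨h.ph g, g.2⟩)
      invFun := fun x => ⟨s x.2 * x.1, ?_⟩
      left_inv := ?_
      right_inv := ?_ }
  · rw [h.mem_center_iff' hG hp2, ← h.ph_eq_ph_iff, hs]
  · show h.ph (s x.2 * x.1) ∈ S
    rw [h.ph_mul, (h.mem_center_iff' hG hp2).mp x.1.2, smul_zero, add_zero, hs]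
    exact x.2.2
  · rintro ⟨g, hg⟩
    apply Subtype.ext
    show s (h.ph g) * ((s (h.ph g))⁻¹ * g) = g
    group
  · rintro ⟨⟨z, hz⟩, ⟨v, hv⟩⟩
    have h1 : h.ph (s v * z) = v := by
      rw [h.ph_mul, (h.mem_center_iff' hG hp2).mp hz, smul_zero, add_zero, hs]
    apply Prod.ext
    · apply Subtype.ext
      show (s (h.ph (s v * z)))⁻¹ * (s v * z) = z
      rw [h1]; group
    · apply Subtype.ext
      exact h1

theorem card_eq (h : MC p a b r) : Nat.card G = Nat.card (center G) * h.NN ^ 2 := by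
  have h1 := h.card_preimage hG hp2 Set.univ
  have h2 : Nat.card (h.ph ⁻¹' Set.univ : Set G) = Nat.card G := by
    rw [Set.preimage_univ]; exact Nat.card_univ
  have h3 : Nat.card (Set.univ : Set (ZMod h.NN × ZMod h.NN)) = h.NN ^ 2 := by
    rw [Nat.card_univ, Nat.card_prod, Nat.card_zmod]; ring
  rw [h2, h3] at h1
  exact h1

theorem mem_iff_of_center_le (h : MC p a b r) {R : Subgroup G} (hZ : center G ≤ R) {g : G} :
    g ∈ R ↔ h.ph g ∈ h.im hG hp2 R := by
  constructor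
  · intro hg; exact ⟨g, hg, rfl⟩
  · rintro ⟨k, hk, hkg⟩
    rw [h.ph_eq_ph_iff, ← h.mem_center_iff' hG hp2] at hkg
    have := mul_mem hk (hZ hkg)
    rwa [mul_inv_cancel_left] at this

theorem card_of_center_le (h : MC p a b r) {R : Subgroup G} (hZ : center G ≤ R) :
    Nat.card R = Nat.card (center G) * Nat.card (h.im hG hp2 R) := by
  have h1 := h.card_preimage hG hp2 (h.im hG hp2 R : Set (ZMod h.NN × ZMod h.NN))
  have h2 : (h.ph ⁻¹' (h.im hG hp2 R : Set (ZMod h.NN × ZMod h.NN)) : Set G) = (R : Set G) := by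
    ext g; exact (h.mem_iff_of_center_le hG hp2 hZ).symm
  rw [h2] at h1
  exact h1

theorem mem_centralizer_iff' (h : MC p a b r) {R : Subgroup G} {g : G} :
    g ∈ centralizer (R : Set G) ↔ h.ph g ∈ prp (h.im hG hp2 R) := by
  rw [mem_centralizer_iff]
  constructor
  · rintro h1 _ ⟨k, hk, rfl⟩
    rw [← h.comm_iff, commutatorElement_eq_one_iff_mul_comm]
    exact h1 k hk
  · intro h1 k hk
    have := h1 (h.ph k) ⟨k, hk, rfl⟩
    rw [← h.comm_iff, commutatorElement_eq_one_iff_mul_comm] at this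
    exact this

theorem card_centralizer (h : MC p a b r) (R : Subgroup G) :
    Nat.card (centralizer (R : Set G)) = Nat.card (center G) * Nat.card (prp (h.im hG hp2 R)) := by
  have h1 := h.card_preimage hG hp2 (prp (h.im hG hp2 R) : Set (ZMod h.NN × ZMod h.NN))
  have h2 : (h.ph ⁻¹' (prp (h.im hG hp2 R) : Set (ZMod h.NN × ZMod h.NN)) : Set G) =
      (centralizer (R : Set G) : Set G) := by
    ext g; exact (h.mem_centralizer_iff' hG hp2).symm
  rw [h2] at h1
  exact h1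

theorem im_sup_center (h : MC p a b r) (R : Subgroup G) : h.im hG hp2 (R ⊔ center G) = h.im hG hp2 R := by
  ext x
  constructor
  · rintro ⟨g, hg, rfl⟩
    obtain ⟨y, hy, z, hz, rfl⟩ := mem_sup_of_normal_right.mp hg
    refine ⟨y, hy, ?_⟩
    rw [h.ph_mul, (h.mem_center_iff' hG hp2).mp hz, smul_zero, add_zero]
  · rintro ⟨g, hg, rfl⟩
    exact ⟨g, mem_sup_left hg, rfl⟩

/-- The main counting formula. -/
theorem card_mul_card_centralizer [Finite G] (h : MC p a b r) (R : Subgroup G) :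
    Nat.card (R ⊔ center G : Subgroup G) * Nat.card (centralizer (R : Set G)) = Nat.card G * Nat.card (center G) := by
  haveI := h.NN_neZero hG
  rw [h.card_of_center_le hG hp2 (le_sup_right : center G ≤ R ⊔ center G), h.im_sup_center, h.card_centralizer hG hp2,
    h.card_eq hG hp2, ← card_mul_card_prp (h.im hG hp2 R)]
  ring

end MC

end Cfsg.Agent.H23
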