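import Cfsg.Agent.H23.Metacyc3
import Cfsg.Agent.H18.FrattiniP
import Cfsg.Agent.H29.XS
import Cfsg.Agent.H1.Basic

set_option autoImplicit false
set_option linter.all false

/-!
# Metacyclic p-groups of odd order, IV, seat helper23
-/

namespace Cfsg.Agent.H23

open Subgroup
open scoped commutatorElement

namespace MC
variable {p : ℕ} {G : Type*} [Group G] [Finite G] {a b : G} {r : ℕ}
variable (hG : IsPGroup p G) [hp : Fact p.Prime] (hp2 : p ≠ 2)
include hG hp2

/-- `|G : G'| = |Z| N` -/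
theorem index_commutator (h : MC p a b r) : (commutator G).index = Nat.card (center G) * h.NN := by
  haveI := h.NN_neZero hG
  have h1 := (commutator G).index_mul_card
  rw [h.card_commutator, h.card_eq hG hp2] at h1
  have h2 : 0 < h.NN := Nat.pos_of_ne_zero (NeZero.ne _)
  apply Nat.eq_of_mul_eq_mul_right h2
  rw [h1]; ring

theorem card_mul_center (h : MC p a b r) : Nat.card G * Nat.card (center G) = (commutator G).index ^ 2 := by
  rw [h.index_commutator hG hp2, h.card_eq hG hp2]; ring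

theorem center_index (h : MC p a b r) : (center G).index = Nat.card (commutator G) ^ 2 := by
  have h1 := (center G).index_mul_card
  rw [h.card_eq hG hp2, mul_comm] at h1
  rw [h.card_commutator]
  exact Nat.eq_of_mul_eq_mul_left Nat.card_pos h1

theorem mem_im_zpowers (h : MC p a b r) (g : G) (x : ZMod h.NN × ZMod h.NN) :
    x ∈ h.im hG hp2 (zpowers g) ↔ x ∈ AddSubgroup.zmultiples (h.ph g) := by
  constructor
  · rintro ⟨k, hk, rfl⟩
    obtain ⟨m, rfl⟩ := mem_powers_iff_mem_zpowers.mpr hk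
    rw [h.ph_pow]
    haveI := h.NN_neZero hG
    have h1 : lam (h.ch g) m • h.ph g = (lam (h.ch g) m).val • h.ph g := by
      rw [← Nat.cast_smul_eq_nsmul (ZMod h.NN), ZMod.natCast_zmod_val]
    rw [h1]
    exact nsmul_mem (AddSubgroup.mem_zmultiples _) _
  · intro hx
    obtain ⟨m, rfl⟩ := AddSubgroup.mem_zmultiples_iff.mp hx
    have h1 : m • h.ph g = (m : ZMod h.NN) • h.ph g := (Int.cast_smul_eq_zsmul _ _ _).symm
    rw [h1]
    exact h.smul_mem_im hG hp2 ⟨g, mem_zpowers g, rfl⟩ _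

/-- class size is the additive order of the coordinate vector -/
theorem index_centralizer (h : MC p a b r) (g : G) :
    (centralizer ({g} : Set G)).index = addOrderOf (h.ph g) := by
  have h1 := h.card_mul_card_centralizer hG hp2 (zpowers g)
  have h2 : centralizer ((zpowers g : Subgroup G) : Set G) = centralizer ({g} : Set G) := by
    rw [zpowers_eq_closure, centralizer_closure]
  rw [h2, h.card_of_center_le hG hp2 le_sup_right, h.im_sup_center] at h1
  have h3 : h.im hG hp2 (zpowers g) = AddSubgroup.zmultiples (h.ph g) := by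
    ext x; exact h.mem_im_zpowers hG hp2 g x
  rw [h3, Nat.card_zmultiples] at h1
  have h4 := (centralizer ({g} : Set G)).index_mul_card
  rw [← h4] at h1
  have h5 : 0 < Nat.card (centralizer ({g} : Set G)) := Nat.card_pos
  have h6 : 0 < Nat.card (center G) := Nat.card_pos
  have h7 : addOrderOf (h.ph g) * (Nat.card (centralizer ({g} : Set G)) * Nat.card (center G)) =
      (centralizer ({g} : Set G)).index * (Nat.card (centralizer ({g} : Set G)) * Nat.card (center G)) := by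
    calc _ = Nat.card (center G) * addOrderOf (h.ph g) * Nat.card (centralizer ({g} : Set G)) := by ring
      _ = _ := by rw [h1]; ring
  exact (Nat.eq_of_mul_eq_mul_right (Nat.mul_pos h5 h6) h7).symm

theorem addOrderOf_dvd (h : MC p a b r) (v : ZMod h.NN × ZMod h.NN) : addOrderOf v ∣ h.NN := by
  apply addOrderOf_dvd_of_nsmul_eq_zero
  apply Prod.ext
  · simp
  · simp

theorem pow_nsmul_eq_zero_iff (h : MC p a b r) {n : ℕ} (hn : h.NN = p ^ n) {s : ℕ} (hs : s ≤ n) (g : G) :
    p ^ (n - s) • h.ph g = 0 ↔ (centralizer ({g} : Set G)).index ≤ p ^ (n - s) := by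
  rw [h.index_centralizer hG hp2 g]
  constructor
  · intro h1
    exact Nat.le_of_dvd (pow_pos hp.out.pos _) (addOrderOf_dvd_of_nsmul_eq_zero h1)
  · intro h1
    have h2 := (h.addOrderOf_dvd hG hp2 (h.ph g)).trans (dvd_of_eq hn)
    obtain ⟨k, hk, hk'⟩ := (Nat.dvd_prime_pow hp.out).mp h2
    rw [hk'] at h1
    have h3 : k ≤ n - s := (Nat.pow_le_pow_iff_right hp.out.one_lt).mp h1
    have h4 : addOrderOf (h.ph g) ∣ p ^ (n - s) := by rw [hk']; exact pow_dvd_pow p h3
    exact addOrderOf_dvd_iff_nsmul_eq_zero.mp h4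

/-- the subgroup of elements with coordinate vector killed by `p^k` -/
def KK (h : MC p a b r) (k : ℕ) : Subgroup G where
  carrier := {g | p ^ k • h.ph g = 0}
  one_mem' := by show p ^ k • h.ph 1 = 0; rw [h.ph_one, smul_zero]
  mul_mem' := by
    intro x y hx hy
    show p ^ k • h.ph (x * y) = 0
    have hx' : p ^ k • h.ph x = 0 := hx
    have hy' : p ^ k • h.ph y = 0 := hy
    rw [h.ph_mul, smul_add, hx', zero_add, smul_comm, hy', smul_zero]
  inv_mem' := by
    intro x hx
    show p ^ k • h.ph x⁻¹ = 0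
    have hx' : p ^ k • h.ph x = 0 := hx
    have h1 : h.ph x⁻¹ = 0 + h.ph x⁻¹ := (zero_add _).symm
    have h2 := h.ph_mul x⁻¹ x
    rw [inv_mul_cancel, h.ph_one] at h2
    have h3 : h.ph x⁻¹ = - (h.ch x⁻¹ • h.ph x) := eq_neg_of_add_eq_zero_left h2.symm
    rw [h3, smul_neg, smul_comm, hx', smul_zero, neg_zero]

omit [Finite G] hG hp hp2 in
theorem mem_KK (h : MC p a b r) {k : ℕ} {g : G} : g ∈ h.KK k ↔ p ^ k • h.ph g = 0 := Iff.rfl

theorem nat_smul_eq_zero_iff (h : MC p a b r) (m : ℕ) (x : ZMod h.NN × ZMod h.NN) :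
    m • x = 0 ↔ (m : ZMod h.NN) * x.1 = 0 ∧ (m : ZMod h.NN) * x.2 = 0 := by
  rw [Prod.ext_iff]
  simp

/-- members of `KK (n-s)` are products of two `p^s`-th powers -/
theorem mem_KK_iff (h : MC p a b r) {n : ℕ} (hn : h.NN = p ^ n) {s : ℕ} (hs : s ≤ n) {i j : ℕ} :
    a ^ i * b ^ j ∈ h.KK (n - s) ↔ p ^ s ∣ i ∧ p ^ s ∣ j := by
  rw [h.mem_KK, h.nat_smul_eq_zero_iff hG hp2, h.ph_eq rfl]
  simp only
  have key : ∀ t : ℕ, ((p ^ (n - s) : ℕ) : ZMod h.NN) * (t : ZMod h.NN) = 0 ↔ p ^ s ∣ t := by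
    intro t
    rw [← Nat.cast_mul, ZMod.natCast_eq_zero_iff, hn]
    have h1 : p ^ n = p ^ (n - s) * p ^ s := by rw [← pow_add]; congr 1; omega
    rw [h1, Nat.mul_dvd_mul_iff_left (pow_pos hp.out.pos _)]
  rw [key, ← cast_lam, key, pow_dvd_lam_iff hp.out hp2 h.hr]

theorem closure_pow_eq (h : MC p a b r) {n : ℕ} (hn : h.NN = p ^ n) {s : ℕ} (hs : s ≤ n) :
    closure {x : G | ∃ y : G, y ^ p ^ s = x} = h.KK (n - s) := by
  apply le_antisymm
  · rw [closure_le]
    rintro _ ⟨y, rfl⟩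
    show p ^ (n - s) • h.ph (y ^ p ^ s) = 0
    rw [h.ph_pow, h.nat_smul_eq_zero_iff hG hp2]
    obtain ⟨ρ, h1, h2⟩ := h.exists_rho y
    have h3 : ((p ^ (n - s) : ℕ) : ZMod h.NN) * lam (h.ch y) (p ^ s) = 0 := by
      rw [← h2, ← cast_lam, ← Nat.cast_mul, ZMod.natCast_eq_zero_iff, hn]
      have h4 : p ^ n = p ^ (n - s) * p ^ s := by rw [← pow_add]; congr 1; omega
      rw [h4, Nat.mul_dvd_mul_iff_left (pow_pos hp.out.pos _), pow_dvd_lam_iff hp.out hp2 h1]
    simp only [Prod.smul_fst, Prod.smul_snd, smul_eq_mul, ← mul_assoc, h3, zero_mul, and_self]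
  · intro g hg
    obtain ⟨i, j, rfl⟩ := h.gen g
    obtain ⟨⟨i', hi⟩, ⟨j', hj⟩⟩ := (h.mem_KK_iff hG hp2 hn hs).mp hg
    rw [hi, hj, mul_comm (p ^ s) i', mul_comm (p ^ s) j', _root_.pow_mul, _root_.pow_mul]
    exact mul_mem (subset_closure ⟨_, rfl⟩) (subset_closure ⟨_, rfl⟩)

/-- the Frattini subgroup of a nonabelian group -/
theorem frattini_eq (h : MC p a b r) {n : ℕ} (hn : h.NN = p ^ n) (hn0 : 1 ≤ n) : frattini G = h.KK (n - 1) := by
  apply le_antisymm
  · apply H18.frattini_le_of_elementary (p := p)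
    · rw [h.commutator_eq, zpowers_le, h.c_eq]
      have h1 : 1 ≤ r := h.one_le hp.out
      have h2 : a ^ ((r : ℤ) - 1) = a ^ (r - 1) * b ^ 0 := by
        rw [pow_zero, mul_one, ← zpow_natCast, Nat.cast_sub h1, Nat.cast_one]
      rw [h2, h.mem_KK_iff hG hp2 hn hn0, pow_one]
      exact ⟨(Nat.modEq_iff_dvd' h1).mp h.hr.symm, dvd_zero _⟩
    · intro x
      rw [← h.closure_pow_eq hG hp2 hn hn0]
      exact subset_closure ⟨x, by rw [pow_one]⟩
  · intro g hg
    obtain ⟨i, j, rfl⟩ := h.gen g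
    obtain ⟨⟨i', hi⟩, ⟨j', hj⟩⟩ := (h.mem_KK_iff hG hp2 hn hn0).mp hg
    rw [hi, hj, pow_one, mul_comm p i', mul_comm p j', _root_.pow_mul, _root_.pow_mul]
    exact mul_mem (H29.pgroup_pow_mem_frattini hG _) (H29.pgroup_pow_mem_frattini hG _)

theorem card_le_of_comm (h : MC p a b r) {L : Subgroup G} (hL : IsMulCommutative L) :
    Nat.card L ≤ (commutator G).index := by
  have h1 := h.card_mul_card_centralizer hG hp2 L
  have h2 : L ⊔ center G ≤ centralizer (L : Set G) := by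
    apply sup_le _ (center_le_centralizer _)
    intro x hx
    rw [mem_centralizer_iff]
    intro y hy
    exact congrArg Subtype.val (hL.is_comm.comm ⟨y, hy⟩ ⟨x, hx⟩)
  have h3 : Nat.card L ≤ Nat.card (L ⊔ center G : Subgroup G) := card_le_of_le le_sup_left
  have h4 : Nat.card (L ⊔ center G : Subgroup G) ≤ Nat.card (centralizer (L : Set G)) := card_le_of_le h2
  rw [h.card_mul_center hG hp2] at h1
  by_contra hcon
  push Not at hcon
  have h5 := lt_of_lt_of_le hcon h3
  have h6 := lt_of_lt_of_le h5 h4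
  have := Nat.mul_lt_mul'' h5 h6
  rw [h1] at this
  nlinarith

end MC

end Cfsg.Agent.H23
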