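import Cfsg.Agent.H23.Metacyc4

set_option autoImplicit false
set_option linter.all false

/-!
# Metacyclic p-groups of odd order, V, seat helper23
-/

namespace Cfsg.Agent.H23

open Subgroup
open scoped commutatorElement
universe u

theorem isMetacyclic_subgroup {G : Type u} [Group G] (h : Cfsg.IsMetacyclic G) (M : Subgroup G) :
    Cfsg.IsMetacyclic M := by
  obtain ⟨N, hN, h1, h2⟩ := h
  refine ⟨N.subgroupOf M, inferInstance, ?_, ?_⟩
  · haveI := h1
    let f : (N.subgroupOf M) →* N := (M.subtype.comp (N.subgroupOf M).subtype).codRestrict N (fun x => x.2)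
    refine isCyclic_of_injective f ?_
    intro x y hxy
    have h3 := congrArg Subtype.val hxy
    exact Subtype.ext (Subtype.ext h3)
  · haveI := h2
    let f : M ⧸ (N.subgroupOf M) →* G ⧸ N := QuotientGroup.map (N.subgroupOf M) N M.subtype (fun x hx => hx)
    refine isCyclic_of_injective f ?_
    rw [injective_iff_map_eq_one]
    intro x hx
    obtain ⟨y, rfl⟩ := QuotientGroup.mk_surjective x
    have h3 : ((y : G) : G ⧸ N) = 1 := hx
    rw [QuotientGroup.eq_one_iff] at h3 ⊢
    exact h3

namespace MC
variable {p : ℕ} {G : Type*} [Group G] [Finite G] {a b : G} {r : ℕ}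
variable (hG : IsPGroup p G) [hp : Fact p.Prime] (hp2 : p ≠ 2)
include hG hp2

theorem comm_centralizer_of_notMem (h : MC p a b r) {n : ℕ} (hn : h.NN = p ^ n) (hn0 : 1 ≤ n) {g : G}
    (hg : g ∉ h.KK (n - 1)) : IsMulCommutative (centralizer ({g} : Set G)) := by
  have hord : addOrderOf (h.ph g) = h.NN := by
    obtain ⟨m, rfl⟩ : ∃ m, n = m + 1 := ⟨n - 1, by omega⟩
    refine Eq.trans ?_ hn.symm
    apply addOrderOf_eq_prime_pow
    · exact hg
    · have h1 := h.addOrderOf_dvd hG hp2 (h.ph g)
      exact addOrderOf_dvd_iff_nsmul_eq_zero.mp (h1.trans (dvd_of_eq hn))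
  have h1 := h.index_centralizer hG hp2 g
  rw [hord] at h1
  have h2 := (centralizer ({g} : Set G)).index_mul_card
  rw [h1, h.card_eq hG hp2] at h2
  haveI := h.NN_neZero hG
  have hpos : 0 < h.NN := Nat.pos_of_ne_zero (NeZero.ne _)
  have h3 : Nat.card (centralizer ({g} : Set G)) = Nat.card (center G) * h.NN := by
    apply Nat.eq_of_mul_eq_mul_left hpos
    rw [h2]; ring
  have h4 : Nat.card (center G ⊔ zpowers g : Subgroup G) = Nat.card (center G) * h.NN := by
    rw [sup_comm, h.card_of_center_le hG hp2 le_sup_right, h.im_sup_center]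
    have h5 : h.im hG hp2 (zpowers g) = AddSubgroup.zmultiples (h.ph g) := by
      ext x; exact h.mem_im_zpowers hG hp2 g x
    rw [h5, Nat.card_zmultiples, hord]
  have h5 : center G ⊔ zpowers g ≤ centralizer ({g} : Set G) := by
    apply sup_le (center_le_centralizer _)
    rw [zpowers_le, mem_centralizer_singleton_iff]
  have h6 : center G ⊔ zpowers g = centralizer ({g} : Set G) := eq_of_le_of_card_ge h5 (by rw [h3, h4])
  rw [← h6]
  refine isMulCommutative_sup_zpowers ?_ ?_
  · exact inferInstance
  · rw [mem_centralizer_iff]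
    intro z hz
    exact (mem_center_iff.mp hz g).symm

end MC

/-- Nonabelian subgroups contain their centralizers. -/
theorem metacyclic_centralizer_le {p : ℕ} [hp : Fact p.Prime] (hp2 : p ≠ 2) (n : ℕ) :
    ∀ (G : Type u) [Group G] [Finite G], Nat.card G = n → IsPGroup p G → Cfsg.IsMetacyclic G →
    ∀ R : Subgroup G, ¬ IsMulCommutative R → centralizer (R : Set G) ≤ R := by
  induction n using Nat.strong_induction_on with
  | _ n ih =>
  intro G _ _ hn hG hmc R hR
  by_cases hRt : R = ⊤
  · rw [hRt]; exact le_top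
  obtain ⟨M, hM, hRM⟩ := (eq_top_or_exists_le_coatom R).resolve_left hRt
  have hMn : ¬ IsMulCommutative M := by
    intro h
    apply hR
    rw [isMulCommutative_iff_le_centralizer] at h ⊢
    exact hRM.trans (h.trans (centralizer_le hRM))
  obtain ⟨a, b, r, h⟩ := exists_MC hG hmc
  obtain ⟨k, hk⟩ := h.exists_NN_eq hG
  have hk0 : 1 ≤ k := by
    by_contra hcon
    have h0 : k = 0 := by omega
    rw [h0, pow_zero] at hk
    have h1 := h.card_commutator
    rw [hk, card_eq_one] at h1
    apply hR
    rw [isMulCommutative_iff_le_centralizer]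
    have h2 : center G = ⊤ := by rw [← commutator_eq_bot_iff_center_eq_top]; exact h1
    intro x _
    rw [mem_centralizer_iff]
    intro y _
    exact (mem_center_iff.mp (h2 ▸ mem_top x : x ∈ center G) y)
  have hC : centralizer (R : Set G) ≤ M := by
    intro g hg
    have h1 : ¬ IsMulCommutative (centralizer ({g} : Set G)) := by
      intro hc
      apply hR
      rw [isMulCommutative_iff_le_centralizer] at hc ⊢
      have h2 : R ≤ centralizer ({g} : Set G) := by
        intro x hx
        rw [mem_centralizer_singleton_iff]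
        exact mem_centralizer_iff.mp hg x hx
      exact h2.trans (hc.trans (centralizer_le h2))
    have h2 : g ∈ h.KK (k - 1) := by
      by_contra hcon
      exact h1 (h.comm_centralizer_of_notMem hG hp2 hk hk0 hcon)
    rw [← h.frattini_eq hG hp2 hk hk0] at h2
    exact frattini_le_coatom hM h2
  have hlt : Nat.card M < n := by
    rw [← hn]
    have := H1.card_lt_of_lt' (lt_top_iff_ne_top.mpr hM.1)
    rwa [card_top] at this
  have h3 := ih _ hlt M rfl (hG.to_subgroup M) (isMetacyclic_subgroup hmc M) (R.subgroupOf M) (by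
    intro hc
    apply hR
    refine ⟨⟨fun x y => ?_⟩⟩
    have := hc.is_comm.comm ⟨⟨x, hRM x.2⟩, x.2⟩ ⟨⟨y, hRM y.2⟩, y.2⟩
    have e1 := congrArg Subtype.val this
    have e2 := congrArg Subtype.val e1
    exact Subtype.ext e2)
  intro g hg
  have h4 : (⟨g, hC hg⟩ : M) ∈ centralizer ((R.subgroupOf M : Subgroup M) : Set M) := by
    rw [mem_centralizer_iff]
    intro x hx
    exact Subtype.ext (mem_centralizer_iff.mp hg x hx)
  exact h3 h4

end Cfsg.Agent.H23
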