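import Cfsg.Agent.H23.Metacyc5

set_option autoImplicit false
set_option linter.all false

/-!
# Metacyclic p-groups of odd order, VI (intrinsic results), seat helper23
-/

namespace Cfsg.Agent.H23

open Subgroup
open scoped commutatorElement
universe u

section results
variable {G : Type u} [Group G] [Finite G] {p : ℕ} [hp : Fact p.Prime] (hp2 : p ≠ 2) (hG : IsPGroup p G)
  (hmc : Cfsg.IsMetacyclic G)
include hp2 hG hmc

theorem mc_center_index : (center G).index = Nat.card (commutator G) ^ 2 := by
  obtain ⟨a, b, r, h⟩ := exists_MC hG hmc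
  exact h.center_index hG hp2

theorem mc_card_mul (R : Subgroup G) :
    Nat.card (R ⊔ center G : Subgroup G) * Nat.card (centralizer (R : Set G)) = (commutator G).index ^ 2 := by
  obtain ⟨a, b, r, h⟩ := exists_MC hG hmc
  rw [h.card_mul_card_centralizer hG hp2, h.card_mul_center hG hp2]

theorem mc_card_mul' {R : Subgroup G} (hZ : center G ≤ R) :
    Nat.card R * Nat.card (centralizer (R : Set G)) = (commutator G).index ^ 2 := by
  have := mc_card_mul hp2 hG hmc R
  rwa [sup_eq_left.mpr hZ] at this

theorem mc_card_center : Nat.card G * Nat.card (center G) = (commutator G).index ^ 2 := by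
  obtain ⟨a, b, r, h⟩ := exists_MC hG hmc
  rw [h.card_mul_center hG hp2]

theorem mc_card_le {L : Subgroup G} (hL : IsMulCommutative L) : Nat.card L ≤ (commutator G).index := by
  obtain ⟨a, b, r, h⟩ := exists_MC hG hmc
  exact h.card_le_of_comm hG hp2 hL

/-- centralizers of nonabelian subgroups -/
theorem mc_nonab {L : Subgroup G} (hL : ¬ IsMulCommutative L) :
    centralizer (L : Set G) ≤ L ∧ center G ≤ L ∧ Nat.card L * Nat.card (centralizer (L : Set G)) = (commutator G).index ^ 2 ∧
      (commutator G).index < Nat.card L := by
  have h1 := metacyclic_centralizer_le hp2 _ G rfl hG hmc L hL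
  have h2 : center G ≤ L := (center_le_centralizer _).trans h1
  have h3 := mc_card_mul' hp2 hG hmc h2
  refine ⟨h1, h2, h3, ?_⟩
  have h4 : centralizer (L : Set G) < L := by
    refine lt_of_le_of_ne h1 fun heq => hL ?_
    rw [isMulCommutative_iff_le_centralizer]
    exact heq.ge
  have h5 := H1.card_lt_of_lt' h4
  by_contra hcon
  push Not at hcon
  have h6 := lt_of_lt_of_le h5 hcon
  nlinarith [Nat.mul_lt_mul'' h5 h5, h3]

theorem mc_comm_iff (L : Subgroup G) : IsMulCommutative L ↔ Nat.card L ≤ (commutator G).index := by
  constructor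
  · exact mc_card_le hp2 hG hmc
  · intro h
    by_contra hcon
    have := (mc_nonab hp2 hG hmc hcon).2.2.2
    omega

theorem mc_maximal_iff (L : Subgroup G) :
    Maximal (fun K : Subgroup G => IsMulCommutative K) L ↔ Nat.card L = (commutator G).index := by
  constructor
  · intro hL
    have h1 : IsMulCommutative L := hL.prop
    have h2 : centralizer (L : Set G) = L := by
      apply le_antisymm
      · intro x hx
        have h3 := isMulCommutative_sup_zpowers h1 hx
        exact hL.le_of_ge h3 le_sup_left (mem_sup_right (mem_zpowers x))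
      · exact isMulCommutative_iff_le_centralizer.mp h1
    have h3 : center G ≤ L := by
      have := center_le_centralizer (L : Set G)
      rwa [h2] at this
    have h4 := mc_card_mul' hp2 hG hmc h3
    rw [h2] at h4
    have h5 : Nat.card L ^ 2 = (commutator G).index ^ 2 := by rw [← h4]; ring
    exact Nat.pow_left_injective (by norm_num : 2 ≠ 0) h5
  · intro h
    refine ⟨(mc_comm_iff hp2 hG hmc L).mpr h.le, ?_⟩
    intro K hK hLK
    have h1 := mc_card_le hp2 hG hmc hK
    rw [← h] at h1
    exact (eq_of_le_of_card_ge hLK h1).ge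

theorem mc_double {K : Subgroup G} (hZ : center G ≤ K) :
    centralizer ((centralizer (K : Set G) : Subgroup G) : Set G) = K := by
  have h1 := mc_card_mul' hp2 hG hmc hZ
  have h2 := mc_card_mul' hp2 hG hmc (center_le_centralizer (K : Set G))
  have h3 : K ≤ centralizer ((centralizer (K : Set G) : Subgroup G) : Set G) := by
    rw [Subgroup.le_centralizer_iff]
  have h4 : Nat.card (centralizer ((centralizer (K : Set G) : Subgroup G) : Set G)) = Nat.card K := by
    have h5 : 0 < Nat.card (centralizer (K : Set G)) := Nat.card_pos
    apply Nat.eq_of_mul_eq_mul_left h5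
    rw [h2, ← h1]; ring
  exact (eq_of_le_of_card_ge h3 h4.le).symm

theorem mc_mul_le (R : Subgroup G) :
    Nat.card R * Nat.card (centralizer (R : Set G)) ≤ (commutator G).index ^ 2 := by
  rw [← mc_card_mul hp2 hG hmc R]
  exact Nat.mul_le_mul_right _ (card_le_of_le le_sup_left)

theorem mc_mul_eq_iff (R : Subgroup G) :
    Nat.card R * Nat.card (centralizer (R : Set G)) = (commutator G).index ^ 2 ↔ center G ≤ R := by
  constructor
  · intro h
    rw [← mc_card_mul hp2 hG hmc R] at h
    have h5 : 0 < Nat.card (centralizer (R : Set G)) := Nat.card_pos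
    have h6 := Nat.eq_of_mul_eq_mul_right h5 h
    have h7 : R = R ⊔ center G := eq_of_le_of_card_ge le_sup_left h6.ge
    rw [h7]; exact le_sup_right
  · exact mc_card_mul' hp2 hG hmc

end results

end Cfsg.Agent.H23
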