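import Cfsg.Agent.H23.Coprime3
import Cfsg.Agent.H23.PSolvable
import Cfsg.Agent.H1.Cores
import Cfsg.Agent.H1.Chief

set_option autoImplicit false
set_option linter.all false

/-! # `O_{q'}(K)` as a subgroup of the ambient group -/

namespace Cfsg.Agent.H23

open Subgroup
open scoped commutatorElement

variable {X : Type*} [Group X]

/-- `O_{q'}(K)` as a subgroup of the ambient group. -/
def ppo (q : ℕ) (K : Subgroup X) : Subgroup X := (Cfsg.pPrimeCore q K).map K.subtype

theorem ppo_le {q : ℕ} {K : Subgroup X} : ppo q K ≤ K := map_subtype_le _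

theorem ppo_coprime [Finite X] {q : ℕ} {K : Subgroup X} : (Nat.card (ppo q K)).Coprime q := by
  rw [ppo, H1.card_map_subtype]
  exact H1.pPrimeCore_coprime q K

theorem normalizer_le_normalizer_ppo {q : ℕ} {K : Subgroup X} :
    normalizer (K : Set X) ≤ normalizer (ppo q K : Set X) := by
  classical
  by_cases hf : Finite X
  · exact normalizer_le_normalizer_map (Cfsg.pPrimeCore q K)
  · exact normalizer_le_normalizer_map (Cfsg.pPrimeCore q K)

theorem le_normalizer_ppo {q : ℕ} {K : Subgroup X} : K ≤ normalizer (ppo q K : Set X) :=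
  le_normalizer.trans normalizer_le_normalizer_ppo

theorem le_ppo {q : ℕ} {N K : Subgroup X} (hNK : N ≤ K) (hn : K ≤ normalizer (N : Set X))
    (hc : (Nat.card N).Coprime q) : N ≤ ppo q K := by
  haveI : (N.subgroupOf K).Normal := normal_subgroupOf_of_le_normalizer hn
  have h1 : N.subgroupOf K ≤ Cfsg.pPrimeCore q K :=
    H1.le_pPrimeCore inferInstance (by rwa [H1.card_subgroupOf hNK])
  have h2 := map_mono (f := K.subtype) h1
  rwa [map_subgroupOf_eq_of_le hNK] at h2

theorem ppo_le_ppo {q : ℕ} [Finite X] {D H : Subgroup X} (hDH : D ≤ H) (hn : H ≤ normalizer (D : Set X)) :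
    ppo q D ≤ ppo q H :=
  le_ppo (ppo_le.trans hDH) (hn.trans normalizer_le_normalizer_ppo) ppo_coprime

/-- `O_{q'}(K/N) = 1` for `N = O_{q'}(K)` normal in the whole group. -/
theorem ppo_map_eq_bot [Finite X] {q : ℕ} {K N : Subgroup X} [N.Normal] (hN : ppo q K = N) :
    ppo q (K.map (QuotientGroup.mk' N)) = ⊥ := by
  have hNK : N ≤ K := by rw [← hN]; exact ppo_le
  set M := (ppo q (K.map (QuotientGroup.mk' N))).comap (QuotientGroup.mk' N) with hM
  have h1 : M ≤ K := by
    intro x hx
    obtain ⟨k, hk, hkx⟩ := ppo_le (q := q) (K := K.map (QuotientGroup.mk' N)) hx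
    have h2 : k⁻¹ * x ∈ N := QuotientGroup.eq.mp hkx
    have h3 : x = k * (k⁻¹ * x) := by group
    rw [h3]
    exact mul_mem hk (hNK h2)
  have h2 : K ≤ normalizer (M : Set X) := by
    apply le_normalizer_of_conj_mem
    intro a ha g hg
    have h3 := (mem_normalizer_iff.mp (le_normalizer_ppo (q := q) (K := K.map (QuotientGroup.mk' N))
      (mem_map_of_mem (QuotientGroup.mk' N) ha)) (QuotientGroup.mk' N g)).mp hg
    change QuotientGroup.mk' N (a * g * a⁻¹) ∈ ppo q (K.map (QuotientGroup.mk' N))
    rw [map_mul (QuotientGroup.mk' N), map_mul (QuotientGroup.mk' N), map_inv]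
    exact h3
  have h3 : (Nat.card M).Coprime q := by
    rw [hM, card_comap_mk']
    refine Nat.Coprime.mul_left ?_ ppo_coprime
    rw [← hN]
    exact ppo_coprime
  have h4 : M ≤ N := by
    have := le_ppo h1 h2 h3
    rwa [hN] at this
  rw [eq_bot_iff, ← map_comap_eq_self_of_surjective (QuotientGroup.mk'_surjective N)
    (ppo q (K.map (QuotientGroup.mk' N)))]
  refine (map_mono h4).trans ?_
  rw [QuotientGroup.map_mk'_self]

/-- images of `O_{q'}(K)` -/
theorem map_ppo_le [Finite X] {q : ℕ} {Y : Type*} [Group Y] [Finite Y] (f : X →* Y) {K : Subgroup X} :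
    (ppo q K).map f ≤ ppo q (K.map f) := by
  apply le_ppo (map_mono ppo_le)
  · apply le_normalizer_of_conj_mem
    rintro _ ⟨a, ha, rfl⟩ _ ⟨g, hg, rfl⟩
    exact ⟨a * g * a⁻¹, (mem_normalizer_iff.mp (le_normalizer_ppo ha) g).mp hg, by simp⟩
  · exact Nat.Coprime.coprime_dvd_left (card_map_dvd _ _) ppo_coprime

/-- The core argument of the signalizer lemma. -/
theorem ppo_core {G : Type*} [Group G] [Finite G] {p q : ℕ} [Fact p.Prime] [Fact q.Prime]
    (P H : Subgroup G) [H.Normal] (hP : IsPGroup p P) (hH : (Nat.card H).Coprime p) (hsup : H ⊔ P = ⊤)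
    (hsol : Group.IsSolvable ↥⁅H, P⁆) (z : G) (hzH : z ∈ H) (hzP : z ∈ centralizer (P : Set G))
    (hz : IsPGroup q (zpowers z)) (hbot : ppo q H = ⊥) :
    ⁅ppo q (H ⊓ centralizer ({z} : Set G)), P⁆ = ⊥ ∧
      ppo q (H ⊓ centralizer ({z} : Set G)) ⊓ ppo q (H ⊓ centralizer (P : Set G)) = ⊥ := by
  set S := ⁅H, P⁆ with hS
  have hSn : S.Normal := by
    rw [← normalizer_eq_top_iff, eq_top_iff, ← hsup]
    exact sup_le (normalizer_commutator_ge_left _ _) (normalizer_commutator_ge_right _ _)
  have hPH : P ≤ normalizer (H : Set G) := by rw [normalizer_eq_top]; exact le_top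
  have hSH : S ≤ H := commutator_le_of_le_normalizer hPH
  have hS1 : Cfsg.pPrimeCore q S = ⊥ := by
    have h1 : ppo q S ≤ ⊥ := by
      rw [← hbot]
      exact ppo_le_ppo hSH (by rw [normalizer_eq_top]; exact le_top)
    rw [eq_bot_iff]
    intro x hx
    have h2 : (x : G) ∈ (⊥ : Subgroup G) := h1 (mem_map_of_mem S.subtype hx)
    rw [mem_bot] at h2 ⊢
    exact Subtype.ext h2
  set Q := (Cfsg.pCore q S).map S.subtype with hQ
  have hQS : Q ≤ S := map_subtype_le _
  have hQp : IsPGroup q Q := (H1.pCore_isPGroup q S).map _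
  haveI hQn : Q.Normal := by
    rw [← normalizer_eq_top_iff, eq_top_iff]
    have h1 := normalizer_le_normalizer_map (Cfsg.pCore q S)
    rw [normalizer_eq_top] at h1
    exact h1
  have hCS : ∀ x ∈ S, x ∈ centralizer (Q : Set G) → x ∈ Q := by
    intro x hx hxc
    have h1 : (⟨x, hx⟩ : S) ∈ centralizer (Cfsg.pCore q S : Set S) := by
      rw [mem_centralizer_iff]
      intro y hy
      apply Subtype.ext
      exact mem_centralizer_iff.mp hxc _ (mem_map_of_mem S.subtype hy)
    exact mem_map_of_mem S.subtype (H1.centralizer_pCore_le hsol q hS1 h1)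
  set W := ppo q (H ⊓ centralizer ({z} : Set G)) with hW
  have hWle : W ≤ H ⊓ centralizer ({z} : Set G) := ppo_le
  have hWQ : W ⊓ Q = ⊥ := by
    apply inf_eq_bot_of_coprime
    obtain ⟨k, hk⟩ := hQp.exists_card_eq
    rw [hk]
    exact ppo_coprime.pow_right k
  have hQW : Q ≤ centralizer (W : Set G) := by
    refine thompson_AxB (B := zpowers z) hQp ppo_coprime hz (by rw [normalizer_eq_top]; exact le_top)
      (by rw [normalizer_eq_top]; exact le_top) ?_ ?_
    · rw [zpowers_le, mem_centralizer_iff]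
      intro w hw
      exact (mem_centralizer_singleton_iff.mp (hWle hw).2)
    · intro u hu
      have hu2 : u ∈ H ⊓ centralizer ({z} : Set G) :=
        ⟨hSH (hQS hu.1), mem_centralizer_singleton_iff.mpr (mem_centralizer_iff.mp hu.2 z (mem_zpowers z)).symm⟩
      have hun := le_normalizer_ppo (q := q) hu2
      rw [mem_centralizer_iff]
      intro w hw
      have h1 : ⁅w, u⁆ ∈ W := by
        rw [commutatorElement_def, mul_assoc, mul_assoc]
        refine mul_mem hw ?_
        rw [← mul_assoc]
        exact (mem_normalizer_iff.mp hun w⁻¹).mp (inv_mem hw)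
      have h2 : ⁅w, u⁆ ∈ Q := by
        rw [commutatorElement_def]
        exact mul_mem (hQn.conj_mem u hu.1 w) (inv_mem hu.1)
      have h3 : ⁅w, u⁆ ∈ W ⊓ Q := ⟨h1, h2⟩
      rw [hWQ, mem_bot, commutatorElement_eq_one_iff_mul_comm] at h3
      exact h3
  have hPz : P ≤ centralizer ({z} : Set G) := by
    intro a ha
    rw [mem_centralizer_singleton_iff]
    exact mem_centralizer_iff.mp hzP a ha
  have hPn : P ≤ normalizer (W : Set G) := by
    refine le_trans ?_ normalizer_le_normalizer_ppo
    apply le_normalizer_of_conj_mem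
    intro a ha g hg
    exact ⟨(inferInstance : H.Normal).conj_mem g hg.1 a,
      (centralizer ({z} : Set G)).mul_mem ((centralizer ({z} : Set G)).mul_mem (hPz ha) hg.2)
        ((centralizer ({z} : Set G)).inv_mem (hPz ha))⟩
  have hWC : W ≤ centralizer (Q : Set G) := le_centralizer_iff.mp hQW
  refine ⟨?_, ?_⟩
  · rw [eq_bot_iff, ← hWQ]
    have h1 : ⁅W, P⁆ ≤ W := commutator_le_of_le_normalizer hPn
    refine le_inf h1 ?_
    intro x hx
    exact hCS x (commutator_mono (hWle.trans inf_le_left) le_rfl hx) (hWC (h1 hx))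
  · set D := H ⊓ centralizer (Q : Set G) with hD
    haveI hDn : D.Normal := inferInstance
    have hDS : D ⊓ S ≤ Q := fun x hx => hCS x hx.2 hx.1.2
    have hPD : P ≤ normalizer (D : Set G) := by rw [normalizer_eq_top]; exact le_top
    have hcop : (Nat.card P).Coprime (Nat.card D) := by
      obtain ⟨k, hk⟩ := hP.exists_card_eq
      rw [hk]
      exact (Nat.Coprime.coprime_dvd_left (card_dvd_of_le inf_le_left) hH).symm.pow_left k
    have hDeq := commutator_sup_centralizer hPD hcop (Or.inl (isSolvable_of_isPGroup (p := p) hP))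
    set T := D ⊓ centralizer (P : Set G) with hT
    set Y := ppo q (H ⊓ centralizer (P : Set G)) with hY
    set R := ppo q T with hR
    have hTle : T ≤ H ⊓ centralizer (P : Set G) := inf_le_inf_right _ inf_le_left
    have hYD : Y ⊓ D ≤ R := by
      apply le_ppo
      · exact fun x hx => ⟨hx.2, (ppo_le hx.1).2⟩
      · apply le_normalizer_of_conj_mem
        intro a ha g hg
        exact ⟨(mem_normalizer_iff.mp (le_normalizer_ppo (hTle ha)) g).mp hg.1, hDn.conj_mem g hg.2 a⟩
      · exact Nat.Coprime.coprime_dvd_left (card_dvd_of_le inf_le_left) ppo_coprime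
    have hRD : R ≤ D := ppo_le.trans inf_le_left
    have hDR : D ≤ normalizer (R : Set G) := by
      rw [← hDeq]
      refine sup_le ?_ le_normalizer_ppo
      have h1 : ⁅D, P⁆ ≤ Q :=
        le_trans (le_inf (commutator_le_of_le_normalizer hPD) (commutator_mono inf_le_left le_rfl)) hDS
      refine h1.trans (le_trans ?_ (centralizer_le_normalizer _))
      rw [le_centralizer_iff]
      exact hRD.trans inf_le_right
    have hRbot : R ≤ ⊥ := by
      rw [← hbot]
      exact (le_ppo hRD hDR ppo_coprime).trans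
        (ppo_le_ppo inf_le_left (by rw [normalizer_eq_top]; exact le_top))
    rw [eq_bot_iff]
    refine le_trans ?_ hRbot
    refine le_trans ?_ hYD
    intro x hx
    exact ⟨hx.2, (hWle hx.1).1, hWC hx.1⟩

end Cfsg.Agent.H23
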