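import Cfsg.Agent.H23.ZipperVar

set_option autoImplicit false
set_option linter.all false

/-!
# A variant of the zipper lemma, II, seat helper23
-/

namespace Cfsg.Agent.H23

open Subgroup
open scoped Pointwise

section main
variable {G : Type*} [Group G] [Finite G]

/-- Any two maximal subgroups containing `A` are equal. -/
def UniqMax (A : Subgroup G) : Prop :=
  ∀ V W : Subgroup G, IsCoatom V → IsCoatom W → A ≤ V → A ≤ W → V = W

/-- The inductive setup. -/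
structure ZSetup (A M : Subgroup G) : Prop where
  hA : A ≠ ⊤
  hcl : ∀ N : Subgroup G, N.Normal → A ≤ N → N = ⊤
  hM : IsCoatom M
  hYM : normalizer ((sSup (HF A) : Subgroup G) : Set G) ≤ M
  ih : ∀ B : Subgroup G, A < B → B ≠ ⊤ → sSup (HF B) ≠ ⊤ → UniqMax B

namespace ZSetup
variable {A M : Subgroup G}

theorem hfM (S : ZSetup A M) {H : Subgroup G} (hH : H ∈ HF A) : H ≤ M :=
  (le_sSup hH).trans (le_normalizer.trans S.hYM)

theorem AM (S : ZSetup A M) : A ≤ M := S.hfM (self_mem_HF S.hA)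

theorem hfMc (S : ZSetup A M) {g : G} {H : Subgroup G} (hH : H ∈ HF (cjs g A)) : H ≤ cjs g M := by
  have h1 := HF.cjs g⁻¹ hH
  rw [cjs_inv_cjs] at h1
  exact le_cjs_iff.mpr (S.hfM h1)

theorem nA (S : ZSetup A M) : normalizer (A : Set G) ≤ M := by
  refine le_trans ?_ S.hYM
  intro n hn
  apply mem_normalizer_of_cjs_le
  rw [cjs_le_iff]
  apply sSup_le
  intro H hH
  rw [← cjs_le_iff]
  have h1 := HF.cjs n hH
  rw [mem_normalizer_iff_cjs.mp hn] at h1
  exact le_sSup h1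

theorem wd (S : ZSetup A M) {g h : G} (hgh : cjs g A = cjs h A) : cjs g M = cjs h M := by
  have h1 : cjs (h⁻¹ * g) A = A := by rw [cjs_mul, hgh, cjs_inv_cjs]
  have h2 := S.nA (mem_normalizer_iff_cjs.mpr h1)
  have h3 := cjs_eq_of_mem h2
  have h4 : g = h * (h⁻¹ * g) := by group
  rw [h4, cjs_mul, h3]

theorem ih' (S : ZSetup A M) {B R : Subgroup G} (hAB : A < B) (hB : B ≠ ⊤) (hR : R ≠ ⊤)
    (h : ∀ H ∈ HF B, H ≤ R) : UniqMax B :=
  S.ih B hAB hB (fun h1 => hR (top_le_iff.mp (h1 ▸ sSup_le h)))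

theorem lt_sup (S : ZSetup A M) {g : G} (h : cjs g A ≠ A) : A < A ⊔ cjs g A := by
  refine lt_of_le_of_ne le_sup_left fun heq => h ?_
  have h1 : cjs g A ≤ A := le_sup_right.trans heq.ge
  exact eq_of_le_of_card_ge h1 (by rw [card_cjs])

theorem f1 (S : ZSetup A M) {K : Subgroup G} (hK : IsCoatom K) (hAK : A ≤ K) (hKM : K ≠ M) : SnIn A K := by
  obtain ⟨T, hT, hTK⟩ := exists_HF hAK hK.1
  by_cases hTA : T = A
  · rw [← hTA]; exact hTK
  exfalso
  have hnot : ¬ T ≤ normalizer (A : Set G) := fun h => hTA (hT.2.2 A le_rfl hT.1 h).symm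
  obtain ⟨d, hdT, hd⟩ := Set.not_subset.mp hnot
  have hdA : cjs d A ≠ A := fun h => hd (mem_normalizer_iff_cjs.mpr h)
  have hBT : A ⊔ cjs d A ≤ T := sup_le hT.1 (cjs_le_of_le_of_mem hT.1 hdT)
  have hYt : sSup (HF A) ≠ ⊤ := fun h => S.hM.1 (top_le_iff.mp (by
    have := (le_normalizer (H := (sSup (HF A) : Subgroup G))).trans S.hYM
    rwa [h] at this))
  have hU := S.ih' (R := sSup (HF A)) (S.lt_sup hdA) (fun h => hT.2.1 (top_le_iff.mp (h ▸ hBT))) hYt (by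
    intro H hH
    obtain ⟨S1, hS1, hS1H⟩ := exists_HF (A := A) (le_sup_left.trans hH.1) hH.2.1
    obtain ⟨S2, hS2, hS2H⟩ := exists_HF (A := cjs d A) (le_sup_right.trans hH.1) hH.2.1
    have h1 := HF.eq_of_snIn hH (sup_le_sup hS1.1 hS2.1) (hS1H.sup hS2H)
    rw [← h1]
    refine sup_le (le_sSup hS1) ?_
    have h2 := HF.cjs d⁻¹ hS2
    rw [cjs_inv_cjs] at h2
    have h3 := le_cjs_iff.mpr (le_sSup h2)
    rwa [cjs_eq_of_mem ((le_sSup hT) hdT)] at h3)
  exact hKM (hU K M hK S.hM (hBT.trans hTK.1) (hBT.trans (S.hfM hT)))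

theorem f1' (S : ZSetup A M) {H : Subgroup G} (hH : H ≠ ⊤) (hAH : A ≤ H) (hHM : ¬ H ≤ M) : SnIn A H := by
  obtain ⟨K, hK, hHK⟩ := (eq_top_or_exists_le_coatom H).resolve_left hH
  exact (S.f1 hK (hAH.trans hHK) (fun h => hHM (h ▸ hHK))).mono hAH hHK

theorem f1c (S : ZSetup A M) {g : G} {H : Subgroup G} (hH : H ≠ ⊤) (hAH : cjs g A ≤ H) (hHM : ¬ H ≤ cjs g M) :
    SnIn (cjs g A) H := by
  have h1 := S.f1' (H := cjs g⁻¹ H) (cjs_ne_top hH) (cjs_le_iff.mp hAH) (fun h => hHM (le_cjs_iff.mpr h))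
  have h2 := h1.cjs g
  rwa [cjs_cjs_inv] at h2

theorem f2 (S : ZSetup A M) {g : G} (hg : cjs g A ≠ A) {V W : Subgroup G} (hV : IsCoatom V) (hW : IsCoatom W)
    (hVW : V ≠ W) (h1 : A ⊔ cjs g A ≤ V) (h2 : A ⊔ cjs g A ≤ W) :
    cjs g A ≤ M ∧ A ≤ cjs g M ∧ cjs g M ≠ M := by
  have hBt : A ⊔ cjs g A ≠ ⊤ := fun h => hV.1 (top_le_iff.mp (h ▸ h1))
  have hjoin : ∀ H ∈ HF (A ⊔ cjs g A), ∃ S1 ∈ HF A, ∃ S2 ∈ HF (cjs g A), S1 ⊔ S2 = H := by
    intro H hH
    obtain ⟨S1, hS1, hS1H⟩ := exists_HF (A := A) (le_sup_left.trans hH.1) hH.2.1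
    obtain ⟨S2, hS2, hS2H⟩ := exists_HF (A := cjs g A) (le_sup_right.trans hH.1) hH.2.1
    exact ⟨S1, hS1, S2, hS2, HF.eq_of_snIn hH (sup_le_sup hS1.1 hS2.1) (hS1H.sup hS2H)⟩
  -- subgroups outside both
  have hout : ∀ H ∈ HF (A ⊔ cjs g A), ¬ H ≤ M → ¬ H ≤ cjs g M → H = A ⊔ cjs g A := by
    intro H hH h3 h4
    have h5 := S.f1' hH.2.1 (le_sup_left.trans hH.1) h3
    have h6 := S.f1c hH.2.1 (le_sup_right.trans hH.1) h4
    exact (HF.eq_of_snIn hH le_rfl (h5.sup h6)).symm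
  have hcg : IsCoatom (cjs g M) := cjs_coatom S.hM g
  have hne : cjs g M ≠ M := by
    intro heq
    apply hVW
    refine S.ih' (R := M) (S.lt_sup hg) hBt S.hM.1 ?_ V W hV hW h1 h2
    intro H hH
    obtain ⟨S1, hS1, S2, hS2, rfl⟩ := hjoin H hH
    exact sup_le (S.hfM hS1) (heq ▸ S.hfMc hS2)
  have hAc : A ≤ cjs g A ⊔ A := le_sup_right
  by_cases ha : cjs g A ≤ M
  · by_cases hb : A ≤ cjs g M
    · exact ⟨ha, hb, hne⟩
    · exfalso
      apply hVW
      refine S.ih' (R := M) (S.lt_sup hg) hBt S.hM.1 ?_ V W hV hW h1 h2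
      intro H hH
      by_contra h3
      have h4 : ¬ H ≤ cjs g M := fun h4 => hb ((le_sup_left.trans hH.1).trans h4)
      rw [hout H hH h3 h4] at h3
      exact h3 (sup_le S.AM ha)
  · exfalso
    apply hVW
    by_cases hb : A ≤ cjs g M
    · refine S.ih' (R := cjs g M) (S.lt_sup hg) hBt hcg.1 ?_ V W hV hW h1 h2
      intro H hH
      by_contra h3
      have h4 : ¬ H ≤ M := fun h4 => ha ((le_sup_right.trans hH.1).trans h4)
      rw [hout H hH h4 h3] at h3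
      exact h3 (sup_le hb (cjs_le_cjs.mpr S.AM))
    · refine S.ih' (R := A ⊔ cjs g A) (S.lt_sup hg) hBt hBt ?_ V W hV hW h1 h2
      intro H hH
      have h4 : ¬ H ≤ M := fun h4 => ha ((le_sup_right.trans hH.1).trans h4)
      have h5 : ¬ H ≤ cjs g M := fun h4 => hb ((le_sup_left.trans hH.1).trans h4)
      exact (hout H hH h4 h5).le

theorem f2c (S : ZSetup A M) {g h : G} (hgh : cjs h A ≠ cjs g A) {V W : Subgroup G} (hV : IsCoatom V)
    (hW : IsCoatom W) (hVW : V ≠ W) (h1 : cjs g A ≤ V) (h2 : cjs g A ≤ W) (h3 : cjs h A ≤ V) (h4 : cjs h A ≤ W) :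
    cjs h A ≤ cjs g M ∧ cjs g A ≤ cjs h M ∧ cjs h M ≠ cjs g M := by
  have hgh' : cjs (g⁻¹ * h) A ≠ A := by
    intro heq
    apply hgh
    have h5 := congrArg (cjs g) heq
    rwa [cjs_mul, cjs_cjs_inv] at h5
  have hVW' : cjs g⁻¹ V ≠ cjs g⁻¹ W := by
    intro heq
    apply hVW
    rw [← cjs_cjs_inv g V, heq, cjs_cjs_inv]
  obtain ⟨e1, e2, e3⟩ := S.f2 hgh' (cjs_coatom hV g⁻¹) (cjs_coatom hW g⁻¹) hVW'
    (sup_le (cjs_le_iff.mp h1) (by rw [cjs_mul]; exact cjs_le_cjs.mpr h3))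
    (sup_le (cjs_le_iff.mp h2) (by rw [cjs_mul]; exact cjs_le_cjs.mpr h4))
  refine ⟨?_, ?_, ?_⟩
  · rw [le_cjs_iff, ← cjs_mul]; exact e1
  · rw [cjs_le_iff, ← cjs_mul]; exact e2
  · intro heq
    apply e3
    rw [cjs_mul, heq, cjs_inv_cjs]

/-- `cjs g M ⊓ W` normalizes `cjs g A`. -/
theorem f3 (S : ZSetup A M) {g : G} {W : Subgroup G} (hW : IsCoatom W) (h1 : cjs g A ≤ W) (hne : cjs g M ≠ W)
    {i : G} (hi : i ∈ cjs g M) (hi' : i ∈ W) : cjs i (cjs g A) = cjs g A := by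
  by_contra h
  rw [← cjs_mul] at h
  obtain ⟨-, -, e3⟩ := S.f2c (g := g) (h := i * g) h (cjs_coatom S.hM g) hW hne (cjs_le_cjs.mpr S.AM) h1
    (by rw [cjs_mul]; exact cjs_le_of_le_of_mem (cjs_le_cjs.mpr S.AM) hi)
    (by rw [cjs_mul]; exact cjs_le_of_le_of_mem h1 hi')
  apply e3
  rw [cjs_mul, cjs_eq_of_mem hi]

end ZSetup

/-- Conjugates of `A` in both `V` and `W`. -/
def TT (A V W : Subgroup G) : Set (Subgroup G) := {C | (∃ g, C = cjs g A) ∧ C ≤ V ∧ C ≤ W}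

/-- A pair of distinct maximal subgroups, maximal with respect to the join of `TT`. -/
def MaxPair (A V W : Subgroup G) : Prop :=
  IsCoatom V ∧ IsCoatom W ∧ V ≠ W ∧ (TT A V W).Nonempty ∧
    ∀ V' W' : Subgroup G, IsCoatom V' → IsCoatom W' → V' ≠ W' → (TT A V' W').Nonempty →
      Nat.card (sSup (TT A V' W') : Subgroup G) ≤ Nat.card (sSup (TT A V W) : Subgroup G)

omit [Finite G] in
theorem TT_symm (A V W : Subgroup G) : TT A V W = TT A W V := by
  ext C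
  constructor
  · rintro ⟨h1, h2, h3⟩; exact ⟨h1, h3, h2⟩
  · rintro ⟨h1, h2, h3⟩; exact ⟨h1, h3, h2⟩

omit [Finite G] in
theorem TT_le_left {A V W : Subgroup G} : sSup (TT A V W) ≤ V := sSup_le fun C hC => hC.2.1
omit [Finite G] in
theorem TT_le_right {A V W : Subgroup G} : sSup (TT A V W) ≤ W := sSup_le fun C hC => hC.2.2

omit [Finite G] in
theorem MaxPair.symm {A V W : Subgroup G} (h : MaxPair A V W) : MaxPair A W V := by
  obtain ⟨h1, h2, h3, h4, h5⟩ := h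
  refine ⟨h2, h1, h3.symm, TT_symm A V W ▸ h4, ?_⟩
  rw [TT_symm A W V]
  exact h5

theorem MaxPair.of_subset {A V W V' W' : Subgroup G} (h : MaxPair A V W) (hV' : IsCoatom V') (hW' : IsCoatom W')
    (hne : V' ≠ W') (hsub : TT A V W ⊆ TT A V' W') : MaxPair A V' W' ∧ TT A V' W' = TT A V W := by
  obtain ⟨h1, h2, h3, h4, h5⟩ := h
  have hne' : (TT A V' W').Nonempty := h4.mono hsub
  have h6 := h5 V' W' hV' hW' hne hne'
  have h7 : sSup (TT A V W) = sSup (TT A V' W') := eq_of_le_of_card_ge (sSup_le_sSup hsub) h6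
  have h8 : TT A V' W' = TT A V W := by
    apply le_antisymm _ hsub
    intro C hC
    have h9 : C ≤ sSup (TT A V W) := by rw [h7]; exact le_sSup hC
    exact ⟨hC.1, h9.trans TT_le_left, h9.trans TT_le_right⟩
  refine ⟨⟨hV', hW', hne, hne', ?_⟩, h8⟩
  rw [h8]
  exact h5

namespace ZSetup
variable {A M : Subgroup G}

/-- All members of `TT A V W` lie in the special maximal subgroups of each other. -/
theorem TT_le_special (S : ZSetup A M) {V W : Subgroup G} (h : MaxPair A V W) {g : G} (hg : cjs g A ∈ TT A V W)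
    {C : Subgroup G} (hC : C ∈ TT A V W) : C ≤ cjs g M := by
  obtain ⟨⟨k, rfl⟩, h2, h3⟩ := hC
  by_cases heq : cjs k A = cjs g A
  · rw [heq]; exact cjs_le_cjs.mpr S.AM
  · exact (S.f2c heq h.1 h.2.1 h.2.2.1 hg.2.1 hg.2.2 h2 h3).1

theorem main_aux (S : ZSetup A M) {W : Subgroup G} {g : G} (h : MaxPair A (cjs g M) W)
    (hg : cjs g A ∈ TT A (cjs g M) W) :
    ∃ v ∈ cjs g M, v ∈ normalizer ((sSup (TT A (cjs g M) W) : Subgroup G) : Set G) ∧ v ∉ W := by
  set V := cjs g M with hV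
  have hVc := h.1
  have hWc := h.2.1
  have hVW := h.2.2.1
  -- another member
  set 𝒯 := TT A V W with h𝒯
  have hnA : normalizer ((cjs g A : Subgroup G) : Set G) ≤ V := by
    intro n hn
    rw [mem_normalizer_iff_cjs, ← cjs_mul] at hn
    have := S.wd hn
    rw [cjs_mul] at this
    -- n ∈ N(V) = V
    have h1 : n ∈ normalizer ((cjs g M : Subgroup G) : Set G) := mem_normalizer_iff_cjs.mpr this
    by_contra hnV
    have h2 : normalizer ((cjs g M : Subgroup G) : Set G) = ⊤ := hVc.2 _ (lt_of_le_of_ne le_normalizer (fun heq => hnV (heq.ge h1)))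
    have h3 : (cjs g M).Normal := normalizer_eq_top_iff.mp h2
    have h4 : cjs g M = M := by
      have := (cjs g M).normalizer_eq_top_iff.mp
      have h5 : cjs g⁻¹ (cjs g M) = cjs g M := mem_normalizer_iff_cjs.mp (by rw [h2]; exact mem_top _)
      rw [cjs_inv_cjs] at h5; exact h5.symm
    rw [h4] at h3
    exact S.hM.1 (S.hcl M h3 S.AM)
  have hother : ∃ C ∈ 𝒯, C ≠ cjs g A := by
    have h1 : SnIn (cjs g A) W := S.f1c hWc.1 hg.2.2 (fun hle => hVW (by
      by_contra hne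
      exact hVc.1 (hWc.2 V (lt_of_le_of_ne hle (Ne.symm hne)))))
    obtain ⟨w, hw, hw1, hw2, hw3⟩ := h1.exists_conj (fun hle => hVW (by
      by_contra hne
      exact hVc.1 (hWc.2 V (lt_of_le_of_ne (hle.trans hnA) (Ne.symm hne)))))
    exact ⟨cjs w (cjs g A), ⟨⟨w * g, (cjs_mul _ _ _).symm⟩, hw2.trans hnA, hw3⟩, hw1⟩
  -- the subgroup generated by the other members
  set 𝒯' := 𝒯 \ {cjs g A} with h𝒯'
  set XA := sSup 𝒯' with hXA
  have hsp : ∀ k : G, cjs k A ∈ 𝒯' → cjs k M ≠ V := by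
    intro k hk
    exact (S.f2c (g := g) (h := k) hk.2 hVc hWc hVW hg.2.1 hg.2.2 hk.1.2.1 hk.1.2.2).2.2
  have hsn : ∀ C ∈ 𝒯', SnIn C V := by
    intro C hC
    obtain ⟨k, rfl⟩ := hC.1.1
    have h1 := hsp k hC
    exact S.f1c hVc.1 hC.1.2.1 (fun hle => h1 (by
      by_contra hne
      exact (cjs_coatom S.hM k).1 (hVc.2 _ (lt_of_le_of_ne hle (Ne.symm hne)))))
  have hXsn : SnIn XA V := SnIn.sSup _ hsn
  have hXAV : XA ≤ V := hXsn.1
  have hXAW : XA ≤ W := sSup_le fun C hC => hC.1.2.2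
  -- conjugates of members of 𝒯' inside V ⊓ W by elements of V are members
  have hcj : ∀ v ∈ V, ∀ C ∈ 𝒯', cjs v C ≤ V → cjs v C ≤ W → cjs v C ∈ 𝒯' := by
    intro v hv C hC h1 h2
    obtain ⟨k, rfl⟩ := hC.1.1
    refine ⟨⟨⟨v * k, (cjs_mul _ _ _).symm⟩, h1, h2⟩, ?_⟩
    intro heq
    rw [Set.mem_singleton_iff, ← cjs_mul] at heq
    have h3 := S.wd heq
    rw [cjs_mul] at h3
    apply hsp k hC
    have h4 := congrArg (cjs v⁻¹) h3
    rw [cjs_inv_cjs] at h4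
    rw [h4]
    exact cjs_eq_of_mem (inv_mem hv)
  have hstep : ∃ v ∈ V, v ∈ normalizer (XA : Set G) ∧ v ∉ W := by
    by_contra hcon
    push Not at hcon
    by_cases hVN : V ≤ normalizer (XA : Set G)
    · have : V ≤ W := fun v hv => hcon v hv (hVN hv)
      exact hVW (by
        by_contra hne
        exact hWc.1 (hVc.2 W (lt_of_le_of_ne this hne)))
    · obtain ⟨v, hv, hv1, hv2, hv3⟩ := hXsn.exists_conj hVN
      have hvW : cjs v XA ≤ W := fun y hy => hcon y (hv3 hy) (hv2 hy)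
      apply hv1
      refine eq_of_le_of_card_ge ?_ (by rw [card_cjs])
      rw [cjs_le_iff]
      apply sSup_le
      intro C hC
      rw [← cjs_le_iff]
      have h1 : cjs v C ≤ cjs v XA := cjs_le_cjs.mpr (le_sSup hC)
      exact le_sSup (hcj v hv C hC (h1.trans hv3) (h1.trans hvW))
  obtain ⟨v, hv, hvX, hvW⟩ := hstep
  refine ⟨v, hv, ?_, hvW⟩
  -- v normalizes the whole join
  obtain ⟨C, hC, hCne⟩ := hother
  have hC' : C ∈ 𝒯' := ⟨hC, hCne⟩
  obtain ⟨k, rfl⟩ := hC.1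
  have hvXA : cjs v XA = XA := mem_normalizer_iff_cjs.mp hvX
  have hvC : cjs v (cjs k A) ∈ 𝒯' := by
    have h1 : cjs v (cjs k A) ≤ XA := by rw [← hvXA]; exact cjs_le_cjs.mpr (le_sSup hC')
    exact hcj v hv _ hC' (h1.trans hXAV) (h1.trans hXAW)
  have key : ∀ k : G, cjs k A ∈ 𝒯' → TT A V (cjs k M) = 𝒯 := by
    intro k hk
    refine (h.of_subset hVc (cjs_coatom S.hM k) (hsp k hk).symm ?_).2
    intro D hD
    exact ⟨hD.1, hD.2.1, S.TT_le_special h hk.1 hD⟩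
  have k1 := key k hC'
  have k2 := key (v * k) (by rw [cjs_mul]; exact hvC)
  apply mem_normalizer_of_cjs_le
  rw [cjs_le_iff]
  apply sSup_le
  intro D hD
  rw [← cjs_le_iff]
  have hD1 : D ∈ TT A V (cjs k M) := by rw [k1]; exact hD
  have hD2 : cjs v D ∈ TT A V (cjs (v * k) M) := by
    obtain ⟨⟨d, rfl⟩, e2, e3⟩ := hD1
    refine ⟨⟨v * d, (cjs_mul _ _ _).symm⟩, cjs_le_of_le_of_mem e2 hv, ?_⟩
    rw [cjs_mul]
    exact cjs_le_cjs.mpr e3
  rw [k2] at hD2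
  exact le_sSup hD2

theorem false_of_maxPair (S : ZSetup A M) {W : Subgroup G} {g : G} (h : MaxPair A (cjs g M) W)
    (hg : cjs g A ∈ TT A (cjs g M) W) : False := by
  set V := cjs g M with hV
  have hVc := h.1
  have hWc := h.2.1
  have hVW := h.2.2.1
  set X := sSup (TT A V W) with hX
  have hXV : X ≤ V := TT_le_left
  have hXW : X ≤ W := TT_le_right
  -- an element of W normalizing X, outside V
  have hw : ∃ w ∈ W, w ∈ normalizer (X : Set G) ∧ w ∉ V := by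
    by_cases hsp : ∃ k, cjs k A ∈ TT A V W ∧ W = cjs k M
    · obtain ⟨k, hk, rfl⟩ := hsp
      have h1 := S.main_aux (W := V) (g := k) h.symm (by rw [TT_symm]; exact hk)
      rw [TT_symm, ← hX] at h1
      exact h1
    · push Not at hsp
      have hsn : ∀ C ∈ TT A V W, SnIn C W := by
        intro C hC
        obtain ⟨k, rfl⟩ := hC.1
        have h1 := hsp k hC
        exact S.f1c hWc.1 hC.2.2 (fun hle => h1 (by
          by_contra hne
          exact (cjs_coatom S.hM k).1 (hWc.2 _ (lt_of_le_of_ne hle hne))))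
      have hXsn : SnIn X W := SnIn.sSup _ hsn
      by_contra hcon
      push Not at hcon
      by_cases hWN : W ≤ normalizer (X : Set G)
      · have : W ≤ V := fun v hv => hcon v hv (hWN hv)
        exact hVW (by
          by_contra hne
          exact hVc.1 (hWc.2 V (lt_of_le_of_ne this (Ne.symm hne))))
      · obtain ⟨w, hw, hw1, hw2, hw3⟩ := hXsn.exists_conj hWN
        have hwV : cjs w X ≤ V := fun y hy => hcon y (hw3 hy) (hw2 hy)
        apply hw1
        refine eq_of_le_of_card_ge ?_ (by rw [card_cjs])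
        rw [cjs_le_iff]
        apply sSup_le
        intro C hC
        rw [← cjs_le_iff]
        have h1 : cjs w C ≤ cjs w X := cjs_le_cjs.mpr (le_sSup hC)
        obtain ⟨k, rfl⟩ := hC.1
        exact le_sSup ⟨⟨w * k, (cjs_mul _ _ _).symm⟩, h1.trans hwV, h1.trans hw3⟩
  obtain ⟨w, hwW, hwX, hwV⟩ := hw
  -- the normalizer of X is proper
  have hNt : normalizer (X : Set G) ≠ ⊤ := by
    intro heq
    have hXn : X.Normal := normalizer_eq_top_iff.mp heq
    have h1 : A ≤ X := by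
      have h2 : cjs g⁻¹ (cjs g A) ≤ cjs g⁻¹ X := cjs_le_cjs.mpr (le_sSup hg)
      rw [cjs_inv_cjs, mem_normalizer_iff_cjs.mp (by rw [heq]; exact mem_top _)] at h2
      exact h2
    have h2 := S.hcl X hXn h1
    exact hVc.1 (top_le_iff.mp (h2 ▸ hXV))
  obtain ⟨L, hL, hNL⟩ := (eq_top_or_exists_le_coatom _).resolve_left hNt
  have hVL : V ≠ L := fun heq => hwV (by rw [heq]; exact hNL hwX)
  have hXL : X ≤ L := le_normalizer.trans hNL
  obtain ⟨h1, h2⟩ := h.of_subset hVc hL hVL (fun D hD => ⟨hD.1, hD.2.1, (le_sSup hD).trans hXL⟩)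
  obtain ⟨v, hv, hv1, hv2⟩ := S.main_aux h1 (by rw [← hV, h2]; exact hg)
  rw [← hV, h2] at hv1
  exact hv2 (hNL hv1)

theorem uniqMax (S : ZSetup A M) : UniqMax A := by
  by_contra hcon
  unfold UniqMax at hcon
  push Not at hcon
  obtain ⟨V₀, W₀, hV₀, hW₀, hAV₀, hAW₀, hne₀⟩ := hcon
  let P : Set (Subgroup G × Subgroup G) :=
    {q | IsCoatom q.1 ∧ IsCoatom q.2 ∧ q.1 ≠ q.2 ∧ (TT A q.1 q.2).Nonempty}
  have hP : P.Nonempty := ⟨(V₀, W₀), hV₀, hW₀, hne₀, A, ⟨1, (cjs_one A).symm⟩, hAV₀, hAW₀⟩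
  obtain ⟨⟨V, W⟩, ⟨h1, h2, h3, h4⟩, h5⟩ := Set.exists_max_image P
    (fun q => Nat.card (sSup (TT A q.1 q.2) : Subgroup G)) (Set.toFinite _) hP
  have hmax : MaxPair A V W := ⟨h1, h2, h3, h4, fun V' W' a b c d => h5 (V', W') ⟨a, b, c, d⟩⟩
  obtain ⟨C, hC⟩ := h4
  obtain ⟨g, rfl⟩ := hC.1
  by_cases hgW : cjs g M = W
  · -- swap
    subst hgW
    exact S.false_of_maxPair hmax.symm (by rw [TT_symm]; exact hC)
  · obtain ⟨e1, e2⟩ := hmax.of_subset (cjs_coatom S.hM g) h2 hgW (fun D hD =>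
      ⟨hD.1, S.TT_le_special hmax hC hD, hD.2.2⟩)
    exact S.false_of_maxPair e1 (by rw [e2]; exact hC)

end ZSetup

theorem zipper_var_aux (n : ℕ) : ∀ A : Subgroup G, Nat.card G - Nat.card A = n → A ≠ ⊤ →
    (∀ N : Subgroup G, N.Normal → A ≤ N → N = ⊤) → sSup (HF A) ≠ ⊤ → UniqMax A := by
  induction n using Nat.strong_induction_on with
  | _ n ih =>
  intro A hn hA hcl hY
  have hAY : A ≤ sSup (HF A) := le_sSup (self_mem_HF hA)
  have hNt : normalizer ((sSup (HF A) : Subgroup G) : Set G) ≠ ⊤ := fun h =>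
    hY (hcl _ (normalizer_eq_top_iff.mp h) hAY)
  obtain ⟨M, hM, hNM⟩ := (eq_top_or_exists_le_coatom _).resolve_left hNt
  have S : ZSetup A M := ⟨hA, hcl, hM, hNM, fun B hAB hB hYB => ih (Nat.card G - Nat.card B) (by
    have h3 := H1.card_lt_of_lt' hAB
    have h4 := card_le_card_group B
    omega) B rfl hB (fun N hN hBN => hcl N hN (hAB.le.trans hBN)) hYB⟩
  exact S.uniqMax

end main

end Cfsg.Agent.H23
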